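import Cfsg.Agent.Hir.Geo
import Cfsg.Agent.Char.Frobenius

/-! The affine case. -/

set_option autoImplicit false

namespace Cfsg.Agent.Hir

open Subgroup MulAction

variable {G Ω : Type*} [Group G] [MulAction G Ω]

/-- Parallel lines. -/
def Par (L M : Subgroup G) : Prop := ∃ t, t ≠ 1 ∧ t ∈ L ∧ t ∈ M

variable {q : ℕ} {N : Ω → Subgroup G} {ty : Ω → Subgroup G → Bool} {x y z a b : Ω}
  {P Q R R' S T L L' M M' : Subgroup G}

theorem Par.symm (h : Par L M) : Par M L := h.imp fun _ h => ⟨h.1, h.2.2, h.2.1⟩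

theorem Par.smul (h : Par L M) (g : G) : Par (g • L) (g • M) :=
  let ⟨t, h1, h2, h3⟩ := h
  ⟨g * t * g⁻¹, by simpa using h1, cj_mem.2 h2, cj_mem.2 h3⟩

namespace Ctx

variable [Finite G] [Finite Ω] (c : Ctx q N ty)
include c

theorem par_refl (hL : Ln q N L) : Par L L := by
  obtain ⟨x, -, -, h1, -⟩ := c.ln_two hL
  obtain ⟨t, h2, h3⟩ := (c.pl x).exists_ne_one (c.ln_vx hL h1)
  exact ⟨t, h3, h2, h2⟩

theorem par_eq (hL : Ln q N L) (hM : Ln q N M) (h : Par L M) (h1 : On x L) (h2 : On x M) : L = M :=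
  let ⟨_, h3, h4, h5⟩ := h
  c.ln_eq hL hM h1 h2 h3 h4 h5

theorem par_in (_hL : Ln q N L) (hR : Pn q N R) (h1 : Adj L R) (h2 : On y R) :
    ∃ M, Ln q N M ∧ On y M ∧ Par L M ∧ Adj M R :=
  let ⟨t, h3, h4, h5⟩ := h1.2
  let ⟨M, hM, h6, h7⟩ := c.line_thru hR h3 h5 h2
  ⟨M, hM, h6, ⟨t, h3, h4, h7⟩, hM.ne hR, t, h3, h7, h5⟩

theorem exists_par (hL : Ln q N L) (y : Ω) : ∃ M, Ln q N M ∧ On y M ∧ Par L M := by
  by_cases e : On y L
  · exact ⟨L, hL, e, c.par_refl hL⟩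
  obtain ⟨R, hR, h1, h2⟩ := c.exists_plane hL e
  obtain ⟨M, h3, h4, h5, -⟩ := c.par_in hL hR h1 h2
  exact ⟨M, h3, h4, h5⟩

theorem line_adj_smul (hL : Ln q N L) (hR : Pn q N R) {g : G} (h1 : ∀ z : Ω, On z L → On (g • z) R) :
    Adj (g • L) R := by
  obtain ⟨x, y, h2, h3, h4⟩ := c.ln_two hL
  exact c.adj_of_two (c.ln_smul hL g) hR (fun e => h2 (smul_left_cancel g e)) (le_stab_smul.2 h3) (le_stab_smul.2 h4)
    (h1 x h3) (h1 y h4)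

variable (hq : ∀ L, Ln q N L → {y : Ω | On y L}.ncard = q)
include hq

theorem par_uniq0 (hL : Ln q N L) (hR : Pn q N R) (h1 : Adj L R) (hM : Ln q N M) (hM' : Ln q N M') (h2 : On y M)
    (h3 : On y M') (h4 : Adj M R) (h5 : Adj M' R) (h6 : ∀ z : Ω, On z L → ¬ On z M)
    (h7 : ∀ z : Ω, On z L → ¬ On z M') : M = M' := by
  have h8 := c.sub hR h4 h2
  have h9 : ∀ z : Ω, On z L → y ≠ z := fun z h9 e => h6 z h9 (e ▸ h2)
  choose! f hf using fun z (hz : On z L) => c.exists_ln (h9 z hz)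
  by_contra h10
  obtain ⟨z, hz, e⟩ := surj_of_inj f (s := {z : Ω | On z L}) (t := {T | Vx q (N y) T ∧ Adj R T ∧ T ≠ M})
    (fun z hz => ⟨c.ln_vx (hf z hz).1 (hf z hz).2.1, (c.adj_of_two (hf z hz).1 hR (h9 z hz) (hf z hz).2.1
      (hf z hz).2.2 h8 (c.sub hR h1 hz)).symm, fun e => h6 z hz (e ▸ (hf z hz).2.2)⟩)
    (fun u hu v hv e => by_contra fun h11 => h6 y (c.ln_uniq (hf u hu).1 hL h11 (hf u hu).2.2 (e ▸ (hf v hv).2.2)
      hu hv ▸ (hf u hu).2.1) h2)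
    (by rw [hq L hL, (c.pl y).nbr_card' (c.ln_vx hM h2) (c.pn_vx hR h8) h4.symm])
    M' ⟨c.ln_vx hM' h3, h5.symm, Ne.symm h10⟩
  exact h7 z hz (e ▸ (hf z hz).2.2)

theorem par_of_disj (hL : Ln q N L) (hR : Pn q N R) (h1 : Adj L R) (hM : Ln q N M) (h2 : Adj M R)
    (h3 : ∀ z : Ω, On z L → ¬ On z M) : Par L M := by
  obtain ⟨y, -, -, h4, -⟩ := c.ln_two hM
  obtain ⟨M', h5, h6, h7, h8⟩ := c.par_in hL hR h1 (c.sub hR h2 h4)
  rwa [c.par_uniq0 hq hL hR h1 hM h5 h4 h6 h2 h8 h3 fun z h9 h10 => h3 y (c.par_eq hL h5 h7 h9 h10 ▸ h6) h4]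

theorem par_uniq (hL : Ln q N L) (hM : Ln q N M) (hM' : Ln q N M') (h1 : Par L M) (h2 : Par L M') (h3 : On y M)
    (h4 : On y M') : M = M' := by
  by_cases e : On y L
  · exact (c.par_eq hL hM h1 e h3).symm.trans (c.par_eq hL hM' h2 e h4)
  have key : ∀ M, Ln q N M → Par L M → On y M → (∀ z : Ω, On z L → ¬ On z M) ∧
      ∃ R, Pn q N R ∧ Adj L R ∧ Adj M R := fun M hM h1 h3 =>
    ⟨fun z h5 h6 => e (c.par_eq hL hM h1 h5 h6 ▸ h3), by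
      obtain ⟨t, h5, h6, h7⟩ := h1
      obtain ⟨R, hR, h8⟩ := c.plane_of hL h5 h6
      exact ⟨R, hR, ⟨hL.ne hR, t, h5, h6, h8⟩, hM.ne hR, t, h5, h7, h8⟩⟩
  obtain ⟨h5, R, hR, h6, h7⟩ := key M hM h1 h3
  obtain ⟨h8, R', hR', h9, h10⟩ := key M' hM' h2 h4
  obtain rfl := c.plane_uniq hL e hR hR' h6 h9 (c.sub hR h7 h3) (c.sub hR' h10 h4)
  exact c.par_uniq0 hq hL hR h6 hM hM' h3 h4 h7 h10 h5 h8

theorem par_adj (hL : Ln q N L) (hR : Pn q N R) (h1 : Adj L R) (h2 : On y R) (hM : Ln q N M) (h3 : On y M)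
    (h4 : Par L M) : Adj M R := by
  obtain ⟨M', h5, h6, h7, h8⟩ := c.par_in hL hR h1 h2
  rwa [c.par_uniq hq hL hM h5 h4 h7 h3 h6]

theorem par_move (hL : Ln q N L) {t : G} (h1 : t ≠ 1) (h2 : t ∈ L) (h3 : t • x ≠ x) (hM : Ln q N M) (h4 : On x M)
    (h5 : On (t • x) M) : Par L M := by
  obtain ⟨S, hS, h6, h7⟩ := c.exists_plane hL fun e : On x L => h3 (e h2)
  obtain ⟨y, -, -, h8, -⟩ := c.ln_two hL
  have h9 := (c.pl y).fix_adj (c.ln_vx hL h8) (c.pn_vx hS (c.sub hS h6 h8)) h6 h2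
  have h10 : t • M = M := c.ln_uniq (c.ln_smul hM t) hM h3 (le_stab_smul.2 h4)
    (by simpa [← mul_smul, (c.ln_vx hL h8).sq t h2] using (le_stab_smul (g := t)).2 h5) h5 h4
  refine c.par_of_disj hq hL hS h6 hM (c.adj_of_two hM hS h3 h5 h4 (h9 ▸ le_stab_smul.2 h7) h7) fun z h11 h12 => ?_
  obtain ⟨R, hR, h13⟩ := c.plane_of hL h1 h2
  exact h3 (c.sub hR ((c.pl z).fix_ty (c.ln_vx hL h11) (c.pn_vx hR (c.fix_plane hR h1 h13 (h11 h2))) (c.ln_vx hM h12)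
    h1 h2 h13 (hL.ne hR) h10 (c.ln_ty hL hM h11 h12)).symm h4 h13)

theorem par_trans (hL : Ln q N L) (hM : Ln q N M) (hT : Ln q N T) (h1 : Par L M) (h2 : Par M T) : Par L T := by
  obtain ⟨t, h3, h4, h5⟩ := h1
  obtain ⟨x, -, -, h6, -⟩ := c.ln_two hT
  by_cases e : t • x = x
  · obtain ⟨R, hR, h7⟩ := c.plane_of hL h3 h4
    obtain ⟨L', h8, h9, h10⟩ := c.line_thru hR h3 h7 (c.fix_plane hR h3 h7 e)
    exact ⟨t, h3, h4, c.par_uniq hq hM h8 hT ⟨t, h3, h5, h10⟩ h2 h9 h6 ▸ h10⟩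
  · obtain ⟨L', h7, h8, h9⟩ := c.exists_ln e
    exact c.par_uniq hq hM h7 hT (c.par_move hq hM h3 h5 e h7 h9 h8) h2 h9 h6 ▸ c.par_move hq hL h3 h4 e h7 h9 h8

theorem par_plane {L1 L2 M1 M2 : Subgroup G} (hR : Pn q N R) (hL1 : Ln q N L1) (hL2 : Ln q N L2) (h1 : On x L1)
    (h2 : On x L2) (h3 : L1 ≠ L2) (h4 : Adj L1 R) (h5 : Adj L2 R) (hS : Pn q N S) (hM1 : Ln q N M1) (hM2 : Ln q N M2)
    (h6 : Adj M1 S) (h7 : Adj M2 S) (h8 : Par L1 M1) (h9 : Par L2 M2) (hM : Ln q N M) (h10 : Adj M S) (hL : Ln q N L)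
    (h11 : On x L) (h12 : Par M L) : Adj L R := by
  have h13 := c.sub hR h4 h1
  by_cases hc : ∃ y : Ω, On y R ∧ On y S
  · obtain ⟨y, h14, h15⟩ := hc
    obtain ⟨A, hA, h16, h17, h18⟩ := c.par_in hL1 hR h4 h14
    obtain ⟨B, hB, h19, h20, h21⟩ := c.par_in hL2 hR h5 h14
    obtain rfl := c.join_uniq hA hB h16 h19
      (fun e => h3 (c.par_eq hL1 hL2 (c.par_trans hq hL1 hA hL2 h17 (e ▸ h20.symm)) h1 h2)) hR hS h18 h21
      (c.par_adj hq hM1 hS h6 h15 hA h16 (c.par_trans hq hM1 hL1 hA h8.symm h17))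
      (c.par_adj hq hM2 hS h7 h15 hB h19 (c.par_trans hq hM2 hL2 hB h9.symm h20))
    exact c.par_adj hq hM hR h10 h13 hL h11 h12
  push Not at hc
  obtain ⟨T, hT, h14, h15⟩ := c.exists_plane hM fun e => hc x h13 (c.sub hS h10 e)
  obtain ⟨y, -, -, h16, -⟩ := c.ln_two hM
  obtain ⟨L', h17, h18, h19, h20⟩ := c.meet hR hT h13 h15 fun e => hc y (e ▸ c.sub hT h14 h16) (c.sub hS h10 h16)
  rwa [c.par_uniq hq hM hL h17 h12 (c.par_of_disj hq hM hT h14 h17 h20 fun z h21 h22 =>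
    hc z (c.sub hR h19 h22) (c.sub hS h10 h21)) h11 h18]

theorem exists_col (a : Ω) (g : G) : ∃ f, Pl.Col q (N a) f ∧
    ∀ L, Ln q N L → Ln q N (f L) ∧ On a (f L) ∧ Par (g • L) (f L) := by
  classical
  choose! d hd using fun L (hL : Ln q N L) => c.exists_par (c.ln_smul hL g) a
  have key : ∀ R, Pn q N R ∧ On a R → ∃ S, Vx q (N a) S ∧ ∀ L, Ln q N L → Adj L R → Adj (d L) S := by
    intro R ⟨hR, h1⟩
    obtain ⟨A, hA, h2, h3, -⟩ := c.exists_line hR h1 R R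
    obtain ⟨B, hB, h4, h5, h6, -⟩ := c.exists_line hR h1 A A
    have h7 : d A ≠ d B := fun e => h6 (smul_left_cancel g (c.par_eq (c.ln_smul hB g) (c.ln_smul hA g)
      (c.par_trans hq (c.ln_smul hB g) (hd B hB).1 (c.ln_smul hA g) (hd B hB).2.2 (e ▸ (hd A hA).2.2.symm))
      (le_stab_smul.2 h4) (le_stab_smul.2 h2)))
    obtain ⟨S, hS, h8, h9⟩ := c.join (hd A hA).1 (hd B hB).1 (hd A hA).2.1 (hd B hB).2.1 h7
    exact ⟨S, c.pn_vx hS (c.sub hS h8 (hd A hA).2.1), fun L hL h10 => c.par_plane hq hS (hd A hA).1 (hd B hB).1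
      (hd A hA).2.1 (hd B hB).2.1 h7 h8 h9 (c.pn_smul hR g) (c.ln_smul hA g) (c.ln_smul hB g) (h3.smul g) (h5.smul g)
      (hd A hA).2.2.symm (hd B hB).2.2.symm (c.ln_smul hL g) (h10.smul g) (hd L hL).1 (hd L hL).2.1 (hd L hL).2.2⟩
  choose! s hs using key
  refine ⟨fun Q => if Ln q N Q then d Q else s Q, ⟨fun {Q} hQ => ?_, fun {Q R} hQ hR h1 => ?_⟩, fun L hL => ?_⟩
  · split_ifs with e
    · exact c.ln_vx (hd Q e).1 (hd Q e).2.1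
    · exact (hs Q ⟨⟨⟨a, hQ⟩, e⟩, c.vx_le hQ⟩).1
  · by_cases e : Ln q N Q
    · have h2 := c.pn_of_adj e (c.vx_le hQ) hR h1
      rw [if_pos e, if_neg h2.2]
      exact (hs R ⟨h2, c.vx_le hR⟩).2 Q e h1
    · have h2 := c.ln_of_adj ⟨⟨a, hQ⟩, e⟩ (c.vx_le hQ) hR h1
      rw [if_neg e, if_pos h2]
      exact ((hs Q ⟨⟨⟨a, hQ⟩, e⟩, c.vx_le hQ⟩).2 R h2 h1.symm).symm
  · simpa only [if_pos hL] using hd L hL

/-- The group of dilatations. -/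
def dil : Subgroup G where
  carrier := {g | ∀ L, Ln q N L → Par L (g • L)}
  mul_mem' := fun {a b} ha hb L hL => mul_smul a b L ▸
    c.par_trans hq hL (c.ln_smul hL a) (c.ln_smul (c.ln_smul hL b) a) (ha L hL) ((hb L hL).smul a)
  one_mem' := fun L hL => (one_smul G L).symm ▸ c.par_refl hL
  inv_mem' := fun {a} ha L hL => by simpa using (ha _ (c.ln_smul hL a⁻¹)).symm

theorem dil_normal : (c.dil hq).Normal := ⟨fun n hn g L hL => by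
  simpa [mul_smul] using (hn _ (c.ln_smul hL g⁻¹)).smul g⟩

theorem dil_fix {g : G} (hg : g ∈ c.dil hq) (h : x ≠ y) (h1 : g • x = x) (h2 : g • y = y) : g = 1 := by
  have key : ∀ x y z : Ω, ∀ L, Ln q N L → x ≠ y → g • x = x → g • y = y → On x L → On y L → ¬ On z L → g • z = z := by
    intro x y z L hL h h1 h2 h3 h4 h5
    obtain ⟨A, hA, h6, h7⟩ := c.exists_ln fun e : x = z => h5 (e ▸ h3)
    obtain ⟨B, hB, h8, h9⟩ := c.exists_ln fun e : y = z => h5 (e ▸ h4)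
    by_contra h10
    have h11 := c.ln_uniq hA hB h10
      (c.par_eq hA (c.ln_smul hA g) (hg A hA) h6 (smul_le_of_fix h1 h6) ▸ le_stab_smul.2 h7) h7
      (c.par_eq hB (c.ln_smul hB g) (hg B hB) h8 (smul_le_of_fix h2 h8) ▸ le_stab_smul.2 h9) h9
    exact h5 (c.ln_uniq hA hL h h6 (h11 ▸ h8) h3 h4 ▸ h7)
  obtain ⟨L, hL, h3, h4⟩ := c.exists_ln h
  obtain ⟨R, hR, h5, -⟩ := (c.pl x).exists_nbr (c.ln_vx hL h3) L L
  obtain ⟨w, -, h6⟩ := c.exists_off hL (c.pn_of_adj hL h3 hR h5) h5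
  have h7 : x ≠ w := fun e => h6 (e ▸ h3)
  obtain ⟨M, hM, h8, h9⟩ := c.exists_ln h7
  refine c.faith g fun z => ?_
  by_cases e : On z L
  · by_cases e' : x = z
    · exact e' ▸ h1
    exact key x w z M hM h7 h1 (key x y w L hL h h1 h2 h3 h4 h6) h8 h9 fun h10 =>
      h6 (c.ln_uniq hM hL e' h8 h10 h3 e ▸ h9)
  · exact key x y z L hL h h1 h2 h3 h4 e

theorem dil_ne (a : Ω) : ∃ g ∈ c.dil hq, g • a ≠ a := by
  obtain ⟨y, h1⟩ := c.exists_ne a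
  obtain ⟨M, hM, h2, h3⟩ := c.exists_ln h1
  obtain ⟨S, h4, h5, h6⟩ := (c.pl y).exists_opp (c.ln_vx hM h3)
  have hS : Pn q N S := ⟨⟨y, h4⟩, fun e => h5 (c.ln_ty hM e h3 (c.vx_le h4))⟩
  have h7 : ¬ On a S := fun e => h6 (c.adj_of_two hM hS h1 h2 h3 e (c.vx_le h4))
  obtain ⟨t, h8, h9⟩ := (c.pl y).exists_ne_one h4
  obtain ⟨A, hA, h10, h11⟩ := c.line_thru hS h9 h8 (c.vx_le h4)
  have h12 : Adj A S := ⟨hA.ne hS, t, h9, h11, h8⟩
  obtain ⟨B, hB, h13, h14, h15, -⟩ := c.exists_line hS (c.vx_le h4) A A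
  obtain ⟨C, hC, h16, h17⟩ := c.exists_par hA a
  obtain ⟨D, hD, h18, h19⟩ := c.exists_par hB a
  obtain ⟨R, hR, h20, h21⟩ := c.join hC hD h16 h18 fun e =>
    h15 (c.par_eq hB hA (c.par_trans hq hB hD hA h19 (e ▸ h17.symm)) h13 h10)
  have h22 := c.sub hR h20 h16
  have f1 : ∀ L, Ln q N L → Adj L R → Par L (t • L) := fun L hL h23 => by
    obtain ⟨L', h24, h25, h26⟩ := c.exists_par hL y
    have h27 := c.par_plane hq hS hA hB h10 h13 h15.symm h12 h14 hR hC hD h20 h21 h17 h19 hL h23 h24 h25 h26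
    exact c.par_trans hq hL h24 (c.ln_smul hL t) h26
      ((c.pl y).fix_adj h4 (c.ln_vx h24 h25) h27.symm h8 ▸ (h26.smul t).symm)
  have f2 : ∀ T, Pn q N T → Adj C T → ∀ L, Ln q N L → Adj L T → Adj (t • L) T := fun T hT h23 L hL h24 =>
    c.line_adj_smul hL hT fun z h25 => by
      by_cases e : t • z = z
      · rw [e]; exact c.sub hT h24 h25
      obtain ⟨C', h26, h27, h28, h29⟩ := c.par_in hC hT h23 (c.sub hT h24 h25)
      obtain ⟨L', h30, h31, h32⟩ := c.exists_ln e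
      exact c.sub hT h29 (c.par_uniq hq hA h30 h26 (c.par_move hq hA h9 h11 e h30 h32 h31)
        (c.par_trans hq hA hC h26 h17 h28) h32 h27 ▸ h31)
  obtain ⟨X, h23, h24, h25⟩ := (c.pl a).exists_opp (c.pn_vx hR h22)
  have hX : Ln q N X := c.ln_of_ty hC h16 h23 (bool3 (c.pn_ty hC hR h16 h22) h24.symm)
  have h26 : C ≠ X := fun e => h25 (e ▸ h20.symm)
  obtain ⟨T, hT, h27, h28⟩ := c.join hC hX h16 (c.vx_le h23) h26
  have h29 := c.sub hT h27 h16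
  obtain ⟨X', h30, h31, h32⟩ := c.exists_par (c.ln_smul hX t) a
  obtain ⟨s, h33, h34, h35⟩ := (c.pl a).transZ (c.ln_vx hC h16) (c.pn_vx hR h22) (c.pn_vx hT h29) h20 h27
    (fun e => h25 (e ▸ h28.symm)) (c.ln_vx h30 h31) h23
    (c.par_adj hq (c.ln_smul hX t) hT (f2 T hT h27 X hX h28) h29 h30 h31 h32).symm h28.symm
    (fun e => h26 (smul_left_cancel t (c.par_eq (c.ln_smul hC t) (c.ln_smul hX t) (c.par_trans hq (c.ln_smul hC t) hC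
      (c.ln_smul hX t) (f1 C hC h20).symm (e ▸ h32.symm)) (le_stab_smul.2 h16) (le_stab_smul.2 (c.vx_le h23)))))
    h26.symm
  obtain ⟨f, hf, h36⟩ := c.exists_col hq a (s * t)
  have h37 : ∀ L, Ln q N L → On a L → Par ((s * t) • L) L → f L = L := fun L hL h37 h38 =>
    c.par_uniq hq (c.ln_smul hL _) (h36 L hL).1 hL (h36 L hL).2.2 h38 (h36 L hL).2.1 h37
  have h38 := (c.pl a).cc2 hf (c.ln_vx hC h16) (c.pn_vx hR h22) h23 h20 h24 h25 (fun U hU h38 => ?_)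
    (fun L hL h38 => ?_) (h37 X hX (c.vx_le h23) (by rw [mul_smul]; exact h35 ▸ h32.smul s))
  · refine ⟨s * t, fun L hL => ?_, fun e => h7 (c.fix_plane hS h9 h8 ?_)⟩
    · obtain ⟨L', h39, h40, h41⟩ := c.exists_par hL a
      exact c.par_trans hq hL h39 (c.ln_smul hL _) h41 (c.par_trans hq h39 (c.ln_smul h39 _) (c.ln_smul hL _)
        (by simpa only [h38 L' (c.ln_vx h39 h40)] using (h36 L' h39).2.2.symm) (h41.smul _).symm)
    · exact smul_left_cancel s ((mul_smul s t a).symm.trans (e.trans (h16 h33).symm))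
  · have hU' := c.pn_of_adj hC h16 hU h38
    have h39 : ∀ L, Ln q N L → Adj L U → Adj (f L) U := fun L hL h39 =>
      c.par_adj hq (c.ln_smul hL _) hU' (by
        rw [mul_smul, ← (c.pl a).fix_adj (c.ln_vx hC h16) hU h38 h33]
        exact (f2 U hU' h38 L hL h39).smul s) (c.vx_le hU) (h36 L hL).1 (h36 L hL).2.1 (h36 L hL).2.2
    obtain ⟨E, hE, h40, h41, h42, -⟩ := c.exists_line hU' (c.vx_le hU) C C
    exact (c.pl a).eq_of_two (hf.vx hU) hU (hf.vx (c.ln_vx hC h16)) (hf.vx (c.ln_vx hE h40))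
      (fun e => h42 (smul_left_cancel (s * t) (c.par_eq (c.ln_smul hE _) (c.ln_smul hC _) (c.par_trans hq
        (c.ln_smul hE _) (h36 E hE).1 (c.ln_smul hC _) (h36 E hE).2.2 (e ▸ (h36 C hC).2.2.symm))
        (le_stab_smul.2 h40) (le_stab_smul.2 h16))))
      (hf.adj (c.ln_vx hC h16) hU h38) (hf.adj (c.ln_vx hE h40) hU h41) (h39 C hC h38) (h39 E hE h41)
  · have hL' := c.ln_of_adj hR h22 hL h38
    refine h37 L hL' (c.vx_le hL) ?_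
    simpa only [(c.pl a).fix_adj (c.pn_vx hR h22) hL h38 h34, mul_smul] using ((f1 L hL' h38.symm).smul s).symm

theorem exists_regular (a : Ω) : ∃ E : Subgroup G, E.Normal ∧ Nat.card E = Nat.card Ω ∧
    (∀ x y : Ω, ∃ r ∈ E, r • x = y) ∧ ∀ x : Ω, ∀ r ∈ E, r • x = x → r = 1 := by
  obtain ⟨g, h1, h2⟩ := c.dil_ne hq a
  have h3 : ∀ y, ∃ k : c.dil hq, k • a = y := fun y => by
    by_cases e : a = y
    · exact ⟨1, by simpa using e⟩
    obtain ⟨h, h3, rfl⟩ := c.two a (g • a) a y h2.symm e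
    exact ⟨⟨_, (c.dil_normal hq).conj_mem g h1 h⟩, by
      rw [Subgroup.mk_smul, mul_smul, mul_smul, inv_smul_eq_iff.2 h3.symm]⟩
  haveI : IsPretransitive (c.dil hq) Ω := ⟨fun x y => by
    obtain ⟨k, rfl⟩ := h3 x
    obtain ⟨l, rfl⟩ := h3 y
    exact ⟨l * k⁻¹, by simp [mul_smul]⟩⟩
  obtain ⟨K, -, h4, h5, -, h6, -⟩ := Char.frobenius_perm (G := c.dil hq) (Ω := Ω)
    (fun g x y h4 h5 h6 => Subtype.ext (c.dil_fix hq g.2 h4 h5 h6)) a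
  have h7 : ∀ r, r ∈ K.map (c.dil hq).subtype ↔ r ∈ c.dil hq ∧ (r = 1 ∨ ∀ b : Ω, r • b ≠ b) := fun r =>
    ⟨fun ⟨k, h7, e⟩ => e ▸ ⟨k.2, ((h4 k).1 h7).imp_left (congrArg Subtype.val)⟩,
      fun h7 => ⟨⟨r, h7.1⟩, (h4 _).2 (h7.2.imp_left fun e => Subtype.ext e), rfl⟩⟩
  refine ⟨K.map (c.dil hq).subtype, ⟨fun n hn h => ?_⟩, by rw [card_map_of_injective (subtype_injective _), h6],
    fun x y => ?_, fun x r h8 h9 => ((h7 r).1 h8).2.resolve_right fun h10 => h10 x h9⟩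
  · rw [h7] at hn ⊢
    refine ⟨(c.dil_normal hq).conj_mem n hn.1 h, hn.2.imp (fun e => by simp [e]) fun h8 b e => h8 (h⁻¹ • b) ?_⟩
    rwa [mul_smul, mul_smul, smul_eq_iff_eq_inv_smul] at e
  · obtain ⟨k, e⟩ := h5.exists_smul_eq x y
    exact ⟨k.1.1, ⟨k.1, k.2, rfl⟩, e⟩

theorem third_line {L1 L2 : Subgroup G} (hL1 : Ln q N L1) (hL2 : Ln q N L2) (h1 : On a L1) (h2 : On a L2)
    (h3 : L1 ≠ L2) (hR : Pn q N R) (h4 : Adj L1 R) (h5 : Adj L2 R) {g : G} (h6 : ∀ y : Ω, On y L1 → g • y = y)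
    (h7 : ∀ y : Ω, On y L2 → g • y = y) : ∃ L, Ln q N L ∧ On a L ∧ Adj L R ∧ L ≠ L1 ∧ L ≠ L2 ∧ g • L = L := by
  obtain ⟨x, h8, h9⟩ := c.ln_other hL1 a
  obtain ⟨y, h10, h11⟩ := c.ln_other hL2 a
  have h12 : x ≠ y := fun e => h3 (c.ln_uniq hL1 hL2 h8 h1 h9 h2 (e ▸ h11))
  obtain ⟨M, hM, h13, h14⟩ := c.exists_ln h12
  obtain ⟨L, hL, h15, h16⟩ := c.exists_par hM a
  refine ⟨L, hL, h15, c.par_adj hq hM hR (c.adj_of_two hM hR h12 h13 h14 (c.sub hR h4 h9) (c.sub hR h5 h11))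
    (c.sub hR h4 h1) hL h15 h16, fun e => h3 ?_, fun e => h3 ?_, c.par_uniq hq hM (c.ln_smul hL g) hL
    (c.ln_fix hM h12 h13 h14 (h6 x h9) (h7 y h11) ▸ h16.smul g) h16 (smul_le_of_fix (h6 a h1) h15) h15⟩
  · exact c.ln_uniq hL1 hL2 h10 h1 (c.par_eq hM hL1 (e ▸ h16) h13 h9 ▸ h14) h2 h11
  · exact c.ln_uniq hL1 hL2 h8 h1 h9 h2 (c.par_eq hM hL2 (e ▸ h16) h14 h11 ▸ h13)

end Ctx

end Cfsg.Agent.Hir
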