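import Cfsg.Agent.Hir.Pl2
import Cfsg.Agent.Geom.PSLn

/-! The plane of `PSL₃(F)` in characteristic two. -/

set_option autoImplicit false

namespace Cfsg.Agent.Hir

open Subgroup Matrix

variable {F : Type*} [Field F] {G : Type*} [Group G]

/-- The special linear group. -/
abbrev S3 (F : Type*) [Field F] := SpecialLinearGroup (Fin 3) F

open scoped Classical in
/-- Transvections. -/
noncomputable def tau (v f : Fin 3 → F) : S3 F :=
  if h : f ⬝ᵥ v = 0 then ⟨1 + vecMulVec v f, by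
    simp only [dotProduct, Fin.sum_univ_three] at h
    simp [det_fin_three, vecMulVec_apply, one_apply]
    linear_combination h⟩ else 1

variable {v w f g u : Fin 3 → F}

theorem tau_coe (h : f ⬝ᵥ v = 0) : (tau v f).1 = 1 + vecMulVec v f :=
  congrArg Subtype.val (dif_pos h)

theorem smul_eq (A : S3 F) (u : Fin 3 → F) : A • u = A.1 *ᵥ u := rfl

theorem tau_smul (h : f ⬝ᵥ v = 0) (u : Fin 3 → F) : tau v f • u = u + (f ⬝ᵥ u) • v := by
  rw [smul_eq, tau_coe h, add_mulVec, one_mulVec, vecMulVec_mulVec, op_smul_eq_smul]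

theorem tau_mul (h : f ⬝ᵥ v = 0) (h' : g ⬝ᵥ v = 0) : tau v f * tau v g = tau v (f + g) :=
  Geom.sl_ext fun u => by
    rw [mul_smul, tau_smul h', tau_smul h, tau_smul (by simp [h, h'])]
    simp only [dotProduct_add, dotProduct_smul, h, add_dotProduct]
    module

theorem tau_zero (v : Fin 3 → F) : tau v 0 = 1 := Geom.sl_ext fun u => by simp [tau_smul]

theorem tau_zero' (f : Fin 3 → F) : tau 0 f = 1 := Geom.sl_ext fun u => by simp [tau_smul]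

theorem tau_smul_left (c : F) (h : f ⬝ᵥ v = 0) : tau (c • v) f = tau v (c • f) :=
  Geom.sl_ext fun u => by
    rw [tau_smul (by simp [h]), tau_smul (by simp [h]), smul_dotProduct, smul_smul, smul_eq_mul, mul_comm]

theorem tau_conj (A : S3 F) (h : f ⬝ᵥ v = 0) :
    (f ᵥ* (A⁻¹).1) ⬝ᵥ (A • v) = 0 ∧ A * tau v f * A⁻¹ = tau (A • v) (f ᵥ* (A⁻¹).1) := by
  have e : ∀ u, (f ᵥ* (A⁻¹).1) ⬝ᵥ u = f ⬝ᵥ (A⁻¹ • u) := fun u => by rw [smul_eq, dotProduct_mulVec]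
  have h1 : (f ᵥ* (A⁻¹).1) ⬝ᵥ (A • v) = 0 := by rw [e, inv_smul_smul, h]
  exact ⟨h1, Geom.sl_ext fun u => by
    rw [mul_smul, mul_smul, tau_smul h, tau_smul h1, smul_add, smul_inv_smul, smul_comm, e]⟩

theorem exists_dot (h : f ≠ 0) : ∃ u, f ⬝ᵥ u ≠ 0 := by
  by_contra! hc
  exact h (dotProduct_eq_zero f hc)

theorem tau_eq (h : f ⬝ᵥ v = 0) (h' : g ⬝ᵥ w = 0) (e : tau v f = tau w g) (u : Fin 3 → F) :
    (f ⬝ᵥ u) • v = (g ⬝ᵥ u) • w := by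
  have := congrArg (· • u) e
  simpa only [tau_smul h, tau_smul h', add_right_inj] using this

theorem prop_of_cross (h : v ≠ 0) (h1 : v ⨯₃ w = 0) : ∃ c : F, w = c • v := by
  obtain ⟨u, hu⟩ := exists_dot h
  have := cross_cross_eq_smul_sub_smul' u v w
  rw [h1, map_zero, eq_comm, sub_eq_zero] at this
  exact ⟨(v ⬝ᵥ u)⁻¹ * (u ⬝ᵥ w), by rw [mul_smul, this, inv_smul_smul₀ hu]⟩

theorem prop_of_orth (hv : v ≠ 0) (hf : f ≠ 0) (h1 : f ⬝ᵥ v = 0) (h2 : f ⬝ᵥ w = 0) (h3 : g ⬝ᵥ v = 0)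
    (h4 : g ⬝ᵥ w = 0) : (∃ c : F, w = c • v) ∨ ∃ c : F, g = c • f := by
  by_cases e : v ⨯₃ w = 0
  · exact Or.inl (prop_of_cross hv e)
  have key : ∀ f : Fin 3 → F, f ⬝ᵥ v = 0 → f ⬝ᵥ w = 0 → ∃ c : F, f = c • (v ⨯₃ w) := fun f h1 h2 =>
    prop_of_cross e (by rw [← cross_anticomm, cross_cross_eq_smul_sub_smul', h2, dotProduct_comm, h1]; simp)
  obtain ⟨a, rfl⟩ := key f h1 h2
  obtain ⟨b, rfl⟩ := key g h3 h4
  exact Or.inr ⟨b * a⁻¹, by rw [mul_smul, inv_smul_smul₀ fun e => hf (by simp [e])]⟩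

theorem tau_comm (hv : v ≠ 0) (hf : f ≠ 0) (hw : w ≠ 0) (hg : g ≠ 0) (h1 : f ⬝ᵥ v = 0) (h2 : g ⬝ᵥ w = 0)
    (e : tau v f * tau w g = tau w g * tau v f) : (∃ c : F, w = c • v) ∨ ∃ c : F, g = c • f := by
  have key : ∀ {v f w g : Fin 3 → F}, v ≠ 0 → g ≠ 0 → f ⬝ᵥ v = 0 → g ⬝ᵥ w = 0 →
      tau v f * tau w g = tau w g * tau v f → f ⬝ᵥ w = 0 := by
    intro v f w g hv hg h1 h2 e
    obtain ⟨u, hu⟩ := exists_dot hg
    have h3 := congrArg (· • u) e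
    simp only [mul_smul, tau_smul h1, tau_smul h2, dotProduct_add, dotProduct_smul] at h3
    have h4 : ((g ⬝ᵥ u) * (f ⬝ᵥ w)) • v = ((f ⬝ᵥ u) * (g ⬝ᵥ v)) • w := by
      simp only [smul_eq_mul] at h3
      linear_combination (norm := module) h3
    have h5 := congrArg (f ⬝ᵥ ·) h4
    simp only [dotProduct_smul, h1, smul_eq_mul, mul_zero] at h5
    by_contra h6
    rw [(mul_eq_zero.1 h5.symm).resolve_right h6, zero_smul] at h4
    exact hv ((smul_eq_zero.1 h4).resolve_left (mul_ne_zero hu h6))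
  exact prop_of_orth hv hf h1 (key hv hg h1 h2 e) (key hw hf h2 h1 e.symm) h2

theorem card_orth [Finite F] (hv : v ≠ 0) : Nat.card {f : Fin 3 → F // f ⬝ᵥ v = 0} = Nat.card F ^ 2 := by
  let L : (Fin 3 → F) →ₗ[F] F := (dotProductBilin F F).flip v
  have h1 := L.finrank_range_add_finrank_ker
  obtain ⟨u, hu⟩ := exists_dot hv
  rw [LinearMap.range_eq_top_of_surjective L fun c => ⟨(c * (v ⬝ᵥ u)⁻¹) • u, by
    simp [L, dotProduct_comm u, hu]⟩, finrank_top, Module.finrank_self, Module.finrank_fin_fun] at h1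
  rw [← show Module.finrank F L.ker = 2 by omega, ← Module.natCard_eq_pow_finrank (K := F)]
  rfl

/-- The subgroup of elations with a given centre. -/
def PV (φ : S3 F →* G) (v : Fin 3 → F) : Subgroup G where
  carrier := {x | ∃ f, f ⬝ᵥ v = 0 ∧ x = φ (tau v f)}
  mul_mem' := by
    rintro _ _ ⟨f, h1, rfl⟩ ⟨g, h2, rfl⟩
    exact ⟨f + g, by simp [h1, h2], by rw [← map_mul, tau_mul h1 h2]⟩
  one_mem' := ⟨0, by simp, by rw [tau_zero, map_one]⟩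
  inv_mem' := by
    rintro _ ⟨f, h1, rfl⟩
    exact ⟨-f, by simp [h1], by
      rw [inv_eq_iff_mul_eq_one, ← map_mul, tau_mul h1 (by simp [h1]), add_neg_cancel, tau_zero, map_one]⟩

theorem PV_smul (φ : S3 F →* G) (v : Fin 3 → F) {c : F} (hc : c ≠ 0) : PV φ (c • v) = PV φ v := by
  have key : ∀ (v : Fin 3 → F) (c : F), c ≠ 0 → PV φ (c • v) ≤ PV φ v := by
    rintro v c hc _ ⟨f, h1, rfl⟩
    have h2 : f ⬝ᵥ v = 0 := by simpa [hc] using h1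
    exact ⟨c • f, by simp [h2], by rw [tau_smul_left c h2]⟩
  exact le_antisymm (key v c hc) (by simpa [hc] using key (c • v) c⁻¹ (inv_ne_zero hc))

theorem smul_PV (φ : S3 F →* G) (A : S3 F) (v : Fin 3 → F) : φ A • PV φ v = PV φ (A • v) := by
  have key : ∀ (A : S3 F) (v : Fin 3 → F), PV φ v ≤ (φ A)⁻¹ • PV φ (A • v) := by
    rintro A v _ ⟨f, h1, rfl⟩
    exact ⟨_, (tau_conj A h1).1, by rw [← (tau_conj A h1).2]; simp⟩
  exact le_antisymm (by simpa using cj_mono (g := φ A) (key A v)) (by simpa using key A⁻¹ (A • v))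

/-- The inverse transpose automorphism. -/
def io : S3 F →* S3 F where
  toFun A := (A⁻¹).transpose
  map_one' := Subtype.ext (by simp)
  map_mul' A B := Subtype.ext (by rw [_root_.mul_inv_rev]; simp [-SpecialLinearGroup.coe_inv])

theorem io_io (A : S3 F) : io (io A) = A := by
  rw [← _root_.inv_inj]
  exact Subtype.ext (by
    rw [← map_inv]
    change (((io A)⁻¹⁻¹).1)ᵀ = _
    rw [inv_inv]
    exact transpose_transpose _)

/-- A pair of dual parametrizations of a copy of `PSL₃(F)`. -/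
structure Du (φ ψ : S3 F →* G) : Prop where
  k1 : ∀ A, φ A = 1 ↔ A ∈ center (S3 F)
  k2 : ∀ A, ψ A = 1 ↔ A ∈ center (S3 F)
  range : φ.range = ψ.range
  tau : ∀ v f, f ⬝ᵥ v = 0 → ψ (tau f v) = φ (tau v f)

variable {φ ψ : S3 F →* G}

theorem Du.symm (h : Du φ ψ) : Du ψ φ :=
  ⟨h.k2, h.k1, h.range.symm, fun v f h1 => (h.tau f v (dotProduct_comm v f ▸ h1)).symm⟩

theorem Du.mem (h : Du φ ψ) {x : G} : x ∈ PV ψ f ↔ ∃ v, f ⬝ᵥ v = 0 ∧ x = φ (Hir.tau v f) :=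
  exists_congr fun v => by
    rw [dotProduct_comm]
    exact and_congr_right fun h1 => by rw [h.tau v f h1]

theorem center_cube {z : S3 F} (h : z ∈ center (S3 F)) : z * z * z = 1 := by
  obtain ⟨r, h1, h2⟩ := Matrix.SpecialLinearGroup.mem_center_iff.1 h
  refine Subtype.ext ?_
  rw [Matrix.SpecialLinearGroup.coe_mul, Matrix.SpecialLinearGroup.coe_mul, ← h2, ← map_mul, ← map_mul,
    show r * r * r = 1 by simpa [pow_succ] using h1, map_one, Matrix.SpecialLinearGroup.coe_one]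

theorem Du.inj (h : Du φ ψ) {A B : S3 F} (hA : A * A = 1) (hB : B * B = 1) (e : φ A = φ B) : A = B := by
  have h1 := (h.k1 (A * B⁻¹)).1 (by simp [e])
  have h2 := center_cube h1
  have h3 : A * B⁻¹ * (A * B⁻¹) = 1 := by
    rw [mul_assoc A, mem_center_iff.1 h1, inv_of_sq hB, mul_assoc A B, hB, mul_one, hA]
  rwa [h3, one_mul, mul_inv_eq_one] at h2

variable [CharP F 2]

theorem tau_sq (h : f ⬝ᵥ v = 0) : tau v f * tau v f = 1 := by
  rw [tau_mul h h, ← two_smul F, CharTwo.two_eq_zero, zero_smul, tau_zero]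

theorem du_io (h : ∀ A, φ A = 1 ↔ A ∈ center (S3 F)) : Du φ (φ.comp io) := by
  have key : ∀ A : S3 F, A ∈ center (S3 F) → io A ∈ center (S3 F) := fun A hA =>
    mem_center_iff.2 fun B => by rw [← io_io B, ← map_mul, ← map_mul, mem_center_iff.1 hA]
  refine ⟨h, fun A => (h _).trans ⟨fun h1 => io_io A ▸ key _ h1, key A⟩, le_antisymm ?_ ?_, fun v f h1 => ?_⟩
  · rintro _ ⟨A, rfl⟩
    exact ⟨io A, congrArg φ (io_io A)⟩
  · rintro _ ⟨A, rfl⟩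
    exact ⟨io A, rfl⟩
  · have h2 : v ⬝ᵥ f = 0 := dotProduct_comm v f ▸ h1
    refine congrArg φ (Subtype.ext ?_)
    change (((tau f v)⁻¹).1)ᵀ = _
    rw [inv_of_sq (tau_sq h2), tau_coe h1, tau_coe h2, transpose_add, transpose_one, transpose_vecMulVec]

theorem inv_form {A : S3 F} (h1 : A * A = 1) (h2 : A ≠ 1) : ∃ v f, v ≠ 0 ∧ f ≠ 0 ∧ f ⬝ᵥ v = 0 ∧ A = tau v f := by
  let L := (A.1 - 1).mulVecLin
  have e : ∀ u, L u = A • u - u := fun u => by simp [L, smul_eq]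
  have h3 : L.range ≤ L.ker := by
    rintro _ ⟨u, rfl⟩
    rw [LinearMap.mem_ker, e, e, smul_sub, ← mul_smul, h1, one_smul]
    generalize A • u = w
    linear_combination (norm := module) (CharTwo.two_eq_zero (R := F)) • (u - w)
  have h4 := L.finrank_range_add_finrank_ker
  have h5 := Submodule.finrank_mono h3
  rw [Module.finrank_fin_fun] at h4
  obtain ⟨v, hv⟩ := finrank_le_one_iff.1 (show Module.finrank F L.range ≤ 1 by omega)
  choose f hf using fun j : Fin 3 => hv ⟨L (Pi.single j 1), _, rfl⟩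
  have h6 : ∀ u, A • u = u + (f ⬝ᵥ u) • v.1 := fun u => by
    rw [← sub_eq_iff_eq_add', ← e]
    conv_lhs => rw [pi_eq_sum_univ' u, map_sum]
    simp only [map_smul, dotProduct, Finset.sum_smul]
    exact Finset.sum_congr rfl fun j _ => by
      rw [mul_comm, mul_smul]
      exact congrArg _ (congrArg Subtype.val (hf j)).symm
  have h7 : v.1 ≠ 0 := fun e => h2 (Geom.sl_ext fun u => by simp [h6, e])
  have h8 : f ⬝ᵥ v.1 = 0 := by
    have := h3 v.2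
    rw [LinearMap.mem_ker, e, h6, add_sub_cancel_left] at this
    exact (smul_eq_zero.1 this).resolve_right h7
  exact ⟨v, f, h7, fun e => h2 (Geom.sl_ext fun u => by simp [h6, e]), h8,
    Geom.sl_ext fun u => by rw [h6, tau_smul h8]⟩

namespace Du

variable (h : Du φ ψ)
include h

theorem inv {t : G} (h1 : t ∈ φ.range) (h2 : t * t = 1) (h3 : t ≠ 1) :
    ∃ v f, v ≠ 0 ∧ f ≠ 0 ∧ f ⬝ᵥ v = 0 ∧ t = φ (Hir.tau v f) := by
  obtain ⟨A, rfl⟩ := h1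
  have e : φ (A * A * A) = φ A := by rw [map_mul, map_mul, h2, one_mul]
  obtain ⟨v, f, h4, h5, h6, h7⟩ := inv_form (A := A * A * A)
    (by rw [← center_cube ((h.k1 (A * A)).1 (by rw [map_mul, h2]))]; group) fun e' => h3 (by rw [← e, e', map_one])
  exact ⟨v, f, h4, h5, h6, by rw [← h7, e]⟩

theorem comm (hv : v ≠ 0) (hf : f ≠ 0) (hw : w ≠ 0) (hg : g ≠ 0) (h1 : f ⬝ᵥ v = 0) (h2 : g ⬝ᵥ w = 0)
    (e : φ (Hir.tau v f) * φ (Hir.tau w g) = φ (Hir.tau w g) * φ (Hir.tau v f)) :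
    (∃ c : F, w = c • v) ∨ ∃ c : F, g = c • f := by
  refine tau_comm hv hf hw hg h1 h2 (mul_inv_eq_iff_eq_mul.1 (h.inj ?_ (tau_sq h2) ?_))
  · simp [tau_sq h2]
  · rw [map_mul, map_mul, e]; simp

theorem eq_one_iff (h1 : f ⬝ᵥ v = 0) : φ (Hir.tau v f) = 1 ↔ v = 0 ∨ f = 0 := by
  refine ⟨fun e => or_iff_not_imp_left.2 fun hv => dotProduct_eq_zero f fun u => ?_, ?_⟩
  · have := tau_eq h1 (zero_dotProduct v) (h.inj (tau_sq h1) (tau_sq (zero_dotProduct v))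
      (by rw [e, tau_zero, map_one])) u
    simpa [hv] using this
  · rintro (rfl | rfl)
    · rw [tau_zero', map_one]
    · rw [tau_zero, map_one]

theorem prop (h1 : f ⬝ᵥ v = 0) (h2 : g ⬝ᵥ w = 0) (e : φ (Hir.tau v f) = φ (Hir.tau w g)) (h3 : φ (Hir.tau v f) ≠ 1) :
    ∃ c : F, c ≠ 0 ∧ v = c • w := by
  rw [ne_eq, h.eq_one_iff h1, not_or] at h3
  obtain ⟨u, hu⟩ := exists_dot h3.2
  have h4 : v = ((f ⬝ᵥ u)⁻¹ * (g ⬝ᵥ u)) • w := by
    rw [mul_smul, ← tau_eq h1 h2 (h.inj (tau_sq h1) (tau_sq h2) e) u, inv_smul_smul₀ hu]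
  exact ⟨_, fun e => h3.1 (by rw [h4, e, zero_smul]), h4⟩

theorem par {x : G} (h1 : x ≠ 1) (h2 : x ∈ PV φ v) (h3 : x ∈ PV φ w) : ∃ c : F, c ≠ 0 ∧ v = c • w := by
  obtain ⟨f, h4, rfl⟩ := h2
  obtain ⟨g, h5, e⟩ := h3
  exact h.prop h4 h5 e h1

theorem not_adj : ¬ Adj (PV φ v) (PV φ w) := fun ⟨h1, _, h2, h3, h4⟩ => by
  obtain ⟨c, h5, rfl⟩ := h.par h2 h3 h4
  exact h1 (PV_smul φ w h5)

theorem mem_inf (h0 : f ⬝ᵥ v = 0) {x : G} : x ∈ PV φ v ⊓ PV ψ f ↔ ∃ c : F, x = φ (Hir.tau (c • v) f) := by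
  constructor
  · rintro ⟨⟨g, h1, rfl⟩, h2⟩
    obtain ⟨w, h3, e⟩ := h.mem.1 h2
    by_cases h4 : φ (Hir.tau w f) = 1
    · exact ⟨0, by rw [e, h4, zero_smul, tau_zero', map_one]⟩
    obtain ⟨c, -, rfl⟩ := h.prop h3 h1 e.symm h4
    exact ⟨c, e⟩
  · rintro ⟨c, rfl⟩
    exact ⟨⟨c • f, by simp [h0], by rw [tau_smul_left c h0]⟩, h.mem.2 ⟨c • v, by simp [h0], rfl⟩⟩

theorem orth {x : G} (h1 : x ≠ 1) (h2 : x ∈ PV φ v) (h3 : x ∈ PV ψ f) : f ⬝ᵥ v = 0 := by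
  obtain ⟨g, h4, rfl⟩ := h2
  obtain ⟨w, h5, e⟩ := h.mem.1 h3
  obtain ⟨c, -, rfl⟩ := h.prop h4 h5 e h1
  simp [h5]

variable [Finite F]

theorem vx (hv : v ≠ 0) : Vx (Nat.card F) φ.range (PV φ v) := by
  refine ⟨by rintro _ ⟨f, -, rfl⟩; exact ⟨_, rfl⟩, ?_, ?_⟩
  · rintro _ ⟨f, h1, rfl⟩
    rw [← map_mul, tau_sq h1, map_one]
  · rw [← card_orth hv]
    refine (Nat.card_congr (Equiv.ofBijective (fun f => ⟨φ (Hir.tau v f.1), f.1, f.2, rfl⟩) ⟨fun f g e => ?_, ?_⟩)).symm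
    · refine Subtype.ext (dotProduct_eq _ _ fun u => smul_left_injective F hv ?_)
      exact tau_eq f.2 g.2 (h.inj (tau_sq f.2) (tau_sq g.2) (congrArg Subtype.val e)) u
    · rintro ⟨_, f, h1, rfl⟩
      exact ⟨⟨f, h1⟩, rfl⟩

theorem vx' (hv : v ≠ 0) : Vx (Nat.card F) φ.range (PV ψ v) := h.range ▸ h.symm.vx hv

omit [Finite F] in
theorem card_inf (hv : v ≠ 0) (hf : f ≠ 0) (h0 : f ⬝ᵥ v = 0) : Nat.card ↥(PV φ v ⊓ PV ψ f) = Nat.card F := by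
  refine (Nat.card_congr (Equiv.ofBijective (fun c => ⟨φ (Hir.tau (c • v) f), (h.mem_inf h0).2 ⟨c, rfl⟩⟩)
    ⟨fun a b e => ?_, ?_⟩)).symm
  · obtain ⟨u, hu⟩ := exists_dot hf
    have h1 : ∀ c : F, f ⬝ᵥ (c • v) = 0 := fun c => by simp [h0]
    exact smul_left_injective F hv (smul_right_injective _ hu (tau_eq (h1 a) (h1 b)
      (h.inj (tau_sq (h1 a)) (tau_sq (h1 b)) (congrArg Subtype.val e)) u))
  · rintro ⟨x, hx⟩
    obtain ⟨c, rfl⟩ := (h.mem_inf h0).1 hx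
    exact ⟨c, rfl⟩

theorem ne (hv : v ≠ 0) (hf : f ≠ 0) : PV φ v ≠ PV ψ f := by
  intro e
  have h1 := (h.vx hv).card
  have h2 : 1 < Nat.card F := Finite.one_lt_card
  obtain ⟨x, h3, h4⟩ := (bot_or_exists_ne_one (PV φ v)).resolve_left fun e => by
    rw [e, card_bot] at h1
    nlinarith
  have h5 := h.card_inf hv hf (h.orth h4 h3 (e ▸ h3))
  rw [← e, inf_idem, h1] at h5
  nlinarith

theorem adj (hv : v ≠ 0) (hf : f ≠ 0) : Adj (PV φ v) (PV ψ f) ↔ f ⬝ᵥ v = 0 :=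
  ⟨fun ⟨_, _, h1, h2, h3⟩ => h.orth h1 h2 h3, fun h0 => ⟨h.ne hv hf, φ (Hir.tau v f),
    fun e => ((h.eq_one_iff h0).1 e).elim hv hf, ⟨f, h0, rfl⟩, h.mem.2 ⟨v, h0, rfl⟩⟩⟩

variable [Finite G]

theorem cases {Q : Subgroup G} (hQ : Vx (Nat.card F) φ.range Q) : ∃ v, v ≠ 0 ∧ (Q = PV φ v ∨ Q = PV ψ v) := by
  have h1 := hQ.card
  have h2 : 1 < Nat.card F := Finite.one_lt_card
  obtain ⟨x, h3, h4⟩ := (bot_or_exists_ne_one Q).resolve_left fun e => by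
    rw [e, card_bot] at h1
    nlinarith
  obtain ⟨v, f, hv, hf, h5, rfl⟩ := h.inv (hQ.le h3) (hQ.sq x h3) h4
  by_cases hc : Q ≤ PV φ v
  · exact ⟨v, hv, Or.inl (hQ.eq_of_le (h.vx hv) hc)⟩
  obtain ⟨y, h6, h7⟩ := SetLike.not_le_iff_exists.1 hc
  obtain ⟨w, g, hw, hg, h8, rfl⟩ := h.inv (hQ.le h6) (hQ.sq y h6) fun e => h7 (e ▸ one_mem _)
  have h9 : ∀ c : F, w ≠ c • v := by
    rintro c rfl
    exact h7 (PV_smul φ v (fun e : c = 0 => hw (by simp [e])) ▸ ⟨g, h8, rfl⟩)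
  have h10 : ∀ (c : F) (u : Fin 3 → F), c • f ≠ 0 → (c • f) ⬝ᵥ u = 0 → φ (Hir.tau u (c • f)) ∈ PV ψ f :=
    fun c u h10 h11 => PV_smul ψ f (fun e : c = 0 => h10 (by simp [e])) ▸ h.mem.2 ⟨u, h11, rfl⟩
  obtain ⟨c, rfl⟩ := (h.comm hv hf hw hg h5 h8 (hQ.comm h3 h6)).resolve_left fun ⟨c, e⟩ => h9 c e
  refine ⟨f, hf, Or.inr (hQ.eq_of_le (h.vx' hf) fun z hz => ?_)⟩
  by_cases e : z = 1
  · exact e ▸ one_mem _
  obtain ⟨u, k, hu, hk, h11, rfl⟩ := h.inv (hQ.le hz) (hQ.sq z hz) e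
  rcases h.comm hv hf hu hk h5 h11 (hQ.comm h3 hz) with ⟨a, rfl⟩ | ⟨a, rfl⟩
  · rcases h.comm hu hk hw hg h11 h8 (hQ.comm hz h6) with ⟨b, e⟩ | ⟨b, e⟩
    · exact (h9 _ (e.trans (smul_smul b a v))).elim
    · obtain rfl : k = (b⁻¹ * c) • f := by
        rw [mul_smul, e, inv_smul_smul₀ fun e' => hg (by simp [e, e'])]
      exact h10 _ _ hk h11
  · exact h10 _ _ hk h11

omit [Finite G] in
theorem join (hv : v ≠ 0) (h1 : PV φ v ≠ PV φ w) (hw : w ≠ 0) :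
    ∃ f, f ≠ 0 ∧ Adj (PV φ v) (PV ψ f) ∧ Adj (PV φ w) (PV ψ f) := by
  have h2 : v ⨯₃ w ≠ 0 := fun e => by
    obtain ⟨c, rfl⟩ := prop_of_cross hv e
    exact h1 (PV_smul φ v fun e : c = 0 => hw (by simp [e])).symm
  exact ⟨_, h2, (h.adj hv h2).2 (dotProduct_comm _ v ▸ dot_self_cross v w),
    (h.adj hw h2).2 (dotProduct_comm _ w ▸ dot_cross_self v w)⟩

theorem uniq {R S T : Subgroup G} (hv : v ≠ 0) (hR : Vx (Nat.card F) φ.range R) (hS : Vx (Nat.card F) φ.range S)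
    (hT : Vx (Nat.card F) φ.range T) (h1 : Adj (PV φ v) S) (h2 : Adj R S) (h3 : Adj (PV φ v) T) (h4 : Adj R T) :
    PV φ v = R ∨ S = T := by
  obtain ⟨f, hf, rfl | rfl⟩ := h.cases hS
  · exact (h.not_adj h1).elim
  obtain ⟨g, hg, rfl | rfl⟩ := h.cases hT
  · exact (h.not_adj h3).elim
  obtain ⟨w, hw, rfl | rfl⟩ := h.cases hR
  swap
  · exact (h.symm.not_adj h2).elim
  rcases prop_of_orth hv hf ((h.adj hv hf).1 h1) ((h.adj hw hf).1 h2) ((h.adj hv hg).1 h3) ((h.adj hw hg).1 h4)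
    with ⟨c, rfl⟩ | ⟨c, rfl⟩
  · exact Or.inl (PV_smul φ v fun e : c = 0 => hw (by simp [e])).symm
  · exact Or.inr (PV_smul ψ f fun e : c = 0 => hg (by simp [e])).symm

open scoped Classical in
theorem pl : Pl (Nat.card F) φ.range fun Q => decide (∃ v, v ≠ 0 ∧ Q = PV φ v) := by
  have t1 : ∀ {v}, v ≠ 0 → decide (∃ w, w ≠ 0 ∧ PV φ v = PV φ w) = true := fun hv => decide_eq_true ⟨_, hv, rfl⟩
  have t2 : ∀ {v}, v ≠ 0 → decide (∃ w, w ≠ 0 ∧ PV ψ v = PV φ w) = false := fun hv =>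
    decide_eq_false fun ⟨w, h1, h2⟩ => h.ne h1 hv h2.symm
  have t3 : ∀ {i j : Fin 3} (hij : i ≠ j) (c : F), SpecialLinearGroup.transvection hij c *
      SpecialLinearGroup.transvection hij c = 1 := fun hij c => by
    rw [← SpecialLinearGroup.transvection_add, CharTwo.add_self_eq_zero, SpecialLinearGroup.transvection_coeff_zero]
  refine ⟨Finite.one_lt_card, fun hQ hR h1 => ?_, fun hQ hR h1 h2 => ?_, fun hQ hR hS hT h1 h2 h3 h4 => ?_,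
    fun hQ hR h1 => ?_, fun h1 h2 h3 => ?_, fun h1 h2 h3 h4 h5 h6 h7 => ?_, fun M hM => ?_, ?_,
    _, h.vx (v := fun _ => 1) fun e => one_ne_zero (congrFun e 0)⟩
  · obtain ⟨v, hv, rfl | rfl⟩ := h.cases hQ <;> obtain ⟨w, hw, rfl | rfl⟩ := h.cases hR
    · exact (h.not_adj h1).elim
    · simp [t1 hv, t2 hw]
    · simp [t2 hv, t1 hw]
    · exact (h.symm.not_adj h1).elim
  · obtain ⟨v, hv, rfl | rfl⟩ := h.cases hQ <;> obtain ⟨w, hw, rfl | rfl⟩ := h.cases hR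
    · obtain ⟨f, h3, h4⟩ := h.join hv h2 hw
      exact ⟨_, h.vx' h3, h4⟩
    · simp [t1 hv, t2 hw] at h1
    · simp [t2 hv, t1 hw] at h1
    · obtain ⟨f, h3, h4⟩ := h.symm.join hv h2 hw
      exact ⟨_, h.vx h3, h4⟩
  · obtain ⟨v, hv, rfl | rfl⟩ := h.cases hQ
    · exact h.uniq hv hR hS hT h1 h2 h3 h4
    · exact h.symm.uniq hv (h.range ▸ hR) (h.range ▸ hS) (h.range ▸ hT) h1 h2 h3 h4
  · obtain ⟨v, hv, rfl | rfl⟩ := h.cases hQ <;> obtain ⟨w, hw, rfl | rfl⟩ := h.cases hR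
    · exact (h.not_adj h1).elim
    · exact h.card_inf hv hw ((h.adj hv hw).1 h1)
    · exact h.symm.card_inf hv hw ((h.symm.adj hv hw).1 h1)
    · exact (h.symm.not_adj h1).elim
  · obtain ⟨v, f, hv, hf, h4, rfl⟩ := h.inv h1 h2 h3
    exact ⟨_, _, h.vx hv, h.vx' hf, h.ne hv hf, ⟨f, h4, rfl⟩, h.mem.2 ⟨v, h4, rfl⟩⟩
  · obtain ⟨v, f, hv, hf, h8, rfl⟩ := h.inv h1 h3 h5
    obtain ⟨w, g, hw, hg, h9, rfl⟩ := h.inv h2 h4 h6
    rcases h.comm hv hf hw hg h8 h9 h7 with ⟨c, rfl⟩ | ⟨c, rfl⟩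
    · exact ⟨_, h.vx hv, ⟨f, h8, rfl⟩, PV_smul φ v (fun e : c = 0 => hw (by simp [e])) ▸ ⟨g, h9, rfl⟩⟩
    · exact ⟨_, h.vx' hf, h.mem.2 ⟨v, h8, rfl⟩,
        PV_smul ψ f (fun e : c = 0 => hg (by simp [e])) ▸ h.mem.2 ⟨w, h9, rfl⟩⟩
  · rintro _ ⟨A, rfl⟩
    exact Geom.sl_induction (fun A => φ A ∈ M) (fun i j hij c => hM _ ⟨_, rfl⟩ (by rw [← map_mul, t3, map_one]))
      (fun A B h1 h2 => map_mul φ A B ▸ M.mul_mem h1 h2) A
  · rintro _ ⟨A, rfl⟩ h1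
    refine (h.k1 A).2 (mem_center_iff.2 (Geom.sl_induction (fun B => B * A = A * B) (fun i j hij c => ?_)
      fun B C h2 h3 => by rw [mul_assoc, h3, ← mul_assoc, h2, mul_assoc]))
    refine (mul_inv_eq_iff_eq_mul.1 (h.inj (by simp [t3]) (t3 hij c) ?_)).symm
    rw [map_mul, map_mul, h1 _ ⟨_, rfl⟩]
    simp

end Du

end Cfsg.Agent.Hir
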