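import Cfsg.Agent.Hir.Pl2

/-! A doubly transitive group with a family of plane groups in the point stabilizers. -/

set_option autoImplicit false

namespace Cfsg.Agent.Hir

open Subgroup MulAction

variable {G Ω : Type*} [Group G] [MulAction G Ω]

theorem stab_smul (g : G) (y : Ω) : stabilizer G (g • y) = g • stabilizer G y :=
  Subgroup.ext fun x => by simp [mem_cj, mul_smul, inv_smul_eq_iff]

theorem le_stab_smul {Q : Subgroup G} {g : G} {y : Ω} : g • Q ≤ stabilizer G (g • y) ↔ Q ≤ stabilizer G y := by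
  rw [stab_smul]
  exact ⟨fun h => by simpa using cj_mono (g := g⁻¹) h, cj_mono⟩

theorem ncard_smul (g : G) (s t : Set Ω) (h : ∀ y, g • y ∈ t ↔ y ∈ s) : s.ncard = t.ncard := by
  rw [← Set.ncard_image_of_injective s (MulAction.injective g)]
  congr 1
  ext y
  exact ⟨fun ⟨z, h1, h2⟩ => h2 ▸ (h z).2 h1, fun hy => ⟨g⁻¹ • y, (h _).1 (by simpa using hy), by simp⟩⟩

/-- The setting. -/
structure Ctx (q : ℕ) (N : Ω → Subgroup G) (ty : Ω → Subgroup G → Bool) : Prop where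
  pl : ∀ x, Pl q (N x) (ty x)
  smul : ∀ (g : G) x, N (g • x) = g • N x
  fix : ∀ x, N x ≤ stabilizer G x
  two : ∀ x y x' y' : Ω, x ≠ y → x' ≠ y' → ∃ g : G, g • x = x' ∧ g • y = y'
  faith : ∀ g : G, (∀ x : Ω, g • x = x) → g = 1
  even : 2 ∣ Nat.card Ω

/-- Exactly two vertices at `x` fix `y`. -/
structure FlagAt (q : ℕ) (N : Ω → Subgroup G) (x y : Ω) (Q R : Subgroup G) : Prop where
  vQ : Vx q (N x) Q
  vR : Vx q (N x) R
  adj : Adj Q R
  sQ : Q ≤ stabilizer G y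
  sR : R ≤ stabilizer G y
  all : ∀ T, Vx q (N x) T → T ≤ stabilizer G y → T = Q ∨ T = R

/-- The vertices at `x` fixing `y` are `P` and its neighbours. -/
structure CenAt (q : ℕ) (N : Ω → Subgroup G) (x y : Ω) (P : Subgroup G) : Prop where
  vP : Vx q (N x) P
  iff : ∀ T, Vx q (N x) T → (T ≤ stabilizer G y ↔ T = P ∨ Adj P T)

/-- Involutions of `N x` fixing `y` lie in `N y`. -/
def Star (N : Ω → Subgroup G) : Prop := ∀ x y, ∀ t ∈ N x, t * t = 1 → t • y = y → t ∈ N y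

variable {q : ℕ} {N : Ω → Subgroup G} {ty : Ω → Subgroup G → Bool} {x y a b : Ω} {P Q R S T : Subgroup G}

theorem Star.vx (h : Star N) (hQ : Vx q (N x) Q) (h1 : Q ≤ stabilizer G y) : Vx q (N y) Q :=
  ⟨fun t ht => h x y t (hQ.le ht) (hQ.sq t ht) (h1 ht), hQ.sq, hQ.card⟩

theorem FlagAt.symm (h : FlagAt q N x y Q R) : FlagAt q N x y R Q :=
  ⟨h.vR, h.vQ, h.adj.symm, h.sR, h.sQ, fun T h1 h2 => (h.all T h1 h2).symm⟩

theorem CenAt.sP (h : CenAt q N x y P) : P ≤ stabilizer G y := (h.iff P h.vP).2 (Or.inl rfl)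

theorem CenAt.sA (h : CenAt q N x y P) (hT : Vx q (N x) T) (ha : Adj P T) : T ≤ stabilizer G y :=
  (h.iff T hT).2 (Or.inr ha)

namespace Ctx

variable (c : Ctx q N ty)
include c

theorem norm {g : G} (h : g • x = x) : g • N x = N x := by rw [← c.smul, h]

theorem vx_smul (h : Vx q (N x) Q) (g : G) : Vx q (N (g • x)) (g • Q) := c.smul g x ▸ h.smul' g

theorem vx_smul_iff {g : G} : Vx q (N (g • x)) (g • Q) ↔ Vx q (N x) Q :=
  ⟨fun h => by simpa using c.vx_smul h g⁻¹, fun h => c.vx_smul h g⟩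

theorem vx_le (h : Vx q (N x) Q) : Q ≤ stabilizer G x := h.le.trans (c.fix x)

theorem flag_smul (h : FlagAt q N x y Q R) (g : G) : FlagAt q N (g • x) (g • y) (g • Q) (g • R) :=
  ⟨c.vx_smul h.vQ g, c.vx_smul h.vR g, h.adj.smul g, le_stab_smul.2 h.sQ, le_stab_smul.2 h.sR, fun T h1 h2 => by
    obtain ⟨T, rfl⟩ := MulAction.surjective g T
    exact (h.all T (c.vx_smul_iff.1 h1) (le_stab_smul.1 h2)).imp (congrArg _) (congrArg _)⟩

theorem cen_smul (h : CenAt q N x y P) (g : G) : CenAt q N (g • x) (g • y) (g • P) :=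
  ⟨c.vx_smul h.vP g, fun T h1 => by
    obtain ⟨T, rfl⟩ := MulAction.surjective g T
    rw [le_stab_smul, h.iff T (c.vx_smul_iff.1 h1), adj_smul, smul_left_cancel_iff]⟩

theorem not_le (h : x ≠ y) : ¬ N x ≤ stabilizer G y := by
  intro h1
  obtain ⟨Q, hQ⟩ := (c.pl x).ex
  obtain ⟨s, h2, h3⟩ := (c.pl x).exists_ne_one hQ
  refine h3 (c.faith s fun z => ?_)
  by_cases e : x = z
  · exact e ▸ c.vx_le hQ h2
  obtain ⟨g, h4, rfl⟩ := c.two x y x z h e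
  exact le_stab_smul.2 h1 (by rw [c.norm h4]; exact hQ.le h2)

theorem common (h : a ≠ b) {w : G} (h1 : w ∈ N b) (h2 : w * w = 1) (h3 : w ≠ 1) (h4 : ∀ n ∈ N a, w * n = n * w)
    (hxy : x ≠ y) : ∃ t, t ≠ 1 ∧ t * t = 1 ∧ t ∈ N x ∧ t ∈ N y := by
  obtain ⟨n, h5, h6⟩ := SetLike.not_le_iff_exists.1 (c.not_le h)
  obtain ⟨g, rfl, rfl⟩ := c.two b (n • b) x y (Ne.symm h6) hxy
  refine ⟨g * w * g⁻¹, by simpa using h3, by simp [h2], ?_, ?_⟩
  · rw [c.smul]; exact cj_mem.2 h1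
  · rw [c.smul, c.smul]; exact cj_mem.2 (mem_cj_of_comm (h4 n h5).symm h1)

variable [Finite G] [Finite Ω]

theorem exists_ne (x : Ω) : ∃ y, x ≠ y := by
  by_contra! h
  have : Unique Ω := ⟨⟨x⟩, fun y => (h y).symm⟩
  have h1 := c.even
  rw [Nat.card_unique] at h1
  omega

theorem trans (x y : Ω) : ∃ g : G, g • x = y := by
  obtain ⟨x', h1⟩ := c.exists_ne x
  obtain ⟨y', h2⟩ := c.exists_ne y
  exact (c.two x x' y y' h1 h2).imp fun _ h => h.1

theorem exists_flag (h : x ≠ y) : ∃ Q R, Vx q (N x) Q ∧ Vx q (N x) R ∧ Adj Q R ∧ Q ≤ stabilizer G y ∧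
    R ≤ stabilizer G y := by
  obtain ⟨Q, hQ⟩ := (c.pl x).ex
  obtain ⟨R, hR, ha, -⟩ := (c.pl x).exists_nbr hQ Q Q
  have hP : IsPGroup 2 ↥(Q ⊔ R) := IsPGroup.to_sup_of_normal_right' hQ.isP hR.isP fun t ht =>
    mem_normalizer_iff.2 fun z => by rw [← cj_mem (g := t), (c.pl x).fix_adj hQ hR ha ht]
  obtain ⟨z, h1, h2⟩ := hP.exists_fixed_point_of_prime_dvd_card_of_fixed_point Ω c.even (a := x)
    fun g => (sup_le (c.vx_le hQ) (c.vx_le hR)) g.2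
  obtain ⟨g, h3, rfl⟩ := c.two x z x y h2 h
  exact ⟨g • Q, g • R, hQ.smul (c.norm h3), hR.smul (c.norm h3), ha.smul g,
    le_stab_smul.2 fun t ht => h1 ⟨t, mem_sup_left ht⟩, le_stab_smul.2 fun t ht => h1 ⟨t, mem_sup_right ht⟩⟩

theorem dichotomy : (∀ x y : Ω, x ≠ y → ∃ Q R, FlagAt q N x y Q R) ∨ ∀ x y : Ω, x ≠ y → ∃ P, CenAt q N x y P := by
  by_cases hc : ∀ x y : Ω, x ≠ y → ∃ Q R, FlagAt q N x y Q R
  · exact Or.inl hc
  push Not at hc
  obtain ⟨a, b, h1, h2⟩ := hc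
  obtain ⟨Q, R, hQ, hR, h3, h4, h5⟩ := c.exists_flag h1
  rcases (c.pl a).classify hQ hR h3 h4 h5 (c.not_le h1) with h6 | ⟨P, h6⟩
  · exact absurd ⟨hQ, hR, h3, h4, h5, h6⟩ (h2 Q R)
  refine Or.inr fun x y h => ?_
  obtain ⟨g, rfl, rfl⟩ := c.two a b x y h1 h
  exact ⟨_, c.cen_smul ⟨h6.1, h6.2⟩ g⟩

theorem flag_mem (h : FlagAt q N x y Q R) {t : G} (h1 : t ∈ N x) (h2 : t * t = 1)
    (h3 : ∀ T, Vx q (N x) T → T ≤ stabilizer G y → t • T ≤ stabilizer G y) : t ∈ Q ∨ t ∈ R := by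
  have key : ∀ {Q R}, FlagAt q N x y Q R → t • Q = Q := fun {Q R} h =>
    (h.all _ (h.vQ.smul_mem h1) (h3 Q h.vQ h.sQ)).resolve_right fun e =>
      (c.pl x).adj_ty h.vQ h.vR h.adj (by rw [← e, (c.pl x).ty_N h.vQ h1])
  exact (c.pl x).mem_flag h.vQ h.vR h.adj h1 h2 (key h) (key h.symm)

omit c [Finite G] [Finite Ω] in
theorem smul_le_of_fix {t : G} (h : t • y = y) (h1 : T ≤ stabilizer G y) : t • T ≤ stabilizer G y :=
  h ▸ le_stab_smul.2 h1

omit [Finite Ω] in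
theorem cen_uniq (h : CenAt q N x y P) (h' : CenAt q N x y Q) : P = Q := by
  by_contra e
  have h1 := ((h.iff Q h'.vP).1 h'.sP).resolve_left (Ne.symm e)
  obtain ⟨R, hR, h2, h3, -⟩ := (c.pl x).exists_nbr h'.vP P P
  exact (c.pl x).no_tri h.vP h'.vP hR h1 h2 (((h.iff R hR).1 (h'.sA hR h2)).resolve_left h3)

omit [Finite Ω] in
theorem cen_fix (h : CenAt q N x y P) {g : G} (h1 : g • x = x) (h2 : g • y = y) : g • P = P :=
  c.cen_uniq (by simpa [h1, h2] using c.cen_smul h g) h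

omit [Finite Ω] in
theorem cen_mem (h : CenAt q N x y P) {t : G} (h1 : t ∈ N x) (h2 : t * t = 1) (h3 : t • P = P) : t • y = y := by
  obtain ⟨R, hR, h4, h5⟩ := (c.pl x).mem_nbr h.vP h1 h2 h3
  exact h.sA hR h4 h5

theorem fix_of_inv (h : x ≠ y) {t : G} (h1 : t ∈ N x) (h2 : t * t = 1)
    (h3 : ∀ T, Vx q (N x) T → T ≤ stabilizer G y → t • T ≤ stabilizer G y) : t • y = y := by
  rcases c.dichotomy with h4 | h4
  · obtain ⟨Q, R, h5⟩ := h4 x y h
    exact (c.flag_mem h5 h1 h2 h3).elim (fun e => h5.sQ e) fun e => h5.sR e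
  · obtain ⟨P, h5⟩ := h4 x y h
    exact c.cen_mem h5 h1 h2 (((h5.iff _ (h5.vP.smul_mem h1)).1 (h3 P h5.vP h5.sP)).resolve_right fun e =>
      (c.pl x).adj_ty h5.vP (h5.vP.smul_mem h1) e ((c.pl x).ty_N h5.vP h1).symm)

theorem card_fix {s t : G} (h1 : s ∈ N x) (h2 : s * s = 1) (h3 : s ≠ 1) (h4 : t ∈ N y) (h5 : t * t = 1)
    (h6 : t ≠ 1) : {z : Ω | s • z = z}.ncard = {z : Ω | t • z = z}.ncard := by
  obtain ⟨g, rfl⟩ := c.trans x y
  rw [c.smul, mem_cj] at h4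
  obtain ⟨n, -, e⟩ := (c.pl x).conj_inv h1 h2 h3 h4 (by
    rw [show g⁻¹ * t * g * (g⁻¹ * t * g) = g⁻¹ * (t * t) * g by group, h5]; simp)
    (by simpa [mul_assoc, inv_mul_eq_one] using h6)
  refine ncard_smul (g * n) _ _ fun z => ?_
  rw [show t = g * n * s * (g * n)⁻¹ by rw [mul_inv_rev, ← mul_assoc, mul_assoc g, mul_assoc g, e]; group]
  simp [mul_smul]

theorem eq_of_tr {s t : G} (h1 : s ∈ N a) (h2 : s * s = 1) (h3 : s ≠ 1) (h4 : t ∈ N b) (h5 : t * t = 1)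
    (h6 : t ≠ 1) (h8 : Tr q (N a) (s * t)) : t = s := by
  have h9 : {z : Ω | t • z = z} = {z : Ω | s • z = z} := by
    refine Set.eq_of_subset_of_ncard_le (fun y hy => ?_) (c.card_fix h1 h2 h3 h4 h5 h6).le
    by_cases e : a = y
    · exact e ▸ c.fix a h1
    refine c.fix_of_inv e h1 h2 fun T hT h9 => ?_
    rw [← h8 T hT, ← mul_smul, ← mul_assoc, h2, one_mul]
    exact smul_le_of_fix hy h9
  have h10 : ∀ y : Ω, s • y = y → (s * t) • y = y := fun y hy => by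
    have : t • y = y := (Set.ext_iff.1 h9 y).2 hy
    rw [mul_smul, this, hy]
  rw [← inv_of_sq h2, eq_inv_iff_mul_eq_one, ← mul_eq_one_comm]
  refine c.faith _ fun y => ?_
  by_cases e : a = y
  · exact e ▸ h10 a (c.fix a h1)
  obtain ⟨Q, -, hQ, -, -, h11, -⟩ := c.exists_flag e
  obtain ⟨r, h12, h13⟩ := (c.pl a).exists_ne_one hQ
  obtain ⟨n, h14, rfl⟩ := (c.pl a).conj_inv (hQ.le h12) (hQ.sq r h12) h13 h1 h2 h3
  have h15 := h10 (n • y) (by rw [mul_smul, inv_smul_smul, mul_smul, show r • y = y from h11 h12])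
  rwa [← mul_smul, (c.pl a).comm_of_tr h8 n h14, mul_smul, smul_left_cancel_iff] at h15

end Ctx

end Cfsg.Agent.Hir
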