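import Cfsg.Agent.Hir.Gol

/-! The field with four elements and the numbering of the points of the plane of order four. -/

set_option autoImplicit false
set_option maxRecDepth 100000

namespace Cfsg.Agent.Hir

open Cfsg.Agent.M11 Cfsg.Agent.Mat

/-- The field with four elements. -/
structure F4 where
  /-- constant coefficient -/
  a : Bool
  /-- linear coefficient -/
  b : Bool
  deriving DecidableEq

namespace F4

/-- The elements. -/
def els : List F4 := [⟨false, false⟩, ⟨true, false⟩, ⟨false, true⟩, ⟨true, true⟩]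

theorem mem_els (x : F4) : x ∈ els := by rcases x with ⟨_ | _, _ | _⟩ <;> decide

instance : Fintype F4 := ⟨⟨els, by decide⟩, mem_els⟩

instance decAll (p : F4 → Prop) [DecidablePred p] : Decidable (∀ x, p x) :=
  decidable_of_iff (p ⟨false, false⟩ ∧ p ⟨true, false⟩ ∧ p ⟨false, true⟩ ∧ p ⟨true, true⟩)
    ⟨fun h x => by rcases x with ⟨_ | _, _ | _⟩ <;> simp [h], fun h => ⟨h _, h _, h _, h _⟩⟩

instance decEx (p : F4 → Prop) [DecidablePred p] : Decidable (∃ x, p x) :=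
  decidable_of_iff (¬ ∀ x, ¬ p x) (by simp)

instance : Zero F4 := ⟨⟨false, false⟩⟩
instance : One F4 := ⟨⟨true, false⟩⟩
instance : Add F4 := ⟨fun x y => ⟨xor x.a y.a, xor x.b y.b⟩⟩
instance : Neg F4 := ⟨fun x => x⟩
instance : Mul F4 := ⟨fun x y => ⟨xor (x.a && y.a) (x.b && y.b), xor (xor (x.a && y.b) (x.b && y.a)) (x.b && y.b)⟩⟩
instance : Inv F4 := ⟨fun x => x * x⟩

instance : Field F4 := Field.ofMinimalAxioms F4 (by decide +kernel) (by decide +kernel) (by decide +kernel)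
  (by decide +kernel) (by decide +kernel) (by decide +kernel) (by decide +kernel) (by decide +kernel)
  (by decide +kernel) (by decide +kernel)

theorem card : Fintype.card F4 = 2 ^ 2 := rfl

instance : CharP F4 2 := charP_of_card_eq_prime_pow card

/-- The code of an element. -/
def cd (x : F4) : ℕ := x.a.toNat + 2 * x.b.toNat

/-- A generator. -/
def om : F4 := ⟨false, true⟩

end F4

/-- The numbering of the points. -/
def bt (c : F4) (v : Fin 3 → F4) : ℕ :=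
  (0x41de554aae325916c2c2619317a0e5aaa4eb36029554e4b0d13bd05859a25ce83a2e639d16321081 >>>
    (5 * ((v 0).cd + 4 * (v 1).cd + 16 * (c⁻¹ * v 2).cd))) % 32

theorem forall_vec {α : Type*} {p : (Fin 3 → α) → Prop} (h : ∀ x y z, p ![x, y, z]) (v : Fin 3 → α) : p v := by
  have e : v = ![v 0, v 1, v 2] := by ext i; fin_cases i <;> rfl
  exact e ▸ h _ _ _

instance decVec (p : (Fin 3 → F4) → Prop) [DecidablePred p] : Decidable (∀ v, p v) :=
  decidable_of_iff (∀ x y z, p ![x, y, z]) ⟨forall_vec, fun h _ _ _ => h _⟩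

instance decVecEx (p : (Fin 3 → F4) → Prop) [DecidablePred p] : Decidable (∃ v, p v) :=
  decidable_of_iff (¬ ∀ v, ¬ p v) (by simp)

instance decVecEq : DecidableEq (Fin 3 → F4) := fun v w =>
  decidable_of_iff (v 0 = w 0 ∧ v 1 = w 1 ∧ v 2 = w 2)
    ⟨fun h => funext fun i => by fin_cases i; exacts [h.1, h.2.1, h.2.2], fun h => by simp [h]⟩

theorem bt_eq : ∀ c : F4, c ≠ 0 → ∀ v w, bt c v = bt c w ↔ ∃ k : F4, k ≠ 0 ∧ v = k • w := by decide +kernel

theorem bt_lt : ∀ (c : F4) v, bt c v < 24 ∧ pt (bt c v) ≠ none ∧ pt (bt c v) ≠ some 0 := by decide +kernel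

theorem bt_surj : ∀ c : F4, c ≠ 0 → ∀ p : GolayPt, p ≠ none → p ≠ some 0 → ∃ v, pt (bt c v) = p := by decide +kernel

/-- The standard hyperovals. -/
def Hyp (c : F4) (v : Fin 3 → F4) : Prop :=
  v 0 * v 1 * v 2 = c ∨ (v 0 ≠ 0 ∧ v 1 = 0 ∧ v 2 = 0) ∨ (v 0 = 0 ∧ v 1 ≠ 0 ∧ v 2 = 0) ∨ (v 0 = 0 ∧ v 1 = 0 ∧ v 2 ≠ 0)

instance (c : F4) (v : Fin 3 → F4) : Decidable (Hyp c v) := by unfold Hyp; infer_instance

/-- Representatives of the points of the hyperoval. -/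
def hypL (c : F4) : List (Fin 3 → F4) :=
  [![1, 0, 0], ![0, 1, 0], ![0, 0, 1], ![1, 1, c], ![1, F4.om, c * F4.om * F4.om], ![1, F4.om * F4.om, c * F4.om]]

theorem hyp_iff : ∀ c : F4, c ≠ 0 → ∀ v, Hyp c v ↔ ∃ w ∈ hypL c, ∃ k : F4, k ≠ 0 ∧ v = k • w := by decide +kernel

theorem hyp_of : ∀ u v : Fin 3 → F4, u 0 ≠ 0 → u 1 ≠ 0 → u 2 ≠ 0 → v 0 ≠ 0 → v 1 ≠ 0 → v 2 ≠ 0 →
    (∃ k : F4, k ≠ 0 ∧ v = k • u) ∨ u 1 * v 2 = u 2 * v 1 ∨ u 2 * v 0 = u 0 * v 2 ∨ u 0 * v 1 = u 1 * v 0 ∨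
      v 0 * v 1 * v 2 = u 0 * u 1 * u 2 := by decide +kernel

theorem hyp_smul : ∀ (u : Fin 3 → F4) (k : F4), k ≠ 0 → (k • u) 0 * (k • u) 1 * (k • u) 2 = u 0 * u 1 * u 2 := by
  decide +kernel

theorem hm_spec : ∀ c : F4, c ≠ 0 → ∀ m ∈ hm, (∀ v, m.testBit (bt c v) ↔ Hyp c v) ∨
    ∃ f : Fin 3 → F4, f ≠ 0 ∧ ∀ v, m.testBit (bt c v) ↔ f 0 * v 0 + f 1 * v 1 + f 2 * v 2 = 0 := by decide +kernel

theorem hm_mem : ∀ m ∈ hm, red bas m = 0 ∧ wOf m none = 1 ∧ wOf m (some 0) = 1 := by decide +kernel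

theorem hm_ex : ∀ c : F4, c ≠ 0 → (∃ m ∈ hm, ∀ v, m.testBit (bt c v) ↔ Hyp c v) ∧
    ∃ m ∈ hm, ∀ v, m.testBit (bt c v) ↔ v 2 = 0 := by decide +kernel

/-- The action of an elementary transvection. -/
def trv (i j : Fin 3) (l : F4) (v : Fin 3 → F4) : Fin 3 → F4 := v + (l * v j) • (Pi.single i 1 : Fin 3 → F4)

/-- The image of a mask. -/
def trm (c : F4) (i j : Fin 3) (l : F4) (b : ℕ) : ℕ :=
  F4.els.foldr (fun x s => F4.els.foldr (fun y s => F4.els.foldr (fun z s =>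
    if b.testBit (bt c ![x, y, z]) then s ||| 2 ^ bt c (trv i j l ![x, y, z]) else s) s) s) (b &&& 8388609)

theorem trm_spec : ∀ c : F4, c ≠ 0 → ∀ i j : Fin 3, i ≠ j → ∀ l : F4, ∀ b ∈ bas.map Prod.fst,
    red bas (trm c i j l b) = 0 ∧ wOf b none = wOf (trm c i j l b) none ∧
    wOf b (some 0) = wOf (trm c i j l b) (some 0) ∧
    ∀ v, b.testBit (bt c v) = (trm c i j l b).testBit (bt c (trv i j l v)) := by decide +kernel

end Cfsg.Agent.Hir
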