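import Cfsg.Agent.Hir.TypeP

/-! The geometry of points, lines and planes. -/

set_option autoImplicit false

namespace Cfsg.Agent.Hir

open Subgroup MulAction

variable {G Ω : Type*} [Group G] [MulAction G Ω]

/-- The point `y` is fixed by `Q`. -/
abbrev On (y : Ω) (Q : Subgroup G) : Prop := Q ≤ stabilizer G y

/-- Lines. -/
def Ln (q : ℕ) (N : Ω → Subgroup G) (L : Subgroup G) : Prop := ∃ x y, x ≠ y ∧ CenAt q N x y L

/-- Planes. -/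
def Pn (q : ℕ) (N : Ω → Subgroup G) (R : Subgroup G) : Prop := (∃ x, Vx q (N x) R) ∧ ¬ Ln q N R

variable {q : ℕ} {N : Ω → Subgroup G} {ty : Ω → Subgroup G → Bool} {x y z a b : Ω} {P Q R R' S T L M : Subgroup G}

theorem Ln.ne (h : Ln q N L) (h' : Pn q N R) : L ≠ R := fun e => h'.2 (e ▸ h)

namespace Ctx

variable (c : Ctx q N ty)
include c

theorem ln_smul (h : Ln q N L) (g : G) : Ln q N (g • L) :=
  let ⟨x, y, h1, h2⟩ := h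
  ⟨g • x, g • y, fun e => h1 (smul_left_cancel g e), c.cen_smul h2 g⟩

theorem pn_smul (h : Pn q N R) (g : G) : Pn q N (g • R) :=
  ⟨let ⟨x, h1⟩ := h.1; ⟨g • x, c.vx_smul h1 g⟩, fun h1 => h.2 (by simpa using c.ln_smul h1 g⁻¹)⟩

theorem ln_two (h : Ln q N L) : ∃ x y : Ω, x ≠ y ∧ On x L ∧ On y L :=
  let ⟨x, y, h1, h2⟩ := h
  ⟨x, y, h1, c.vx_le h2.vP, h2.sP⟩

theorem ln_other (h : Ln q N L) (x : Ω) : ∃ y : Ω, x ≠ y ∧ On y L := by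
  obtain ⟨u, v, h1, h2, h3⟩ := c.ln_two h
  by_cases e : x = u
  · exact ⟨v, e ▸ h1, h3⟩
  · exact ⟨u, e, h2⟩

variable [Finite G] [Finite Ω]

theorem cen (h : x ≠ y) : ∃ P, CenAt q N x y P := c.typeP x x y h

theorem star : Star N := fun x => c.starP (c.typeP x) x

theorem ln_vx (h : Ln q N L) (h1 : On x L) : Vx q (N x) L :=
  let ⟨_, _, _, h2⟩ := h
  c.star.vx h2.vP h1

theorem pn_vx (h : Pn q N R) (h1 : On x R) : Vx q (N x) R :=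
  let ⟨_, h2⟩ := h.1
  c.star.vx h2 h1

theorem cen_aux {u v : Ω} (h0 : u ≠ v) (h : CenAt q N u v L) (h1 : u ≠ x) (h2 : On x L) : CenAt q N u x L := by
  obtain ⟨P, h3⟩ := c.cen h1
  rwa [((h3.iff L h.vP).1 h2).resolve_right fun h4 =>
    (c.pl u).adj_ty h3.vP h.vP h4 (c.cen_ty (c.typeP u) h1 h0 h3 h)]

theorem cen_symm (h0 : x ≠ y) (h : CenAt q N x y L) : CenAt q N y x L := by
  obtain ⟨P, h1⟩ := c.cen h0.symm
  rwa [c.cen_eq h0 h h1]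

theorem cen_of_on (h : Ln q N L) (h1 : On x L) (h2 : On y L) (h3 : x ≠ y) : CenAt q N x y L := by
  obtain ⟨u, v, h4, h5⟩ := h
  by_cases e : u = x
  · exact e ▸ c.cen_aux h4 h5 (e ▸ h3) h2
  · exact c.cen_aux (Ne.symm e) (c.cen_symm e (c.cen_aux h4 h5 e h1)) h3 h2

theorem exists_ln (h : x ≠ y) : ∃ L, Ln q N L ∧ On x L ∧ On y L :=
  let ⟨P, h1⟩ := c.cen h
  ⟨P, ⟨x, y, h, h1⟩, c.vx_le h1.vP, h1.sP⟩

theorem ln_uniq (hL : Ln q N L) (hM : Ln q N M) (h : x ≠ y) (h1 : On x L) (h2 : On y L) (h3 : On x M) (h4 : On y M) :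
    L = M := c.cen_uniq (c.cen_of_on hL h1 h2 h) (c.cen_of_on hM h3 h4 h)

theorem ln_ty (hL : Ln q N L) (hM : Ln q N M) (h1 : On x L) (h2 : On x M) : ty x L = ty x M := by
  obtain ⟨y, h3, h4⟩ := c.ln_other hL x
  obtain ⟨z, h5, h6⟩ := c.ln_other hM x
  exact c.cen_ty (c.typeP x) h3 h5 (c.cen_of_on hL h1 h4 h3) (c.cen_of_on hM h2 h6 h5)

theorem ln_of_ty (hL : Ln q N L) (h1 : On x L) (hM : Vx q (N x) M) (e : ty x L = ty x M) : Ln q N M := by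
  obtain ⟨n, -, rfl⟩ := (c.pl x).trans_ty (c.ln_vx hL h1) hM e
  exact c.ln_smul hL n

theorem pn_ty (hL : Ln q N L) (hR : Pn q N R) (h1 : On x L) (h2 : On x R) : ty x L ≠ ty x R := fun e =>
  hR.2 (c.ln_of_ty hL h1 (c.pn_vx hR h2) e)

theorem pn_of_adj (hL : Ln q N L) (h1 : On x L) (hR : Vx q (N x) R) (h2 : Adj L R) : Pn q N R :=
  ⟨⟨x, hR⟩, fun h3 => (c.pl x).adj_ty (c.ln_vx hL h1) hR h2 (c.ln_ty hL h3 h1 (c.vx_le hR))⟩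

theorem ln_of_adj (hR : Pn q N R) (h1 : On x R) (hL : Vx q (N x) L) (h2 : Adj R L) : Ln q N L := by
  obtain ⟨y, h3⟩ := c.exists_ne x
  obtain ⟨M, hM, h4, -⟩ := c.exists_ln h3
  exact c.ln_of_ty hM h4 hL (bool3 (c.pn_ty hM hR h4 h1) ((c.pl x).adj_ty hL (c.pn_vx hR h1) h2.symm))

theorem adj_of_two (hL : Ln q N L) (hR : Pn q N R) (h : x ≠ y) (h1 : On x L) (h2 : On y L) (h3 : On x R)
    (h4 : On y R) : Adj L R :=
  (((c.cen_of_on hL h1 h2 h).iff R (c.pn_vx hR h3)).1 h4).resolve_left (hL.ne hR).symm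

theorem line_thru (hR : Pn q N R) {t : G} (h1 : t ≠ 1) (h2 : t ∈ R) (h3 : On y R) :
    ∃ L, Ln q N L ∧ On y L ∧ t ∈ L :=
  let ⟨L, h4, h5, h6⟩ := (c.pl y).other (c.pn_vx hR h3) h1 h2
  ⟨L, c.ln_of_adj hR h3 h4 h5, c.vx_le h4, h6⟩

theorem fix_plane (hR : Pn q N R) {t : G} (h1 : t ≠ 1) (h2 : t ∈ R) (h3 : t • y = y) : On y R := by
  obtain ⟨x, hx⟩ := hR.1
  by_cases e : x = y
  · exact e ▸ c.vx_le hx
  obtain ⟨P, h4⟩ := c.cen e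
  obtain ⟨L, hL, h5, h6⟩ := c.line_thru hR h1 h2 (c.vx_le hx)
  exact h4.sA hx ((c.pl x).fix_ty (c.ln_vx hL h5) hx h4.vP h1 h6 h2 (hL.ne hR) (c.cen_fix h4 (h5 h6) h3)
    (c.ln_ty hL ⟨x, y, e, h4⟩ h5 (c.vx_le h4.vP))).symm

theorem sub (hR : Pn q N R) (h1 : Adj L R) (h2 : On y L) : On y R :=
  let ⟨_, h3, h4, h5⟩ := h1.2
  c.fix_plane hR h3 h5 (h2 h4)

theorem plane_of (hL : Ln q N L) {t : G} (h1 : t ≠ 1) (h2 : t ∈ L) : ∃ R, Pn q N R ∧ t ∈ R := by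
  obtain ⟨x, -, -, h3, -⟩ := c.ln_two hL
  obtain ⟨R, h4, h5, h6⟩ := (c.pl x).other (c.ln_vx hL h3) h1 h2
  exact ⟨R, c.pn_of_adj hL h3 h4 h5, h6⟩

theorem ln_eq (hL : Ln q N L) (hM : Ln q N M) (h1 : On x L) (h2 : On x M) {t : G} (h3 : t ≠ 1) (h4 : t ∈ L)
    (h5 : t ∈ M) : L = M :=
  (c.pl x).eq_of_ty (c.ln_vx hL h1) (c.ln_vx hM h2) h3 h4 h5 (c.ln_ty hL hM h1 h2)

theorem join (hL : Ln q N L) (hM : Ln q N M) (h1 : On x L) (h2 : On x M) (h3 : L ≠ M) :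
    ∃ R, Pn q N R ∧ Adj L R ∧ Adj M R :=
  let ⟨R, h4, h5, h6⟩ := (c.pl x).join (c.ln_vx hL h1) (c.ln_vx hM h2) (c.ln_ty hL hM h1 h2) h3
  ⟨R, c.pn_of_adj hL h1 h4 h5, h5, h6⟩

theorem join_uniq (hL : Ln q N L) (hM : Ln q N M) (h1 : On x L) (h2 : On x M) (h3 : L ≠ M) (hR : Pn q N R)
    (hR' : Pn q N R') (h4 : Adj L R) (h5 : Adj M R) (h6 : Adj L R') (h7 : Adj M R') : R = R' :=
  (c.pl x).eq_of_two (c.pn_vx hR (c.sub hR h4 h1)) (c.pn_vx hR' (c.sub hR' h6 h1)) (c.ln_vx hL h1) (c.ln_vx hM h2)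
    h3 h4 h5 h6 h7

theorem exists_plane (hL : Ln q N L) (h : ¬ On y L) : ∃ R, Pn q N R ∧ Adj L R ∧ On y R := by
  obtain ⟨x, h1, h2⟩ := c.ln_other hL y
  obtain ⟨M, hM, h3, h4⟩ := c.exists_ln h1
  obtain ⟨R, hR, h5, h6⟩ := c.join hL hM h2 h4 fun e => h (e ▸ h3)
  exact ⟨R, hR, h5, c.sub hR h6 h3⟩

theorem plane_uniq (hL : Ln q N L) (h : ¬ On y L) (hR : Pn q N R) (hR' : Pn q N R') (h1 : Adj L R) (h2 : Adj L R')
    (h3 : On y R) (h4 : On y R') : R = R' := by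
  obtain ⟨x, h5, h6⟩ := c.ln_other hL y
  obtain ⟨M, hM, h7, h8⟩ := c.exists_ln h5
  exact c.join_uniq hL hM h6 h8 (fun e => h (e ▸ h7)) hR hR' h1 (c.adj_of_two hM hR h5 h7 h8 h3 (c.sub hR h1 h6)) h2
    (c.adj_of_two hM hR' h5 h7 h8 h4 (c.sub hR' h2 h6))

theorem meet (hR : Pn q N R) (hR' : Pn q N R') (h1 : On x R) (h2 : On x R') (h3 : R ≠ R') :
    ∃ L, Ln q N L ∧ On x L ∧ Adj L R ∧ Adj L R' := by
  obtain ⟨y, h4⟩ := c.exists_ne x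
  obtain ⟨M, hM, h5, -⟩ := c.exists_ln h4
  obtain ⟨L, h6, h7, h8⟩ := (c.pl x).join (c.pn_vx hR h1) (c.pn_vx hR' h2)
    (bool3 (c.pn_ty hM hR h5 h1).symm (c.pn_ty hM hR' h5 h2).symm) h3
  exact ⟨L, c.ln_of_adj hR h1 h6 h7, c.vx_le h6, h7.symm, h8.symm⟩

theorem on_of_meet (hL : Ln q N L) (hR : Pn q N R) (hR' : Pn q N R') (h1 : Adj L R) (h2 : Adj L R') (h3 : R ≠ R')
    (h4 : On y R) (h5 : On y R') : On y L :=
  by_contra fun h6 => h3 (c.plane_uniq hL h6 hR hR' h1 h2 h4 h5)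

theorem exists_line (hR : Pn q N R) (h : On x R) (X Y : Subgroup G) :
    ∃ L, Ln q N L ∧ On x L ∧ Adj L R ∧ L ≠ X ∧ L ≠ Y :=
  let ⟨L, h1, h2, h3⟩ := (c.pl x).exists_nbr (c.pn_vx hR h) X Y
  ⟨L, c.ln_of_adj hR h h1 h2, c.vx_le h1, h2.symm, h3⟩

theorem exists_off (hL : Ln q N L) (hR : Pn q N R) (h : Adj L R) : ∃ z : Ω, On z R ∧ ¬ On z L := by
  obtain ⟨x, -, -, h1, -⟩ := c.ln_two hL
  obtain ⟨M, hM, h2, h3, h4, -⟩ := c.exists_line hR (c.sub hR h h1) L L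
  obtain ⟨z, h5, h6⟩ := c.ln_other hM x
  exact ⟨z, c.sub hR h3 h6, fun h7 => h4 (c.ln_uniq hM hL h5 h2 h6 h1 h7)⟩

theorem ln_fix (hL : Ln q N L) (h : x ≠ y) (h1 : On x L) (h2 : On y L) {g : G} (h3 : g • x = x) (h4 : g • y = y) :
    g • L = L := c.cen_fix (c.cen_of_on hL h1 h2 h) h3 h4

theorem tr_of_lines {g : G} (h1 : g • x = x) (h2 : ∀ L, Ln q N L → On x L → g • L = L) : Tr q (N x) g := by
  intro Q hQ
  by_cases e : Ln q N Q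
  · exact h2 Q e (c.vx_le hQ)
  · exact (c.pl x).fix_of_nbrs (c.norm h1) hQ fun L hL h3 =>
      h2 L (c.ln_of_adj ⟨⟨x, hQ⟩, e⟩ (c.vx_le hQ) hL h3) (c.vx_le hL)

theorem tr_of_plane (hR : Pn q N R) {g : G} (h1 : ∀ y : Ω, On y R → g • y = y) (h2 : g • x = x) (h3 : ¬ On x R) :
    Tr q (N x) g := by
  refine c.tr_of_lines h2 fun L hL h4 => ?_
  by_cases hc : ∃ z : Ω, On z L ∧ On z R
  · obtain ⟨z, h5, h6⟩ := hc
    exact c.ln_fix hL (fun e : x = z => h3 (e ▸ h6)) h4 h5 h2 (h1 z h6)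
  push Not at hc
  have key : ∀ z : Ω, On z R → ∃ S M, Pn q N S ∧ Ln q N M ∧ Adj L S ∧ On z S ∧ Adj M R ∧ Adj M S ∧ R ≠ S ∧
      g • S = S := by
    intro z h5
    obtain ⟨S, hS, h6, h7⟩ := c.exists_plane hL fun h6 => hc z h6 h5
    have h8 := c.sub hS h6 h4
    have h9 : R ≠ S := fun e => h3 (e ▸ h8)
    obtain ⟨M, hM, h10, h11, h12⟩ := c.meet hR hS h5 h7 h9
    obtain ⟨w, h13, h14⟩ := c.ln_other hM z
    exact ⟨S, M, hS, hM, h6, h7, h11, h12, h9, c.plane_uniq hM (fun e => h3 (c.sub hR h11 e)) (c.pn_smul hS g) hS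
      (c.ln_fix hM h13 h10 h14 (h1 z h5) (h1 w (c.sub hR h11 h14)) ▸ h12.smul g) h12 (smul_le_of_fix h2 h8) h8⟩
  obtain ⟨z, hz⟩ := hR.1
  obtain ⟨S, M, hS, hM, h5, -, h6, h7, h8, h9⟩ := key z (c.vx_le hz)
  obtain ⟨w, h10, h11⟩ := c.exists_off hM hR h6
  obtain ⟨S', -, hS', -, h12, h13, -, -, -, h14⟩ := key w h10
  exact (c.pl x).fix_two (Pl.col_smul (c.norm h2)) (c.ln_vx hL h4) (c.pn_vx hS (c.sub hS h5 h4))
    (c.pn_vx hS' (c.sub hS' h12 h4)) (fun e => h11 (c.on_of_meet hM hR hS h6 h7 h8 h10 (e ▸ h13))) h5.symm h12.symm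
    h9 h14

theorem exists_disj (hR : Pn q N R) (h : ¬ On x R) : ∃ L, Ln q N L ∧ On x L ∧ ∀ z : Ω, On z L → ¬ On z R := by
  obtain ⟨y, hy⟩ := hR.1
  obtain ⟨M, hM, -, h1, -⟩ := c.exists_line hR (c.vx_le hy) R R
  obtain ⟨S, hS, h2, h3⟩ := c.exists_plane hM fun e => h (c.sub hR h1 e)
  obtain ⟨t, h4, h5, h6⟩ := h2.2
  obtain ⟨L, hL, h7, h8⟩ := c.line_thru hS h4 h6 h3
  refine ⟨L, hL, h7, fun z h9 h10 => h (c.sub hR h1 ?_)⟩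
  rwa [c.ln_eq hM hL (c.on_of_meet hM hR hS h1 h2 (fun e => h (e ▸ h3)) h10
    (c.sub hS ⟨hL.ne hS, t, h4, h8, h6⟩ h9)) h9 h4 h5 h8]

theorem fix_on_line {g : G} (h1 : Tr q (N x) g) (h2 : x ≠ y) (h3 : g • y = y) (hL : Ln q N L) (h4 : On x L) :
    ∃ z : Ω, x ≠ z ∧ On z L ∧ g • z = z := by
  obtain ⟨M, hM, h5, h6⟩ := c.exists_ln h2
  obtain ⟨n, h7, rfl⟩ := (c.pl x).trans_ty (c.ln_vx hM h5) (c.ln_vx hL h4) (c.ln_ty hM hL h5 h4)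
  refine ⟨n • y, fun e => h2 (smul_left_cancel n ((c.fix x h7).trans e)), le_stab_smul.2 h6, ?_⟩
  rw [← mul_smul, (c.pl x).comm_of_tr h1 n h7, mul_smul, h3]

theorem no_homology (hR : Pn q N R) (hL : Ln q N L) (h1 : On a R) (h2 : On a L) (h3 : On x L) (h4 : ¬ On x R)
    {g : G} (h5 : ∀ y : Ω, On y R → g • y = y) (h6 : g • x = x) (h7 : ∀ y : Ω, g • y = y → On y R ∨ On y L) :
    False := by
  obtain ⟨M, hM, h8, h9⟩ := c.exists_disj hR h4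
  obtain ⟨z, h10, h11, h12⟩ := c.fix_on_line (c.tr_of_plane hR h5 h6 h4) (fun e : x = a => h4 (e ▸ h1)) (h5 a h1)
    hM h8
  exact h9 a (c.ln_uniq hL hM h10 h3 ((h7 z h12).resolve_left (h9 z h11)) h8 h11 ▸ h2) h1

theorem exists_m (a : Ω) : ∃ m, 1 ≤ m ∧ ∀ L, Ln q N L → {y : Ω | On y L}.ncard = m + 1 := by
  obtain ⟨b, hab⟩ := c.exists_ne a
  obtain ⟨L, hL, h1, h2⟩ := c.exists_ln hab
  have h3 : 2 ≤ {y : Ω | On y L}.ncard := by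
    rw [← Set.ncard_pair hab]
    exact Set.ncard_le_ncard (by rintro _ (rfl | rfl) <;> assumption)
  refine ⟨{y : Ω | On y L}.ncard - 1, by omega, fun M hM => ?_⟩
  obtain ⟨x, y, h4, h5, h6⟩ := c.ln_two hM
  obtain ⟨g, rfl, rfl⟩ := c.two a b x y hab h4
  rw [c.ln_uniq hM (c.ln_smul hL g) h4 h5 h6 (le_stab_smul.2 h1) (le_stab_smul.2 h2),
    ← ncard_smul g {y : Ω | On y L} _ fun y => le_stab_smul]
  omega

variable {m : ℕ} (hm : ∀ L, Ln q N L → {y : Ω | On y L}.ncard = m + 1)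
include hm

omit [Finite G] c in
theorem card_ln' (hL : Ln q N L) (h : On x L) : {y : Ω | y ≠ x ∧ On y L}.ncard = m := by
  have := Set.ncard_sdiff_singleton_add_one (s := {y : Ω | On y L}) (a := x) h
  rw [hm L hL] at this
  refine Eq.trans ?_ (Nat.add_right_cancel this)
  congr 1
  ext y
  simp [and_comm]

theorem card_union (x : Ω) (A : Set (Subgroup G)) (hA : ∀ L ∈ A, Ln q N L ∧ On x L) :
    {y : Ω | y = x ∨ ∃ L ∈ A, On y L}.ncard = A.ncard * m + 1 := by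
  rw [← ncard_rel (fun (y : Ω) L => On y L) {y : Ω | y ≠ x ∧ ∃ L ∈ A, On y L} A m (fun y hy => hy.2)
    (fun y hy L hL M hM h1 h2 => c.ln_uniq (hA L hL).1 (hA M hM).1 hy.1 h1 (hA L hL).2 h2 (hA M hM).2) fun L hL => ?_,
    ← Set.ncard_insert_of_notMem (a := x) (by simp)]
  · congr 1
    ext y
    by_cases e : y = x <;> simp [e]
  · rw [← card_ln' hm (hA L hL).1 (hA L hL).2]
    congr 1
    ext y
    exact and_comm.trans ((and_congr_right fun h => and_iff_left ⟨L, hL, h⟩).trans and_comm)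

theorem card_pn (hR : Pn q N R) : {y : Ω | On y R}.ncard = (q + 1) * m + 1 := by
  obtain ⟨x, hx⟩ := hR.1
  rw [← (c.pl x).nbr_card hx, ← c.card_union hm x _ fun L hL => ⟨c.ln_of_adj hR (c.vx_le hx) hL.1 hL.2, c.vx_le hL.1⟩]
  congr 1
  ext y
  refine ⟨fun hy => or_iff_not_imp_left.2 fun e => ?_, ?_⟩
  · obtain ⟨L, hL, h1, h2⟩ := c.exists_ln e
    exact ⟨L, ⟨c.ln_vx hL h2, (c.adj_of_two hL hR e h1 h2 hy (c.vx_le hx)).symm⟩, h1⟩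
  · rintro (rfl | ⟨L, hL, h1⟩)
    · exact c.vx_le hx
    · exact c.sub hR hL.2.symm h1

theorem card_all (x : Ω) : Nat.card Ω = (q ^ 2 + q + 1) * m + 1 := by
  obtain ⟨y, h⟩ := c.exists_ne x
  obtain ⟨M, hM, h1, -⟩ := c.exists_ln h
  rw [← (c.pl x).ty_card (c.ln_vx hM h1), ← c.card_union hm x _ fun L hL =>
    ⟨c.ln_of_ty hM h1 hL.1 hL.2.symm, c.vx_le hL.1⟩, ← Set.ncard_univ]
  congr 1
  refine (Set.eq_univ_of_forall fun y => or_iff_not_imp_left.2 fun e => ?_).symm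
  obtain ⟨L, hL, h2, h3⟩ := c.exists_ln e
  exact ⟨L, ⟨c.ln_vx hL h3, c.ln_ty hL hM h3 h1⟩, h2⟩

theorem dvd_q (x : Ω) : m + 1 ∣ q := by
  obtain ⟨y, h⟩ := c.exists_ne x
  obtain ⟨M, hM, h1, -⟩ := c.exists_ln h
  obtain ⟨t, h2, h3⟩ := (c.pl x).exists_ne_one (c.ln_vx hM h1)
  obtain ⟨R, hR, h4⟩ := c.plane_of hM h3 h2
  have e := ncard_rel (fun (y : Ω) L => On y L) {y : Ω | On y R} {L | Ln q N L ∧ t ∈ L} (m + 1)
    (fun y hy => let ⟨L, h5, h6, h7⟩ := c.line_thru hR h3 h4 hy; ⟨L, ⟨h5, h7⟩, h6⟩)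
    (fun y _ L hL L' hL' h5 h6 => c.ln_eq hL.1 hL'.1 h5 h6 h3 hL.2 hL'.2) fun L hL => by
      rw [← hm L hL.1]
      congr 1
      ext y
      exact and_iff_right_of_imp (c.sub hR ⟨hL.1.ne hR, t, h3, hL.2, h4⟩)
  rw [c.card_pn hm hR] at e
  refine (Nat.dvd_add_right (Dvd.intro_left _ e.symm)).1 ⟨q + 1, by ring⟩

end Ctx

end Cfsg.Agent.Hir
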