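import Cfsg.Agent.Mat.Golay2

/-! Permutations preserving the hexads. -/

set_option autoImplicit false
set_option maxRecDepth 100000

namespace Cfsg.Agent.Hir

open Subgroup MulAction Cfsg.Agent.M11 Cfsg.Agent.Mat
open scoped Pointwise

/-- A basis of the subcode spanned by the hexads. -/
def hm : List ℕ := [9963547, 12656663, 8421811, 8524371, 10765331, 8536111, 8398155, 14716939, 8657159, 9471495,
  10486557]

/-- The dual vectors. -/
def hd : List ℕ := [524288, 65536, 128, 131232, 16544, 160, 73728, 4259840, 526336, 1572864, 3]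

/-- The projections of the unit vectors. -/
def hn : List ℕ := [5990434, 5990434, 1116327, 4726955, 737427, 0, 205024, 0, 600451, 1704611, 1664160, 0, 4921504,
  0, 0, 5865600, 0, 0, 805024, 0, 0, 6373539, 0, 14379043]

theorem wOf_mem {m : ℕ} (h : red bas m = 0) : wOf m ∈ golayCode := mem_golay.2 ⟨m, inSpan_of_red h, rfl⟩

theorem golay_le {K : Submodule (ZMod 2) (GolayPt → ZMod 2)} (h : ∀ b ∈ bas.map Prod.fst, wOf b ∈ K) :
    golayCode ≤ K := fun _ hw => by
  obtain ⟨m, hm, rfl⟩ := mem_golay.1 hw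
  exact wOf_mem_of_inSpan h hm

theorem mem_M24' {g : Equiv.Perm GolayPt} (h0 : wOf 11669008 ∘ g.symm ∈ golayCode)
    (h : ∀ m ∈ hm, wOf m ∘ g.symm ∈ golayCode) : g ∈ M24 := by
  rw [mem_stabilizer_set_iff_smul_set_subset (Set.toFinite _)]
  rintro _ ⟨_, ⟨w, hw, rfl⟩, rfl⟩
  refine ⟨w ∘ g.symm, ?_, support_comp g w⟩
  refine golay_le (K := golayCode.comap (LinearMap.funLeft (ZMod 2) (ZMod 2) g.symm)) (fun b hb => ?_) hw
  obtain ⟨i, -, rfl⟩ := (by decide +kernel : ∀ b ∈ bas.map Prod.fst,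
    ∃ i ∈ [1813, 3770, 325, 2868, 1369, 136, 940, 144, 1641, 2800, 1593, 2672], comb (11669008 :: hm) i = b) b hb
  exact wOf_mem_of_inSpan (List.forall_mem_cons.2 ⟨h0, h⟩) (inSpan_comb _ _)

theorem golay_orth {w : GolayPt → ZMod 2} (hw : w ∈ golayCode) : wOf 11669008 ⬝ᵥ w = 0 :=
  golay_le (K := LinearMap.ker (dotProductBilin (ZMod 2) (ZMod 2) (wOf 11669008)))
    (by simp only [LinearMap.mem_ker, dotProductBilin_apply_apply]; decide +kernel) hw

theorem mem_of_orth {x : GolayPt → ZMod 2} (h : ∀ m ∈ hm, x ⬝ᵥ wOf m = 0) :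
    x ∈ golayCode ∨ x + wOf 8388609 ∈ golayCode := by
  let T : (GolayPt → ZMod 2) →ₗ[ZMod 2] (GolayPt → ZMod 2) := LinearMap.id + ∑ k : Fin 11,
    ((dotProductBilin (ZMod 2) (ZMod 2)).flip (wOf (hm.getD k 0))).smulRight (wOf (hd.getD k 0))
  have e : ∀ x, T x = x + ∑ k : Fin 11, (x ⬝ᵥ wOf (hm.getD k 0)) • wOf (hd.getD k 0) := fun x => by simp [T]
  have h1 : T x ∈ golayCode ⊔ Submodule.span (ZMod 2) {wOf 8388609} := by
    rw [pi_eq_sum_univ' x, map_sum]
    refine Submodule.sum_mem _ fun p _ => ?_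
    rw [map_smul]
    refine Submodule.smul_mem _ _ ?_
    have h1 : T (Pi.single p 1) = wOf (hn.getD (idx p) 0) := by
      rw [e]
      simp only [single_one_dotProduct]
      ext r
      simp only [Pi.add_apply, Finset.sum_apply, Pi.smul_apply, Pi.single_apply]
      revert p r
      decide +kernel
    rw [h1]
    rcases (by decide +kernel : ∀ p : GolayPt, red bas (hn.getD (idx p) 0) = 0 ∨
      red bas (hn.getD (idx p) 0 ^^^ 8388609) = 0) p with h2 | h2
    · exact Submodule.mem_sup_left (wOf_mem h2)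
    · have h3 := wOf_mem h2
      rw [wOf_xor] at h3
      exact (Submodule.add_mem_iff_left _ (Submodule.mem_sup_right (Submodule.mem_span_singleton_self _))).1
        (Submodule.mem_sup_left h3)
  rw [e, Finset.sum_eq_zero fun k _ => by rw [h _ (by revert k; decide), zero_smul], add_zero] at h1
  obtain ⟨y, hy, z, hz, rfl⟩ := Submodule.mem_sup.1 h1
  obtain ⟨c, rfl⟩ := Submodule.mem_span_singleton.1 hz
  obtain rfl | rfl := (by decide : ∀ c : ZMod 2, c = 0 ∨ c = 1) c
  · exact Or.inl (by simpa using hy)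
  · refine Or.inr ?_
    rwa [one_smul, add_assoc, ← wOf_xor, Nat.xor_self, wOf_zero, add_zero]

theorem mem_or_swap {g : Equiv.Perm GolayPt} (h0 : g none = none) (h1 : g (some 0) = some 0)
    (h : ∀ m ∈ hm, wOf m ∘ g.symm ∈ golayCode) (h' : ∀ m ∈ hm, wOf m ∘ g ∈ golayCode) :
    g ∈ M24 ∨ g * Equiv.swap none (some 0) ∈ M24 := by
  refine (mem_of_orth (x := wOf 11669008 ∘ g.symm) fun m hm => by
    rw [comp_equiv_symm_dotProduct, golay_orth (h' m hm)]).imp (fun h2 => mem_M24' h2 h) fun h2 => mem_M24' ?_ ?_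
  · have e1 : wOf 11669008 ∘ Equiv.swap none (some 0) = wOf 11669008 + wOf 8388609 := funext (by decide +kernel)
    have e2 : wOf 8388609 ∘ g.symm = wOf 8388609 := funext fun p => by
      obtain ⟨p, rfl⟩ := g.surjective p
      have e3 : ∀ p, wOf 8388609 p = if p = none ∨ p = some 0 then 1 else 0 := by decide +kernel
      rw [Function.comp, Equiv.symm_apply_apply, e3, e3]
      exact if_congr (or_congr (g.injective.eq_iff' h0) (g.injective.eq_iff' h1)).symm rfl rfl
    change (wOf 11669008 ∘ Equiv.swap none (some 0)) ∘ g.symm ∈ _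
    rwa [e1, Pi.add_comp, e2]
  · intro m h3
    have e1 : wOf m ∘ Equiv.swap none (some 0) = wOf m := funext (by revert m; decide +kernel)
    change (wOf m ∘ Equiv.swap none (some 0)) ∘ g.symm ∈ _
    exact e1.symm ▸ h m h3

theorem card_M22_le : Nat.card Spor.M22 ≤ 443520 := (card_map_eM _).symm.trans_le card_X22_le

end Cfsg.Agent.Hir
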