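import Cfsg.Agent.Hir.Aff
import Cfsg.Agent.Hir.Conc

/-! Coordinates at a point: the two possible cases. -/

set_option autoImplicit false

namespace Cfsg.Agent.Hir

open Subgroup MulAction Matrix

variable {F : Type*} [Field F] {G Ω : Type*} [Group G] [MulAction G Ω]

theorem eq_of_card_cyclic {A : Type*} [CommGroup A] [IsCyclic A] [Finite A] {H K : Subgroup A}
    (h : Nat.card H = Nat.card K) : H = K := by
  have key : ∀ H : Subgroup A, H = (powMonoidHom (Nat.card H) : A →* A).ker := fun H =>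
    eq_of_le_of_card_ge (fun x hx => congrArg Subtype.val (pow_card_eq_one' (x := (⟨x, hx⟩ : H))))
      (by rw [IsCyclic.card_powMonoidHom_ker]; exact Nat.gcd_le_right _ Nat.card_pos)
  rw [key H, h, ← key K]

/-- Diagonal matrices. -/
def dg (r s : Fˣ) : S3 F := ⟨diagonal ![r, s, ((r * s)⁻¹ : Fˣ)], by
  rw [det_diagonal, Fin.prod_univ_three]
  exact (r * s).mul_inv⟩

theorem dg_smul (r s : Fˣ) (u : Fin 3 → F) : dg r s • u = ![r * u 0, s * u 1, ((r * s)⁻¹ : Fˣ) * u 2] := by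
  ext i
  rw [smul_eq, dg, mulVec_diagonal]
  fin_cases i <;> rfl

/-- A one-dimensional torus. -/
def dh : Fˣ →* S3 F where
  toFun r := dg r r⁻¹
  map_one' := Geom.sl_ext fun u => by ext i; fin_cases i <;> simp [dg_smul]
  map_mul' r s := Geom.sl_ext fun u => by ext i; fin_cases i <;> simp [mul_smul, dg_smul, mul_assoc, mul_left_comm]

/-- The standard basis. -/
abbrev eb (i : Fin 3) : Fin 3 → F := Pi.single i 1

theorem eb_ne (i : Fin 3) : (eb i : Fin 3 → F) ≠ 0 := by simp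

theorem dh_smul (r : Fˣ) : dh r • (eb 0 : Fin 3 → F) = (r : F) • eb 0 := by
  ext i; fin_cases i <;> simp [dh, dg_smul]

theorem stab_le {M : Subgroup (S3 F)} (hM : ∀ w f : Fin 3 → F, f ⬝ᵥ w = 0 → f 0 = 0 → tau w f ∈ M) {A : S3 F}
    (hA : A • (eb 0 : Fin 3 → F) = eb 0) : A ∈ M := by
  have k1 : ∀ A : S3 F, A • (eb 0 : Fin 3 → F) = eb 0 → A • (eb 1 : Fin 3 → F) = eb 1 → A ∈ M := by
    intro A h0 h1
    have e0 : ∀ i, A.1 i 0 = (eb 0 : Fin 3 → F) i := fun i => by simpa [smul_eq] using congrFun h0 i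
    have e1 : ∀ i, A.1 i 1 = (eb 1 : Fin 3 → F) i := fun i => by simpa [smul_eq] using congrFun h1 i
    have e2 : A.1 2 2 = 1 := by
      have := A.2
      rw [det_fin_three] at this
      simpa [e0, e1] using this
    have h2 : (eb 2 : Fin 3 → F) ⬝ᵥ ![A.1 0 2, A.1 1 2, 0] = 0 := by simp
    convert hM _ _ h2 (by simp)
    refine Subtype.ext ?_
    rw [tau_coe h2]
    ext i j
    rw [Matrix.add_apply, vecMulVec_apply]
    fin_cases i <;> fin_cases j <;> simp [e0, e1, e2]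
  have k2 : ∀ A : S3 F, A • (eb 0 : Fin 3 → F) = eb 0 → (A • (eb 1 : Fin 3 → F)) 2 ≠ 0 → A ∈ M := by
    intro A h0 h1
    set u := A • (eb 1 : Fin 3 → F) with hu
    have h2 : ![0, 1, (1 - u 1) / u 2] ⬝ᵥ u = 1 := by simp [dotProduct, Fin.sum_univ_three, h1]
    have h3 : ![0, 1, (1 - u 1) / u 2] ⬝ᵥ (eb 1 - u) = 0 := by rw [dotProduct_sub, h2]; simp
    refine (M.mul_mem_cancel_left (hM _ _ h3 rfl)).1 (k1 _ ?_ ?_)
    · rw [mul_smul, h0, tau_smul h3]; simp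
    · rw [mul_smul, ← hu, tau_smul h3, h2]; simp
  by_cases e : (A • (eb 1 : Fin 3 → F)) 2 = 0
  · have h1 : (eb 1 : Fin 3 → F) ⬝ᵥ eb 2 = 0 := by simp
    refine (M.mul_mem_cancel_left (hM _ _ h1 (by simp))).1 (k2 _ ?_ ?_)
    · rw [mul_smul, hA, tau_smul h1]; simp
    · rw [mul_smul, tau_smul h1]
      intro h2
      have h3 : A • (eb 1 : Fin 3 → F) = A • ((A • (eb 1 : Fin 3 → F)) 0 • (eb 0 : Fin 3 → F)) := by
        rw [smul_comm, hA]
        ext i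
        fin_cases i
        · simp
        · simpa [e] using h2
        · simpa using e
      simpa using congrFun (smul_left_cancel A h3) 1
  · exact k2 A hA e

theorem exists_smul_eb {v : Fin 3 → F} (hv : v ≠ 0) : ∃ B : S3 F, B • (eb 0 : Fin 3 → F) = v := by
  have key : ∀ f : Fin 3 → F, f 0 = 1 → f ⬝ᵥ v = 1 → ∃ B : S3 F, B • (eb 0 : Fin 3 → F) = v := fun f h1 h2 => by
    have h3 : f ⬝ᵥ (v - eb 0) = 0 := by simp [h1, h2]
    exact ⟨tau (v - eb 0) f, by rw [tau_smul h3]; simp [h1]⟩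
  by_cases h1 : v 1 = 0
  · by_cases h2 : v 2 = 0
    · have h3 : v 0 ≠ 0 := fun e => hv (by ext i; fin_cases i <;> simp [e, h1, h2])
      exact ⟨dh (Units.mk0 _ h3), by rw [dh_smul]; ext i; fin_cases i <;> simp [h1, h2]⟩
    · exact key ![1, 0, (1 - v 0) / v 2] rfl (by simp [dotProduct, Fin.sum_univ_three, h2])
  · exact key ![1, (1 - v 0) / v 1, 0] rfl (by simp [dotProduct, Fin.sum_univ_three, h1])

/-- The eigenvalues on `v` of the elements fixing `x`. -/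
def Ev (φ : S3 F →* G) (x : Ω) (v : Fin 3 → F) : Subgroup Fˣ where
  carrier := {r | ∃ A, φ A • x = x ∧ A • v = (r : F) • v}
  mul_mem' := fun {r s} ⟨A, h1, h2⟩ ⟨B, h3, h4⟩ => ⟨A * B, by rw [map_mul, mul_smul, h3, h1], by
    rw [mul_smul, h4, smul_comm, h2, smul_smul, mul_comm, Units.val_mul]⟩
  one_mem' := ⟨1, by simp, by simp⟩
  inv_mem' := fun {r} ⟨A, h1, h2⟩ => ⟨A⁻¹, by rw [map_inv, inv_smul_eq_iff, h1], by
    rw [inv_smul_eq_iff, smul_comm, h2, smul_smul, Units.inv_mul, one_smul]⟩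

/-- The setting with coordinates at the point `a`. -/
structure Co (N : Ω → Subgroup G) (ty : Ω → Subgroup G → Bool) (a : Ω) (φ ψ : S3 F →* G) : Prop where
  c : Ctx (Nat.card F) N ty
  d : Du φ ψ
  range : N a = φ.range
  ln : ∀ v, v ≠ 0 → Ln (Nat.card F) N (PV φ v)

variable [Finite G] [Finite Ω] [Finite F] [CharP F 2]
variable {N : Ω → Subgroup G} {ty : Ω → Subgroup G → Bool} {a x y : Ω} {φ ψ : S3 F →* G} {v w f : Fin 3 → F}

theorem exists_co (c : Ctx (Nat.card F) N ty) (d : Du φ ψ) (h : N a = φ.range) :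
    Co N ty a φ ψ ∨ Co N ty a ψ φ := by
  have key : ∀ {φ ψ : S3 F →* G} {v}, Du φ ψ → N a = φ.range → v ≠ 0 → Ln (Nat.card F) N (PV φ v) →
      Co N ty a φ ψ := fun {φ ψ v} d h hv hL => ⟨c, d, h, fun w hw => by
    obtain ⟨A, rfl⟩ := exists_smul_eb hv
    obtain ⟨B, rfl⟩ := exists_smul_eb hw
    simpa [smul_PV, ← map_inv, ← map_mul, mul_smul] using c.ln_smul hL (φ (B * A⁻¹))⟩
  obtain ⟨b, h1⟩ := c.exists_ne a
  obtain ⟨L, hL, h2, -⟩ := c.exists_ln h1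
  obtain ⟨v, hv, rfl | rfl⟩ := d.cases (h ▸ c.ln_vx hL h2)
  · exact Or.inl (key d h hv hL)
  · exact Or.inr (key d.symm (h.trans d.range) hv hL)

namespace Co

variable (h : Co N ty a φ ψ)
include h

omit [Finite G] [Finite Ω] [Finite F] [CharP F 2] in
theorem fix (A : S3 F) : φ A • a = a := h.c.fix a (h.range ▸ ⟨A, rfl⟩)

omit [Finite G] [Finite Ω] in
theorem on (hv : v ≠ 0) : On a (PV φ v) := h.c.vx_le (h.range ▸ h.d.vx hv)

omit [Finite G] [Finite Ω] in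
theorem on' (hv : v ≠ 0) : On a (PV ψ v) := h.c.vx_le (h.range ▸ h.d.vx' hv)

theorem pn (hf : f ≠ 0) : Pn (Nat.card F) N (PV ψ f) := by
  obtain ⟨A, rfl⟩ := exists_smul_eb hf
  rw [← smul_PV]
  exact h.c.pn_smul (h.c.pn_of_adj (h.ln _ (eb_ne 1)) (h.on (eb_ne 1)) (h.range ▸ h.d.vx' (eb_ne 0))
    ((h.d.adj (eb_ne 1) (eb_ne 0)).2 (by simp))) _

theorem ln_form {L : Subgroup G} (hL : Ln (Nat.card F) N L) (h1 : On a L) : ∃ v, v ≠ 0 ∧ L = PV φ v := by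
  obtain ⟨v, hv, e | e⟩ := h.d.cases (h.range ▸ h.c.ln_vx hL h1)
  · exact ⟨v, hv, e⟩
  · exact absurd e (hL.ne (h.pn hv))

theorem pn_form {R : Subgroup G} (hR : Pn (Nat.card F) N R) (h1 : On a R) : ∃ f, f ≠ 0 ∧ R = PV ψ f := by
  obtain ⟨v, hv, e | e⟩ := h.d.cases (h.range ▸ h.c.pn_vx hR h1)
  · exact absurd e.symm ((h.ln v hv).ne hR)
  · exact ⟨v, hv, e⟩

theorem exists_v (hx : a ≠ x) : ∃ v, v ≠ 0 ∧ On x (PV φ v) := by
  obtain ⟨L, hL, h1, h2⟩ := h.c.exists_ln hx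
  obtain ⟨v, hv, rfl⟩ := h.ln_form hL h1
  exact ⟨v, hv, h2⟩

theorem on_pn (hx : a ≠ x) (hv : v ≠ 0) (hf : f ≠ 0) (h1 : On x (PV φ v)) : On x (PV ψ f) ↔ f ⬝ᵥ v = 0 := by
  rw [← h.d.adj hv hf]
  exact ⟨h.c.adj_of_two (h.ln v hv) (h.pn hf) hx (h.on hv) h1 (h.on' hf), fun h2 => h.c.sub (h.pn hf) h2 h1⟩

omit [Finite G] [Finite Ω] in
theorem prop (hv : v ≠ 0) (e : PV φ v = PV φ w) : ∃ c : F, c ≠ 0 ∧ v = c • w := by
  obtain ⟨s, h1, h2⟩ := (h.c.pl a).exists_ne_one (h.range ▸ h.d.vx hv)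
  exact h.d.par h2 h1 (e ▸ h1)

theorem eigen (hx : a ≠ x) (hv : v ≠ 0) (h1 : On x (PV φ v)) {A : S3 F} (h2 : φ A • x = x) :
    ∃ r : Fˣ, A • v = (r : F) • v := by
  obtain ⟨c, h3, e⟩ := h.prop (v := A • v) (w := v) ((smul_ne_zero_iff_ne A).2 hv)
    (by rw [← smul_PV, h.c.ln_fix (h.ln v hv) hx (h.on hv) h1 (h.fix A) h2])
  exact ⟨Units.mk0 c h3, e⟩

theorem fix_of_stab (hv : v ≠ 0) (h1 : On x (PV φ v)) {A : S3 F} (h2 : A • v = v) : φ A • x = x := by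
  obtain ⟨B, rfl⟩ := exists_smul_eb hv
  obtain ⟨x, rfl⟩ : ∃ y, φ B • y = x := MulAction.surjective _ x
  rw [← smul_PV] at h1
  have h3 : φ (B⁻¹ * A * B) • x = x := stab_le (M := (stabilizer G x).comap φ) (fun w f h3 h4 => by
    by_cases hf : f = 0
    · rw [hf, tau_zero]; exact one_mem _
    exact h.c.sub (h.pn hf) ((h.d.adj (eb_ne 0) hf).2 (by simp [h4])) (le_stab_smul.1 h1) (h.d.mem.2 ⟨w, h3, rfl⟩))
    (by rw [mul_smul, mul_smul, h2, inv_smul_smul])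
  rwa [map_mul, map_mul, map_inv, mul_smul, mul_smul, inv_smul_eq_iff] at h3

theorem fix_of_ev (hv : v ≠ 0) (h1 : On x (PV φ v)) {A : S3 F} {r : Fˣ} (h2 : r ∈ Ev φ x v)
    (h3 : A • v = (r : F) • v) : φ A • x = x := by
  obtain ⟨B, h4, h5⟩ := h2
  have := h.fix_of_stab hv h1 (A := B⁻¹ * A) (by rw [mul_smul, h3, inv_smul_eq_iff, h5])
  rwa [map_mul, map_inv, mul_smul, inv_smul_eq_iff, h4] at this

theorem card_ev (hx : a ≠ x) (hv : v ≠ 0) (h1 : On x (PV φ v)) :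
    Nat.card (Ev φ x v) * (stabilizer G x).relIndex (N a) = (orbit (S3 F) (eb 0 : Fin 3 → F)).ncard := by
  have h2 := relIndex_mul_index (H := stabilizer (S3 F) v) (K := (stabilizer G x).comap φ)
    fun A hA => h.fix_of_stab hv h1 hA
  rw [index_comap, ← h.range, index_stabilizer] at h2
  obtain ⟨B, rfl⟩ := exists_smul_eb hv
  rw [← orbit_smul B, ← h2]
  congr 1
  refine Eq.trans ?_ (index_stabilizer ↥((stabilizer G x).comap φ) (B • (eb 0 : Fin 3 → F))).symm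
  rw [← Nat.card_coe_set_eq]
  refine Nat.card_congr (Equiv.ofBijective (fun r => ⟨(r.1 : F) • B • eb 0, by
    obtain ⟨A, h3, h4⟩ := r.2
    exact ⟨⟨A, h3⟩, h4⟩⟩) ⟨fun r s e => Subtype.ext (Units.ext (smul_left_injective F hv (congrArg Subtype.val e))), ?_⟩)
  rintro ⟨_, ⟨A, hA⟩, rfl⟩
  obtain ⟨r, e⟩ := h.eigen hx hv h1 hA
  exact ⟨⟨r, A, hA, e⟩, Subtype.ext e.symm⟩

theorem ev_eq (hx : a ≠ x) (hv : v ≠ 0) (h1 : On x (PV φ v)) (hy : a ≠ y) (hw : w ≠ 0) (h2 : On y (PV φ w)) :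
    Ev φ x v = Ev φ y w := by
  have h3 := (h.card_ev hx hv h1).trans (h.card_ev hy hw h2).symm
  obtain ⟨g, h4, rfl⟩ := h.c.two a x a y hx hy
  have h5 : ∀ K : Subgroup G, Nat.card ↥(K ⊓ N a) * K.relIndex (N a) = Nat.card (N a) := fun K => by
    rw [← inf_relIndex_right, ← relIndex_bot_left, ← relIndex_bot_left]
    exact relIndex_mul_relIndex ⊥ _ _ bot_le inf_le_right
  have h6 := (h5 (stabilizer G x)).trans (h5 (stabilizer G (g • x))).symm
  rw [← card_cj g, cj_inf, h.c.norm h4, ← stab_smul] at h6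
  rw [Nat.eq_of_mul_eq_mul_left Nat.card_pos h6] at h3
  exact eq_of_card_cyclic (Nat.eq_of_mul_eq_mul_right (Nat.pos_of_ne_zero index_ne_zero_of_finite) h3)

theorem cube (hx : a ≠ x) (hv : v ≠ 0) (h1 : On x (PV φ v)) {r : Fˣ} : r ∈ Ev φ x v ↔ r ^ 3 = 1 := by
  refine ⟨fun h2 => by_contra fun h3 => ?_, fun h2 => ⟨dg r r, ?_, ?_⟩⟩
  · obtain ⟨z, h4, h5⟩ := h.c.ln_other (h.ln _ (eb_ne 2)) a
    refine h.c.no_homology (h.pn (eb_ne 2)) (h.ln _ (eb_ne 2)) (h.on' (eb_ne 2)) (h.on (eb_ne 2)) h5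
      (by simp [h.on_pn h4 (eb_ne 2) (eb_ne 2) h5]) (g := φ (dg r r)) (fun y h6 => ?_) ?_ fun y h6 => ?_
    · by_cases e : a = y
      · exact e ▸ h.fix _
      obtain ⟨w, hw, h7⟩ := h.exists_v e
      have h8 : w 2 = 0 := by simpa using (h.on_pn e hw (eb_ne 2) h7).1 h6
      exact h.fix_of_ev hw h7 (h.ev_eq hx hv h1 e hw h7 ▸ h2) (by ext i; fin_cases i <;> simp [dg_smul, h8])
    · exact h.fix_of_ev (eb_ne 2) h5 (h.ev_eq hx hv h1 h4 (eb_ne 2) h5 ▸ inv_mem (mul_mem h2 h2))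
        (by ext i; fin_cases i <;> simp [dg_smul])
    · by_cases e : a = y
      · exact Or.inl (e ▸ h.on' (eb_ne 2))
      obtain ⟨w, hw, h7⟩ := h.exists_v e
      by_cases h8 : w 2 = 0
      · exact Or.inl ((h.on_pn e hw (eb_ne 2) h7).2 (by simp [h8]))
      obtain ⟨s, h9⟩ := h.eigen e hw h7 h6
      rw [dg_smul] at h9
      have h10 : (r : F) ≠ s := fun e => h3 (by
        have h10 := mul_right_cancel₀ h8 (show _ * w 2 = s * w 2 from congrFun h9 2)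
        rw [← e, Units.val_inj, inv_eq_iff_mul_eq_one] at h10
        rw [← h10, pow_three'])
      have h11 : w 0 = 0 := by_contra fun h11 => h10 (mul_right_cancel₀ h11 (congrFun h9 0))
      have h12 : w 1 = 0 := by_contra fun h11 => h10 (mul_right_cancel₀ h11 (congrFun h9 1))
      refine Or.inr ?_
      rwa [← PV_smul φ _ h8, show w 2 • (eb 2 : Fin 3 → F) = w by ext i; fin_cases i <;> simp [h11, h12]]
  all_goals
    have h3 : ∀ u : Fin 3 → F, dg r r • u = (r : F) • u := fun u => by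
      rw [dg_smul, inv_eq_of_mul_eq_one_right ((pow_three' r).symm.trans h2)]
      ext i; fin_cases i <;> rfl
  · rw [(h.d.k1 _).2 (mem_center_iff.2 fun B => Geom.sl_ext fun u => by
      rw [mul_smul, mul_smul, h3, h3, smul_comm]), one_smul]
  · exact h3 v

theorem orbits {m : ℕ} (hm : ∀ L, Ln (Nat.card F) N L → {y : Ω | On y L}.ncard = m + 1) :
    ∃ s, (Nat.card F - 1).gcd 3 * s = Nat.card F - 1 ∧ s ∣ m ∧
      (s = m → ∀ x y : Ω, x ≠ a → y ≠ a → ∃ g ∈ N a, g • x = y) := by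
  letI : MulAction Fˣ Ω := MulAction.compHom Ω (φ.comp dh)
  have e : ∀ (r : Fˣ) (y : Ω), r • y = φ (dh r) • y := fun _ _ => rfl
  have h1 : ∀ y : Ω, y ≠ a → On y (PV φ (eb 0)) → (orbit Fˣ y).ncard = (powMonoidHom 3 : Fˣ →* Fˣ).ker.index :=
    fun y h1 h2 => by
      rw [← index_stabilizer]
      congr 1
      ext r
      exact ⟨fun h3 => (h.cube h1.symm (eb_ne 0) h2).1 ⟨_, h3, dh_smul r⟩,
        fun h3 => h.fix_of_ev (eb_ne 0) h2 ((h.cube h1.symm (eb_ne 0) h2).2 h3) (dh_smul r)⟩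
  have h2 : ∀ y : Ω, y ≠ a ∧ On y (PV φ (eb 0)) → orbit Fˣ y ⊆ {y : Ω | y ≠ a ∧ On y (PV φ (eb 0))} := by
    rintro y ⟨h2, h3⟩ _ ⟨r, rfl⟩
    refine ⟨fun h4 => h2 (smul_left_cancel (φ (dh r)) (h4.trans (h.fix _).symm)), ?_⟩
    have := (le_stab_smul (g := φ (dh r))).2 h3
    rwa [smul_PV, dh_smul, PV_smul φ _ r.ne_zero] at this
  have h3 := Ctx.card_ln' hm (h.ln _ (eb_ne 0)) (h.on (eb_ne 0))
  refine ⟨(powMonoidHom 3 : Fˣ →* Fˣ).ker.index, ?_, ?_, fun h4 x y hx hy => ?_⟩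
  · rw [← Nat.card_units, ← IsCyclic.card_powMonoidHom_ker, card_mul_index]
  · rw [← h3, ncard_rel (fun (y : Ω) (O : Set Ω) => y ∈ O) {y : Ω | y ≠ a ∧ On y (PV φ (eb 0))}
      {O | ∃ y : Ω, (y ≠ a ∧ On y (PV φ (eb 0))) ∧ O = orbit Fˣ y} (powMonoidHom 3 : Fˣ →* Fˣ).ker.index
      (fun y hy => ⟨_, ⟨y, hy, rfl⟩, mem_orbit_self y⟩)
      (by rintro y - _ ⟨u, -, rfl⟩ _ ⟨v, -, rfl⟩ h4 h5; rw [← orbit_eq_iff.2 h4, orbit_eq_iff.2 h5])
      (by
        rintro _ ⟨y, hy, rfl⟩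
        rw [← h1 y hy.1 hy.2]
        congr 1
        ext z
        exact and_iff_right_of_imp fun hz => h2 y hy hz)]
    exact Dvd.intro_left _ rfl
  · have key : ∀ x : Ω, x ≠ a → ∃ B : S3 F, φ B • x ≠ a ∧ On (φ B • x) (PV φ (eb 0)) := fun x hx => by
      obtain ⟨v, hv, h5⟩ := h.exists_v hx.symm
      obtain ⟨B, rfl⟩ := exists_smul_eb hv
      refine ⟨B⁻¹, fun e => hx (smul_left_cancel _ (e.trans (h.fix _).symm)), ?_⟩
      simpa [smul_PV, ← map_inv] using (le_stab_smul (g := φ B⁻¹)).2 h5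
    obtain ⟨B, h5⟩ := key x hx
    obtain ⟨C, h6⟩ := key y hy
    obtain ⟨r, h7⟩ := (Set.eq_of_subset_of_ncard_le (h2 _ h5) (by rw [h3, h1 _ h5.1 h5.2, h4])).ge h6
    exact ⟨φ (C⁻¹ * dh r * B), h.range ▸ ⟨_, rfl⟩, by
      rw [map_mul, map_mul, map_inv, mul_smul, mul_smul, inv_smul_eq_iff]; exact h7⟩

theorem not_affine (hq : ∀ L, Ln (Nat.card F) N L → {y : Ω | On y L}.ncard = Nat.card F) {r : Fˣ} (h1 : r ^ 3 = 1) :
    r = 1 := by
  have key : ∀ (i : Fin 3) (s : Fˣ), s ^ 3 = 1 → dg 1 r • (eb i : Fin 3 → F) = (s : F) • eb i →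
      ∀ y : Ω, On y (PV φ (eb i)) → φ (dg 1 r) • y = y := fun i s h2 h3 y h4 => by
    by_cases e : a = y
    · exact e ▸ h.fix _
    exact h.fix_of_ev (eb_ne i) h4 ((h.cube e (eb_ne i) h4).2 h2) h3
  obtain ⟨L, hL, h2, h3, h4, h5, h6⟩ := h.c.third_line hq (h.ln _ (eb_ne 0)) (h.ln _ (eb_ne 1)) (h.on (eb_ne 0))
    (h.on (eb_ne 1)) (fun e => by obtain ⟨c, -, e⟩ := h.prop (eb_ne 0) e; simpa using congrFun e 0) (h.pn (eb_ne 2))
    ((h.d.adj (eb_ne 0) (eb_ne 2)).2 (by simp)) ((h.d.adj (eb_ne 1) (eb_ne 2)).2 (by simp))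
    (key 0 1 (by simp) (by ext i; fin_cases i <;> simp [dg_smul]))
    (key 1 r h1 (by ext i; fin_cases i <;> simp [dg_smul]))
  obtain ⟨w, hw, rfl⟩ := h.ln_form hL h2
  have h7 : w 2 = 0 := by simpa using (h.d.adj hw (eb_ne 2)).1 h3
  rw [smul_PV] at h6
  obtain ⟨c, -, e⟩ := h.prop ((smul_ne_zero_iff_ne _).2 hw) h6
  rw [dg_smul] at e
  have h8 : w 0 ≠ 0 := fun h8 => h5 (by
    have h9 : w = w 1 • eb 1 := by ext i; fin_cases i <;> simp [h7, h8]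
    rw [h9, PV_smul φ _ fun e => hw (by rw [h9, e, zero_smul])])
  have h9 : w 1 ≠ 0 := fun h8 => h4 (by
    have h9 : w = w 0 • eb 0 := by ext i; fin_cases i <;> simp [h7, h8]
    rw [h9, PV_smul φ _ fun e => hw (by rw [h9, e, zero_smul])])
  exact Units.ext ((mul_right_cancel₀ h9 (show _ * w 1 = c * w 1 from congrFun e 1)).trans
    (mul_right_cancel₀ h8 (show _ * w 0 = c * w 0 from congrFun e 0)).symm)

theorem core {n : ℕ} (hn : 1 ≤ n) (hF : Nat.card F = 2 ^ n) : (∀ x y : Ω, x ≠ a → y ≠ a → ∃ g ∈ N a, g • x = y) ∧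
    ((Odd n ∧ ∃ E : Subgroup G, E.Normal ∧ Nat.card E = (2 ^ n) ^ 3 ∧ (∀ x y : Ω, ∃ r ∈ E, r • x = y) ∧
      ∀ x : Ω, ∀ r ∈ E, r • x = x → r = 1) ∨
      (n = 2 ∧ Nat.card Ω = 22 ∧ ∀ L, Ln (Nat.card F) N L → {y : Ω | On y L}.ncard = 2)) := by
  obtain ⟨m, hm1, hm⟩ := h.c.exists_m a
  obtain ⟨s, h1, ⟨j, h2⟩, h3⟩ := h.orbits hm
  have h4 := h.c.dvd_q hm a
  have h5 := h.c.card_all hm a
  have h6 := h.c.even
  have h7 := Nat.le_of_dvd Nat.card_pos h4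
  have h8 : Odd m := by
    rw [h5] at h6
    exact (Nat.odd_mul.1 (Nat.odd_iff.2 (by omega : ((Nat.card F ^ 2 + Nat.card F + 1) * m) % 2 = 1))).2
  have h9 : 1 < Nat.card F := Finite.one_lt_card
  have h10 : 0 < s := Nat.pos_of_ne_zero fun e => by rw [e] at h1; omega
  rcases (Nat.dvd_prime Nat.prime_three).1 (Nat.gcd_dvd_right (Nat.card F - 1) 3) with e | e
  · rw [e, one_mul] at h1
    have h11 : s = m := le_antisymm (Nat.le_of_dvd hm1 ⟨j, h2⟩) (by omega)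
    have h12 : m + 1 = Nat.card F := by omega
    obtain ⟨E, h13, h14, h15⟩ := h.c.exists_regular (fun L hL => (hm L hL).trans h12) a
    refine ⟨h3 h11, Or.inl ⟨?_, E, h13, by rw [h14, h5, ← hF, ← h12]; ring, h15⟩⟩
    by_contra h16
    obtain ⟨k, rfl⟩ := Nat.not_odd_iff_even.1 h16
    have h17 := Nat.sub_dvd_pow_sub_pow 4 1 k
    rw [one_pow, show 4 ^ k = 2 ^ (k + k) by rw [← two_mul, pow_mul]; rfl, ← hF] at h17
    rw [Nat.gcd_eq_right h17] at e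
    omega
  · rw [e] at h1
    have h11 : j ≤ 3 := Nat.le_of_mul_le_mul_left (by rw [← h2]; omega) h10
    have h12 : Odd j := (Nat.odd_mul.1 (h2 ▸ h8)).2
    obtain rfl | rfl : j = 1 ∨ j = 3 := by rcases h12 with ⟨k, rfl⟩; omega
    · rw [mul_one] at h2
      have h13 : m + 1 ∣ 2 := by
        rw [show Nat.card F = 3 * m + 1 by omega] at h4
        exact (Nat.dvd_add_right h4).1 ⟨3, by ring⟩
      have h14 : m = 1 := by have := Nat.le_of_dvd two_pos h13; omega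
      have h15 : Nat.card F = 4 := by omega
      exact ⟨h3 h2.symm, Or.inr ⟨Nat.pow_right_injective le_rfl (hF.symm.trans h15), by rw [h5, h15, h14]; rfl,
        fun L hL => by rw [hm L hL, h14]⟩⟩
    · have h13 := IsCyclic.card_powMonoidHom_ker (G := Fˣ) 3
      rw [Nat.card_units, e, (eq_bot_iff_forall (powMonoidHom 3 : Fˣ →* Fˣ).ker).2 fun r hr =>
        h.not_affine (fun L hL => (hm L hL).trans (by omega)) hr, card_bot] at h13
      omega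

end Co

end Cfsg.Agent.Hir
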