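import Cfsg.Agent.Hir.Hom
import Cfsg.Agent.Hir.F4

/-! The case of degree 22. -/

set_option autoImplicit false

namespace Cfsg.Agent.Hir

open Subgroup MulAction Matrix Cfsg.Agent.M11 Cfsg.Agent.Mat

theorem card_sl3 {F : Type*} [Field F] [Fintype F] (h : Fintype.card F = 4) : Nat.card (S3 F) = 60480 := by
  classical
  have h1 : (GeneralLinearGroup.det : GL (Fin 3) F →* Fˣ).range = ⊤ := by
    rw [MonoidHom.range_eq_top]
    intro l
    refine ⟨GeneralLinearGroup.mkOfDetNeZero (diagonal ![l, 1, 1]) (by simp [Fin.prod_univ_three]),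
      Units.ext (by simp [Fin.prod_univ_three])⟩
  have h2 : (GeneralLinearGroup.det : GL (Fin 3) F →* Fˣ).ker =
      (SpecialLinearGroup.toGL : SpecialLinearGroup (Fin 3) F →* GL (Fin 3) F).range := by
    ext g
    constructor
    · intro hg
      exact ⟨⟨g.1, congrArg Units.val hg⟩, Units.ext rfl⟩
    · rintro ⟨g, rfl⟩
      exact Units.ext g.2
  have h3 := (GeneralLinearGroup.det : GL (Fin 3) F →* Fˣ).ker.card_mul_index
  rw [Subgroup.index_ker, h1, Subgroup.card_top, Nat.card_units, Nat.card_eq_fintype_card (α := F), h2,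
    ← Nat.card_congr (MonoidHom.ofInjective SpecialLinearGroup.toGL_injective).toEquiv, mul_comm,
    Matrix.card_GL_field, Fin.prod_univ_three, h] at h3
  simp only [Fin.val_zero, Fin.val_one, Fin.val_two] at h3
  change _ * Nat.card (S3 F) = _ at h3
  omega

theorem card_center_sl3 {F : Type*} [Field F] [Finite F] : Nat.card (center (S3 F)) ≤ 3 := by
  rw [Nat.card_congr (SpecialLinearGroup.center_equiv_rootsOfUnity' (0 : Fin 3)).toEquiv]
  exact (IsCyclic.card_powMonoidHom_ker (G := Fˣ) 3).le.trans (Nat.gcd_le_right _ three_pos)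

variable {G Ω : Type*} [Group G] [MulAction G Ω] [Finite G] [Finite Ω]
variable {N : Ω → Subgroup G} {ty : Ω → Subgroup G → Bool} {a : Ω}

theorem iso_of_rep (ρ : G →* Equiv.Perm GolayPt) (h1 : Function.Injective ρ) (h2 : ∀ g, ρ g none = none)
    (h3 : ∀ g, ρ g (some 0) = some 0) (h4 : ∀ g, ρ g ∈ M24 ∨ ρ g * Equiv.swap none (some 0) ∈ M24)
    (h5 : (M24.comap ρ).Normal → 443520 ≤ Nat.card (M24.comap ρ)) :
    Spor.IsoM22 G ∨ ∃ H : Subgroup G, H.index = 2 ∧ Spor.IsoM22 H := by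
  have key : (M24.comap ρ).Normal → Spor.IsoM22 (M24.comap ρ) := fun hn =>
    ⟨MulEquiv.ofBijective ((ρ.comp (M24.comap ρ).subtype).codRestrict Spor.M22 fun g => ⟨⟨g.2, h2 g⟩, h3 g⟩)
      (Function.Injective.bijective_of_nat_card_le
        (fun x y e => Subtype.ext (h1 (congrArg Subtype.val e))) (card_M22_le.trans (h5 hn)))⟩
  by_cases hc : M24.comap ρ = ⊤
  · obtain ⟨e⟩ := key (hc ▸ inferInstance)
    exact Or.inl ⟨(topEquiv.symm.trans (MulEquiv.subgroupCongr hc.symm)).trans e⟩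
  obtain ⟨g, hg⟩ : ∃ g, g ∉ M24.comap ρ := by
    by_contra! h
    exact hc ((eq_top_iff' _).2 h)
  have h6 : (M24.comap ρ).index = 2 := index_eq_two_iff.2 ⟨g, fun b => by
    by_cases hb : b ∈ M24.comap ρ
    · exact Or.inr ⟨hb, fun h => hg ((mul_mem_cancel_left hb).1 h)⟩
    · refine Or.inl ⟨?_, hb⟩
      have h7 := M24.mul_mem ((h4 b).resolve_left hb) ((h4 g).resolve_left hg)
      rwa [mul_assoc, ← mul_assoc _ (ρ g), Equiv.swap_mul_eq_mul_swap, Equiv.Perm.inv_eq_iff_eq.2 (h2 g).symm,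
        Equiv.Perm.inv_eq_iff_eq.2 (h3 g).symm, mul_assoc, Equiv.swap_mul_self, mul_one, ← map_mul] at h7⟩
  exact Or.inr ⟨_, h6, key (normal_of_index_eq_two h6)⟩

namespace Co

variable {φ ψ : S3 F4 →* G} (h : Co N ty a φ ψ) (h2 : ∀ L, Ln (Nat.card F4) N L → {y : Ω | On y L}.ncard = 2)
include h h2

theorem three {x y z : Ω} (h3 : x ≠ y) (h4 : z ≠ x) (h5 : z ≠ y) :
    ∃! R, Pn (Nat.card F4) N R ∧ On x R ∧ On y R ∧ On z R := by
  obtain ⟨L, hL, h6, h7⟩ := h.c.exists_ln h3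
  have h8 : ¬ On z L := fun h8 => by
    have := Set.ncard_le_ncard (s := {z, x, y}) (t := {y : Ω | On y L}) (by rintro _ (rfl | rfl | rfl) <;> assumption)
    rw [h2 L hL, Set.ncard_insert_of_notMem (by simp [h4, h5]), Set.ncard_pair h3] at this
    omega
  obtain ⟨R, hR, h9, h10⟩ := h.c.exists_plane hL h8
  exact ⟨R, ⟨hR, h.c.sub hR h9 h6, h.c.sub hR h9 h7, h10⟩, fun S hS => h.c.plane_uniq hL h8 hS.1 hR
    (h.c.adj_of_two hL hS.1 h3 h6 h7 hS.2.1 hS.2.2.1) h9 hS.2.2.2 h10⟩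

theorem exists_P : ∃ P : (Fin 3 → F4) → Ω, P 0 = a ∧ (∀ A v, P (A • v) = φ A • P v) ∧
    (∀ v w, P v = P w ↔ ∃ k : F4, k ≠ 0 ∧ v = k • w) ∧ Function.Surjective P ∧
    ∀ f v, f ≠ 0 → (On (P v) (PV ψ f) ↔ f ⬝ᵥ v = 0) := by
  have h3 : ∀ v : Fin 3 → F4, ∃ y : Ω, (v = 0 → y = a) ∧ (v ≠ 0 → ∀ z, z ≠ a ∧ On z (PV φ v) ↔ z = y) := fun v => by
    by_cases hv : v = 0
    · exact ⟨a, fun _ => rfl, fun e => absurd hv e⟩
    obtain ⟨y, hy⟩ := Set.ncard_eq_one.1 (Ctx.card_ln' (m := 1) h2 (h.ln v hv) (h.on hv))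
    exact ⟨y, fun e => absurd e hv, fun _ => Set.ext_iff.1 hy⟩
  choose P h3 h4 using h3
  have h5 : ∀ v, v ≠ 0 → P v ≠ a ∧ On (P v) (PV φ v) := fun v hv => (h4 v hv _).2 rfl
  refine ⟨P, h3 0 rfl, fun A v => ?_, fun v w => ⟨fun e => ?_, ?_⟩, fun y => ?_, fun f v hf => ?_⟩
  · by_cases hv : v = 0
    · rw [hv, smul_zero, h3 0 rfl, h.fix]
    refine ((h4 _ ((smul_ne_zero_iff_ne A).2 hv) _).1
      ⟨fun e => (h5 v hv).1 (smul_left_cancel _ (e.trans (h.fix A).symm)), ?_⟩).symm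
    rw [← smul_PV]
    exact le_stab_smul.2 (h5 v hv).2
  · by_cases hv : v = 0 <;> by_cases hw : w = 0
    · exact ⟨1, one_ne_zero, by simp [hv, hw]⟩
    · exact absurd (e.symm.trans (h3 v hv)) (h5 w hw).1
    · exact absurd (e.trans (h3 w hw)) (h5 v hv).1
    · exact h.prop hv (h.c.ln_uniq (h.ln v hv) (h.ln w hw) (h5 v hv).1 (h5 v hv).2 (h.on hv) (e ▸ (h5 w hw).2)
        (h.on hw))
  · rintro ⟨k, hk, rfl⟩
    by_cases hw : w = 0
    · rw [hw, smul_zero]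
    exact (h4 w hw _).1 (PV_smul φ w hk ▸ h5 _ (smul_ne_zero hk hw))
  · by_cases e : a = y
    · exact ⟨0, (h3 0 rfl).trans e⟩
    obtain ⟨v, hv, h6⟩ := h.exists_v e
    exact ⟨v, ((h4 v hv y).1 ⟨Ne.symm e, h6⟩).symm⟩
  · by_cases hv : v = 0
    · simp [hv, h3 0 rfl, h.on' hf]
    exact h.on_pn (h5 v hv).1.symm hv hf (h5 v hv).2

variable {P : (Fin 3 → F4) → Ω} (p0 : P 0 = a) (p1 : ∀ A v, P (A • v) = φ A • P v)
  (p2 : ∀ v w, P v = P w ↔ ∃ k : F4, k ≠ 0 ∧ v = k • w) (p3 : Function.Surjective P)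
  (p4 : ∀ f v, f ≠ 0 → (On (P v) (PV ψ f) ↔ f ⬝ᵥ v = 0))

include p0 p2 p4 in
theorem arc {R : Subgroup G} (hR : Pn (Nat.card F4) N R) (h3 : ¬ On a R) {u v w : Fin 3 → F4} (h4 : On (P u) R)
    (h5 : On (P v) R) (h6 : On (P w) R) (h7 : P v ≠ P w) (h8 : P u ≠ P v) (h9 : P u ≠ P w) : u ⬝ᵥ v ⨯₃ w ≠ 0 := by
  intro e
  have h10 : v ⨯₃ w ≠ 0 := fun e => by
    obtain ⟨k, rfl⟩ := prop_of_cross (fun e : v = 0 => h3 (p0 ▸ e ▸ h5)) e
    exact h7 ((p2 _ _).2 ⟨k, fun e => h3 (by simpa [e, p0] using h6), rfl⟩).symm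
  exact h3 ((h.three h2 h7 h8 h9).unique ⟨h.pn h10, (p4 _ _ h10).2 (dotProduct_comm _ v ▸ dot_self_cross v w),
    (p4 _ _ h10).2 (dotProduct_comm _ w ▸ dot_cross_self v w), (p4 _ _ h10).2 (dotProduct_comm _ u ▸ e)⟩
    ⟨hR, h5, h6, h4⟩ ▸ h.on' h10)

include p0 p2 p3 p4 in
theorem exists_hyp : ∃ R, Pn (Nat.card F4) N R ∧ ∃ c : F4, c ≠ 0 ∧ ∀ v, On (P v) R ↔ Hyp c v := by
  have n : ∀ i j : Fin 3, i ≠ j → P (eb i) ≠ P (eb j) := fun i j hij e => by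
    obtain ⟨k, -, e⟩ := (p2 _ _).1 e
    simpa [hij] using congrFun e i
  obtain ⟨R, ⟨hR, h3, h4, h5⟩, -⟩ := h.three h2 (n 0 1 (by decide)) (n 2 0 (by decide)) (n 2 1 (by decide))
  have h6 : ¬ On a R := fun h6 => by
    obtain ⟨f, hf, rfl⟩ := h.pn_form hR h6
    rw [p4 _ _ hf] at h3 h4 h5
    exact hf (by ext i; fin_cases i <;> simp_all)
  have h7 := h.c.card_pn (m := 1) h2 hR
  rw [Nat.card_eq_fintype_card, F4.card] at h7
  have h8 : ∀ v, On (P v) R → P v ≠ P (eb 0) → P v ≠ P (eb 1) → P v ≠ P (eb 2) → v 0 ≠ 0 ∧ v 1 ≠ 0 ∧ v 2 ≠ 0 :=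
    fun v h8 h9 h10 h11 => ⟨by simpa [cross_apply, dotProduct, Fin.sum_univ_three] using h.arc h2 p0 p2 p4 hR h6 h8 h4 h5 (n 1 2 (by decide)) h10 h11,
      by simpa [cross_apply, dotProduct, Fin.sum_univ_three] using h.arc h2 p0 p2 p4 hR h6 h8 h5 h3 (n 2 0 (by decide)) h11 h9,
      by simpa [cross_apply, dotProduct, Fin.sum_univ_three] using h.arc h2 p0 p2 p4 hR h6 h8 h3 h4 (n 0 1 (by decide)) h9 h10⟩
  obtain ⟨y, h9, h10⟩ := Set.exists_mem_notMem_of_ncard_lt_ncard (s := {P (eb 0), P (eb 1), P (eb 2)})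
    (t := {y : Ω | On y R}) (by
      rw [h7]
      exact ((Set.ncard_insert_le _ _).trans (Nat.succ_le_succ (Set.ncard_insert_le _ _))).trans_lt (by simp))
  obtain ⟨u, rfl⟩ := p3 y
  simp only [Set.mem_insert_iff, Set.mem_singleton_iff, not_or] at h10
  obtain ⟨h11, h12, h13⟩ := h8 u h9 h10.1 h10.2.1 h10.2.2
  have hc : u 0 * u 1 * u 2 ≠ 0 := mul_ne_zero (mul_ne_zero h11 h12) h13
  have h14 : ∀ v, On (P v) R → Hyp (u 0 * u 1 * u 2) v := fun v h14 => by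
    by_cases e0 : P v = P (eb 0)
    · obtain ⟨k, hk, rfl⟩ := (p2 _ _).1 e0
      simp [Hyp, hk]
    by_cases e1 : P v = P (eb 1)
    · obtain ⟨k, hk, rfl⟩ := (p2 _ _).1 e1
      simp [Hyp, hk]
    by_cases e2 : P v = P (eb 2)
    · obtain ⟨k, hk, rfl⟩ := (p2 _ _).1 e2
      simp [Hyp, hk]
    by_cases e3 : P u = P v
    · obtain ⟨k, hk, rfl⟩ := (p2 _ _).1 e3.symm
      exact Or.inl (hyp_smul u k hk)
    obtain ⟨h15, h16, h17⟩ := h8 v h14 e0 e1 e2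
    rcases hyp_of u v h11 h12 h13 h15 h16 h17 with e | e | e | e | e
    · exact absurd ((p2 _ _).2 e).symm e3
    · exact absurd (by simp [cross_apply, e]) (h.arc h2 p0 p2 p4 hR h6 h3 h9 h14 e3 (Ne.symm h10.1) (Ne.symm e0))
    · exact absurd (by simp [cross_apply, e]) (h.arc h2 p0 p2 p4 hR h6 h4 h9 h14 e3 (Ne.symm h10.2.1) (Ne.symm e1))
    · exact absurd (by simp [cross_apply, e]) (h.arc h2 p0 p2 p4 hR h6 h5 h9 h14 e3 (Ne.symm h10.2.2) (Ne.symm e2))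
    · exact Or.inl e
  have h15 : ∀ v, Hyp (u 0 * u 1 * u 2) v → P v ∈ P '' {w | w ∈ hypL (u 0 * u 1 * u 2)} := fun v h15 => by
    obtain ⟨w, h16, h17⟩ := (hyp_iff _ hc v).1 h15
    exact ⟨w, h16, ((p2 _ _).2 h17).symm⟩
  have h16 := Set.eq_of_subset_of_ncard_le (s := {y : Ω | On y R}) (t := P '' {w | w ∈ hypL (u 0 * u 1 * u 2)})
    (fun y hy => by
      obtain ⟨v, rfl⟩ := p3 y
      exact h15 v (h14 v hy))
    (by
      rw [h7, ← List.coe_toFinset]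
      exact (Set.ncard_image_le).trans ((Set.ncard_coe_finset _).trans_le (List.toFinset_card_le _)))
  exact ⟨R, hR, _, hc, fun v => ⟨h14 v, fun h17 => h16.ge (h15 v h17)⟩⟩

include p0 p1 p2 p3 p4 in
theorem conj_plane {R S : Subgroup G} (hR : Pn (Nat.card F4) N R) (h3 : On (P (eb 0)) R) (h4 : On (P (eb 1)) R)
    (h5 : On (P (eb 2)) R) (hS : Pn (Nat.card F4) N S) (h6 : ¬ On a S) : ∃ A, φ A • R = S := by
  have h7 := h.c.card_pn (m := 1) h2 hS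
  rw [Nat.card_eq_fintype_card, F4.card] at h7
  obtain ⟨x, y, z, h8, h9, h10, h11, h12, h13⟩ := (Set.two_lt_ncard_iff (s := {y : Ω | On y S})).1 (by omega)
  obtain ⟨u, rfl⟩ := p3 x
  obtain ⟨v, rfl⟩ := p3 y
  obtain ⟨w, rfl⟩ := p3 z
  have h14 := h.arc h2 p0 p2 p4 hS h6 h8 h9 h10 h13 h11 h12
  let A : S3 F4 := ⟨(of ![(u ⬝ᵥ v ⨯₃ w)⁻¹ • u, v, w])ᵀ, by
    rw [det_transpose]
    exact (triple_product_eq_det _ v w).symm.trans (by rw [smul_dotProduct, smul_eq_mul, inv_mul_cancel₀ h14])⟩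
  have e : ∀ i, φ A • P (eb i) = P (![(u ⬝ᵥ v ⨯₃ w)⁻¹ • u, v, w] i) := fun i => by
    rw [← p1, smul_eq, mulVec_single_one]
    rfl
  have e0 : φ A • P (eb 0) = P u := (e 0).trans ((p2 _ _).2 ⟨_, inv_ne_zero h14, rfl⟩)
  exact ⟨A, (h.three h2 h13 h11 h12).unique ⟨h.c.pn_smul hR _, (e 1).symm ▸ le_stab_smul.2 h4,
    (e 2).symm ▸ le_stab_smul.2 h5, e0 ▸ le_stab_smul.2 h3⟩ ⟨hS, h9, h10, h8⟩⟩

theorem m22 (hΩ : Nat.card Ω = 22) (ht : ∀ x y : Ω, x ≠ a → y ≠ a → ∃ g ∈ N a, g • x = y) :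
    Spor.IsoM22 G ∨ ∃ H : Subgroup G, H.index = 2 ∧ Spor.IsoM22 H := by
  obtain ⟨P, p0, p1, p2, p3, p4⟩ := h.exists_P h2
  obtain ⟨R, hR, c, hc, h3⟩ := h.exists_hyp h2 p0 p2 p3 p4
  have h4 : ∀ v w, pt (bt c v) = pt (bt c w) ↔ P v = P w := fun v w => by
    rw [p2, ← bt_eq c hc]
    exact ⟨fun e => by rw [← idx_pt (bt_lt c v).1, e, idx_pt (bt_lt c w).1], congrArg pt⟩
  let e : Ω ≃ {p : GolayPt // p ≠ none ∧ p ≠ some 0} := Equiv.ofBijective
    (fun y => ⟨pt (bt c (Function.surjInv p3 y)), (bt_lt c _).2⟩)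
    ⟨fun x y e => by simpa only [Function.surjInv_eq] using (h4 _ _).1 (congrArg Subtype.val e), fun p => by
      obtain ⟨v, hv⟩ := bt_surj c hc p.1 p.2.1 p.2.2
      exact ⟨P v, Subtype.ext (((h4 _ _).2 (Function.surjInv_eq p3 _)).trans hv)⟩⟩
  have he : ∀ v, (e (P v)).1 = pt (bt c v) := fun v => (h4 _ _).2 (Function.surjInv_eq p3 _)
  let ρ : G →* Equiv.Perm GolayPt := (Equiv.Perm.extendDomainHom e).comp (toPermHom G Ω)
  have r0 : ∀ g y, ρ g (e y) = e (g • y) := fun g y => Equiv.Perm.extendDomain_apply_image _ e y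
  have r1 : ∀ g, ρ g none = none := fun g => Equiv.Perm.extendDomain_apply_not_subtype _ e (by simp)
  have r2 : ∀ g, ρ g (some 0) = some 0 := fun g => Equiv.Perm.extendDomain_apply_not_subtype _ e (by simp)
  have ind : ∀ {p : GolayPt → Prop}, p none → p (some 0) → (∀ v, p (e (P v))) → ∀ x, p x := fun {p} h5 h6 h7 x => by
    by_cases e1 : x = none
    · exact e1 ▸ h5
    by_cases e2 : x = some 0
    · exact e2 ▸ h6
    obtain ⟨y, hy⟩ := e.surjective ⟨x, e1, e2⟩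
    obtain ⟨v, rfl⟩ := p3 y
    simpa only [hy] using h7 v
  have hw : ∀ m v, wOf m (e (P v)) = if m.testBit (bt c v) then 1 else 0 := fun m v => by
    rw [he, wOf, idx_pt (bt_lt c v).1]
  have r3 : ∀ A, ρ (φ A) ∈ M24 := Geom.sl_induction _ (fun i j hij l => mem_M24 (trm c i j l) fun b hb => by
      obtain ⟨h5, h6, h7, h8⟩ := trm_spec c hc i j hij l b hb
      refine ⟨h5, fun x => ?_⟩
      obtain ⟨x, rfl⟩ := (ρ (φ (SpecialLinearGroup.transvection hij l))).surjective x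
      rw [Equiv.symm_apply_apply]
      refine ind (p := fun x => wOf b x = wOf (trm c i j l b) (ρ _ x)) ?_ ?_ (fun v => ?_) x
      · rwa [r1]
      · rwa [r2]
      · rw [r0, ← p1, hw, hw, h8, Geom.transvection_smul, trv])
    fun A B h5 h6 => by rw [map_mul, map_mul]; exact M24.mul_mem h5 h6
  let Cw : Subgroup G → Prop := fun S => ∃ w ∈ golayCode, w none = 1 ∧ w (some 0) = 1 ∧
    ∀ y : Ω, On y S ↔ w (e y) = 1
  have c1 : ∀ A S, Cw S → Cw (φ A • S) := fun A S ⟨w, h5, h6, h7, h8⟩ =>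
    ⟨_, comp_mem_of_mem (r3 A) h5, by rw [Function.comp, (Equiv.symm_apply_eq _).2 (r1 _).symm, h6],
      by rw [Function.comp, (Equiv.symm_apply_eq _).2 (r2 _).symm, h7], fun y => by
        obtain ⟨y, rfl⟩ : ∃ z, φ A • z = y := MulAction.surjective _ y
        rw [On, le_stab_smul, Function.comp, ← r0, Equiv.symm_apply_apply]
        exact h8 y⟩
  have c2 : ∀ S : Subgroup G, ∀ m ∈ hm, (∀ v, m.testBit (bt c v) ↔ On (P v) S) → ∀ y : Ω, On y S ↔ wOf m (e y) = 1 :=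
    fun S m _ h5 y => by
      obtain ⟨v, rfl⟩ := p3 y
      simp [hw, h5]
  have c3 : ∀ S, Pn (Nat.card F4) N S → Cw S := fun S hS => by
    obtain ⟨⟨m, h5, h6⟩, m', h7, h8⟩ := hm_ex c hc
    by_cases h9 : On a S
    · obtain ⟨L, hL, h10, -⟩ := h.c.exists_line hS h9 S S
      obtain ⟨n, h11, rfl⟩ := (h.c.pl a).trans_ty (h.c.pn_vx (h.pn (eb_ne 2)) (h.on' (eb_ne 2))) (h.c.pn_vx hS h9)
        (bool3 (h.c.pn_ty hL (h.pn (eb_ne 2)) h10 (h.on' (eb_ne 2))).symm (h.c.pn_ty hL hS h10 h9).symm)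
      obtain ⟨A, rfl⟩ := h.range.le h11
      exact c1 A _ ⟨_, wOf_mem (hm_mem m' h7).1, (hm_mem m' h7).2.1, (hm_mem m' h7).2.2,
        c2 _ m' h7 fun v => by simp [h8, p4 _ _ (eb_ne 2)]⟩
    · obtain ⟨A, rfl⟩ := h.conj_plane h2 p0 p1 p2 p3 p4 hR ((h3 _).2 (by simp [Hyp])) ((h3 _).2 (by simp [Hyp]))
        ((h3 _).2 (by simp [Hyp])) hS h9
      exact c1 A _ ⟨_, wOf_mem (hm_mem m h5).1, (hm_mem m h5).2.1, (hm_mem m h5).2.2,
        c2 _ m h5 fun v => by rw [h6, h3]⟩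
  have c4 : ∀ g, ∀ m ∈ hm, wOf m ∘ (ρ g).symm ∈ golayCode := fun g m h5 => by
    obtain ⟨S, hS, h6⟩ : ∃ S, Pn (Nat.card F4) N S ∧ ∀ y : Ω, On y S ↔ wOf m (e y) = 1 := by
      rcases hm_spec c hc m h5 with h6 | ⟨f, hf, h6⟩
      · exact ⟨R, hR, c2 _ m h5 fun v => by rw [h6, h3]⟩
      · exact ⟨_, h.pn hf, c2 _ m h5 fun v => by rw [h6, p4 _ _ hf, dotProduct, Fin.sum_univ_three]⟩
    obtain ⟨w, h7, h8, h9, h10⟩ := c3 _ (h.c.pn_smul hS g)
    convert h7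
    funext x
    obtain ⟨x, rfl⟩ := (ρ g).surjective x
    rw [Function.comp, Equiv.symm_apply_apply]
    refine ind (p := fun x => wOf m x = w (ρ g x)) ?_ ?_ (fun v => ?_) x
    · rw [r1, h8, (hm_mem m h5).2.1]
    · rw [r2, h9, (hm_mem m h5).2.2]
    · rw [r0]
      exact (by decide : ∀ a b : ZMod 2, (a = 1 ↔ b = 1) → a = b) _ _ (by rw [← h6, ← h10, On, On, le_stab_smul])
  refine iso_of_rep ρ ((Equiv.Perm.extendDomainHom_injective e).comp ((injective_iff_map_eq_one _).2 fun g hg =>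
    h.c.faith g (Equiv.ext_iff.1 hg))) r1 r2 (fun g => mem_or_swap (r1 g) (r2 g) (c4 g) fun m h5 => by
      simpa [Equiv.Perm.inv_def] using c4 g⁻¹ m h5) fun hn => ?_
  have h5 : N a ≤ M24.comap ρ := h.range ▸ by rintro _ ⟨A, rfl⟩; exact r3 A
  have h6 : ∀ y, ∃ k : M24.comap ρ, k • a = y := fun y => by
    by_cases e : a = y
    · exact ⟨1, by simpa using e⟩
    obtain ⟨g, rfl⟩ := h.c.trans a y
    obtain ⟨n, h6, h7⟩ := SetLike.not_le_iff_exists.1 (h.c.not_le (Ne.symm e))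
    obtain ⟨k, h8, h9⟩ := ht _ _ h7 (Ne.symm e)
    rw [h.c.smul] at h6
    exact ⟨⟨k * n, mul_mem (h5 h8) (by simpa [mul_assoc] using hn.conj_mem _ (h5 h6) g)⟩, (mul_smul k n a).trans h9⟩
  haveI : IsPretransitive (M24.comap ρ) Ω := ⟨fun x y => by
    obtain ⟨k, rfl⟩ := h6 x
    obtain ⟨l, rfl⟩ := h6 y
    exact ⟨l * k⁻¹, by simp [mul_smul]⟩⟩
  have h7 := (stabilizer (M24.comap ρ) a).card_mul_index
  rw [index_stabilizer_of_transitive, hΩ] at h7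
  have h8 : Nat.card (N a) ≤ Nat.card (stabilizer (M24.comap ρ) a) := Nat.card_le_card_of_injective
    (fun n => ⟨⟨n.1, h5 n.2⟩, h.c.fix a n.2⟩) fun x y e => Subtype.ext (congrArg (·.1.1) e)
  have h9 := φ.ker.card_mul_index
  rw [index_ker, ← h.range, card_sl3 F4.card, show φ.ker = center _ from Subgroup.ext h.d.k1] at h9
  have h10 := card_center_sl3 (F := F4)
  nlinarith

end Co

end Cfsg.Agent.Hir
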