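import Mathlib

/-! Projective planes formed by the elementary abelian subgroups of order `q ^ 2` of a group. -/

set_option autoImplicit false

namespace Cfsg.Agent.Hir

open Subgroup

variable {G : Type*} [Group G]

/-- Conjugation of subgroups. -/
scoped instance cjAct : MulAction G (Subgroup G) where
  smul g Q :=
    { carrier := {x | g⁻¹ * x * g ∈ Q}
      mul_mem' := fun {a b} ha hb => by
        have := Q.mul_mem ha hb
        simpa [mul_assoc] using this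
      one_mem' := by simp
      inv_mem' := fun {a} ha => by
        have := Q.inv_mem ha
        simpa [mul_assoc] using this }
  one_smul Q := Subgroup.ext fun x => by
    change 1⁻¹ * x * 1 ∈ Q ↔ _
    simp
  mul_smul a b Q := Subgroup.ext fun x => by
    change (a * b)⁻¹ * x * (a * b) ∈ Q ↔ b⁻¹ * (a⁻¹ * x * a) * b ∈ Q
    simp [mul_assoc]

theorem mem_cj {g x : G} {Q : Subgroup G} : x ∈ g • Q ↔ g⁻¹ * x * g ∈ Q := Iff.rfl

theorem cj_mem {g x : G} {Q : Subgroup G} : g * x * g⁻¹ ∈ g • Q ↔ x ∈ Q := by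
  simp [mem_cj, mul_assoc]

theorem conj_mem_of_fix {g x : G} {Q : Subgroup G} (h : g • Q = Q) (hx : x ∈ Q) : g * x * g⁻¹ ∈ Q :=
  h ▸ cj_mem.2 hx

theorem mem_cj_of_comm {g x : G} {Q : Subgroup G} (h : g * x = x * g) (hx : x ∈ Q) : x ∈ g • Q := by
  rw [mem_cj, mul_assoc, ← h]; simpa using hx

theorem cj_mono {g : G} {Q R : Subgroup G} (h : Q ≤ R) : g • Q ≤ g • R := fun _ hx => h hx

theorem cj_inf (g : G) (Q R : Subgroup G) : g • (Q ⊓ R) = g • Q ⊓ g • R := rfl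

theorem card_cj (g : G) (Q : Subgroup G) : Nat.card ↥(g • Q) = Nat.card Q :=
  Nat.card_congr
    { toFun := fun x => ⟨g⁻¹ * x * g, x.2⟩
      invFun := fun x => ⟨g * x * g⁻¹, cj_mem.2 x.2⟩
      left_inv := fun x => Subtype.ext (by simp [mul_assoc])
      right_inv := fun x => Subtype.ext (by simp [mul_assoc]) }

theorem cj_self {g : G} {Q : Subgroup G} (h : g ∈ Q) : g • Q = Q :=
  Subgroup.ext fun x => by
    rw [mem_cj, Q.mul_mem_cancel_right h, Q.mul_mem_cancel_left (Q.inv_mem h)]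

theorem cj_eq_of_le [Finite G] {g : G} {Q : Subgroup G} (h : ∀ x ∈ Q, g * x * g⁻¹ ∈ Q) : g • Q = Q := by
  refine (eq_of_le_of_card_ge (fun x hx => ?_) (card_cj g Q).ge)
  have e : g⁻¹ • Q = Q := (eq_of_le_of_card_ge (fun x hx => by simpa [mem_cj] using h x hx)
    (card_cj g⁻¹ Q).le).symm
  have := conj_mem_of_fix (g := g⁻¹⁻¹) (x := g⁻¹ * x * g) (Q := Q) (by rw [inv_smul_eq_iff, e]) hx
  simpa [mul_assoc] using this

theorem cj_sup (g : G) (Q R : Subgroup G) : g • (Q ⊔ R) = g • Q ⊔ g • R := by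
  have key : ∀ (g : G) (Q R : Subgroup G), g • Q ⊔ g • R ≤ g • (Q ⊔ R) := fun g Q R =>
    sup_le (cj_mono le_sup_left) (cj_mono le_sup_right)
  refine le_antisymm ?_ (key g Q R)
  have := cj_mono (g := g) (key g⁻¹ (g • Q) (g • R))
  simpa using this

theorem bool3 {a b c : Bool} (h1 : a ≠ b) (h2 : c ≠ b) : a = c := by
  revert a b c; decide

theorem ncard_rel {α β : Type*} [Finite α] [Finite β] (r : α → β → Prop) (s : Set α) (t : Set β) (m : ℕ)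
    (h1 : ∀ a ∈ s, ∃ b ∈ t, r a b) (h2 : ∀ a ∈ s, ∀ b ∈ t, ∀ b' ∈ t, r a b → r a b' → b = b')
    (h3 : ∀ b ∈ t, {a | a ∈ s ∧ r a b}.ncard = m) : s.ncard = t.ncard * m := by
  classical
  rcases isEmpty_or_nonempty β with hβ | hβ
  · rw [Set.eq_empty_of_forall_notMem (s := s) fun a ha => hβ.elim (h1 a ha).choose, Set.eq_empty_of_isEmpty t]
    simp
  choose! f hf using h1
  have e := Finset.card_eq_sum_card_fiberwise (f := f) (s := s.toFinite.toFinset) (t := t.toFinite.toFinset)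
    (fun a ha => by simpa using (hf a (by simpa using ha)).1)
  rw [Set.ncard_eq_toFinset_card s, Set.ncard_eq_toFinset_card t, e, Finset.sum_const_nat]
  intro b hb
  have hb' : b ∈ t := by simpa using hb
  rw [← h3 b hb', ← Set.ncard_coe_finset]
  congr 1
  ext a
  simp only [Finset.coe_filter, Set.Finite.mem_toFinset, Set.mem_ofPred_eq]
  exact and_congr_right fun ha => ⟨fun e => e ▸ (hf a ha).2, fun e => h2 a ha _ (hf a ha).1 _ hb' (hf a ha).2 e⟩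

theorem surj_of_inj {α β : Type*} [Finite β] (f : α → β) {s : Set α} {t : Set β} (h1 : ∀ a ∈ s, f a ∈ t)
    (h2 : ∀ a ∈ s, ∀ b ∈ s, f a = f b → a = b) (h3 : t.ncard ≤ s.ncard) : ∀ b ∈ t, ∃ a ∈ s, f a = b := by
  intro b hb
  obtain ⟨a, ha, e⟩ := Set.surj_on_of_inj_on_of_ncard_le (fun a _ => f a) h1 (fun a b ha hb => h2 a ha b hb) h3
    t.toFinite b hb
  exact ⟨a, ha, e.symm⟩

/-- The vertices. -/
structure Vx (q : ℕ) (N Q : Subgroup G) : Prop where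
  le : Q ≤ N
  sq : ∀ x ∈ Q, x * x = 1
  card : Nat.card Q = q ^ 2

/-- Adjacency. -/
def Adj (Q R : Subgroup G) : Prop := Q ≠ R ∧ ∃ z, z ≠ 1 ∧ z ∈ Q ∧ z ∈ R

theorem Adj.symm {Q R : Subgroup G} (h : Adj Q R) : Adj R Q :=
  ⟨h.1.symm, h.2.imp fun _ hz => ⟨hz.1, hz.2.2, hz.2.1⟩⟩

theorem Adj.smul {Q R : Subgroup G} (h : Adj Q R) (g : G) : Adj (g • Q) (g • R) := by
  obtain ⟨h1, z, h2, h3, h4⟩ := h
  exact ⟨fun e => h1 (smul_left_cancel g e), g * z * g⁻¹, by simpa using h2, cj_mem.2 h3, cj_mem.2 h4⟩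

theorem adj_smul {Q R : Subgroup G} {g : G} : Adj (g • Q) (g • R) ↔ Adj Q R :=
  ⟨fun h => by simpa using h.smul g⁻¹, fun h => h.smul g⟩

theorem inv_of_sq {s : G} (h : s * s = 1) : s⁻¹ = s := inv_eq_of_mul_eq_one_right h

variable {q : ℕ} {N Q R S T : Subgroup G}

theorem Vx.inv_eq (h : Vx q N Q) {s : G} (hs : s ∈ Q) : s⁻¹ = s := inv_of_sq (h.sq s hs)

theorem Vx.comm (h : Vx q N Q) {s t : G} (hs : s ∈ Q) (ht : t ∈ Q) : s * t = t * s := by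
  rw [← h.inv_eq (Q.mul_mem hs ht), mul_inv_rev, h.inv_eq hs, h.inv_eq ht]

theorem Vx.smul' (h : Vx q N Q) (g : G) : Vx q (g • N) (g • Q) :=
  ⟨cj_mono h.le, fun x hx => by
    have := h.sq _ hx
    have e : x * x = g * (g⁻¹ * x * g * (g⁻¹ * x * g)) * g⁻¹ := by group
    rw [e, this]; simp, (card_cj g Q).trans h.card⟩

theorem Vx.smul (h : Vx q N Q) {g : G} (hg : g • N = N) : Vx q N (g • Q) := hg ▸ h.smul' g

theorem Vx.smul_mem (h : Vx q N Q) {g : G} (hg : g ∈ N) : Vx q N (g • Q) := h.smul (cj_self hg)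

theorem Vx.eq_of_le [Finite G] {N' : Subgroup G} (hQ : Vx q N Q) (hR : Vx q N' R) (h : Q ≤ R) : Q = R :=
  eq_of_le_of_card_ge h (hR.card.trans hQ.card.symm).le

theorem Vx.isP (h : Vx q N Q) : IsPGroup 2 Q := fun x =>
  ⟨1, Subtype.ext (by simpa [pow_two] using h.sq x x.2)⟩

/-- `g` fixes all vertices. -/
def Tr (q : ℕ) (N : Subgroup G) (g : G) : Prop := ∀ Q, Vx q N Q → g • Q = Q

/-- The axioms. -/
structure Pl (q : ℕ) (N : Subgroup G) (ty : Subgroup G → Bool) : Prop where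
  two_le : 2 ≤ q
  adj_ty : ∀ {Q R}, Vx q N Q → Vx q N R → Adj Q R → ty Q ≠ ty R
  join : ∀ {Q R}, Vx q N Q → Vx q N R → ty Q = ty R → Q ≠ R → ∃ S, Vx q N S ∧ Adj Q S ∧ Adj R S
  uniq : ∀ {Q R S T}, Vx q N Q → Vx q N R → Vx q N S → Vx q N T → Adj Q S → Adj R S → Adj Q T → Adj R T →
    Q = R ∨ S = T
  card_inf : ∀ {Q R}, Vx q N Q → Vx q N R → Adj Q R → Nat.card ↥(Q ⊓ R) = q
  inv : ∀ {t}, t ∈ N → t * t = 1 → t ≠ 1 → ∃ Q R, Vx q N Q ∧ Vx q N R ∧ Q ≠ R ∧ t ∈ Q ∧ t ∈ R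
  comm : ∀ {s t}, s ∈ N → t ∈ N → s * s = 1 → t * t = 1 → s ≠ 1 → t ≠ 1 → s * t = t * s →
    ∃ Q, Vx q N Q ∧ s ∈ Q ∧ t ∈ Q
  gen : ∀ M : Subgroup G, (∀ t ∈ N, t * t = 1 → t ∈ M) → N ≤ M
  cen : ∀ g ∈ N, (∀ n ∈ N, g * n = n * g) → g = 1
  ex : ∃ Q, Vx q N Q

namespace Pl

variable {ty : Subgroup G → Bool} (h : Pl q N ty)
include h

theorem no_tri (hQ : Vx q N Q) (hR : Vx q N R) (hS : Vx q N S) (h1 : Adj Q R) (h2 : Adj R S) (h3 : Adj Q S) :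
    False :=
  h.adj_ty hQ hS h3 (bool3 (h.adj_ty hQ hR h1) (h.adj_ty hS hR h2.symm))

theorem two (hQ : Vx q N Q) (hR : Vx q N R) (hS : Vx q N S) {t : G} (ht : t ≠ 1) (h1 : t ∈ Q) (h2 : t ∈ R)
    (h3 : t ∈ S) (hne : Q ≠ R) : S = Q ∨ S = R := by
  by_contra! hc
  exact h.no_tri hQ hR hS ⟨hne, t, ht, h1, h2⟩ ⟨hc.2.symm, t, ht, h2, h3⟩ ⟨hc.1.symm, t, ht, h1, h3⟩

theorem eq_of_ty (hQ : Vx q N Q) (hR : Vx q N R) {t : G} (ht : t ≠ 1) (h1 : t ∈ Q) (h2 : t ∈ R)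
    (e : ty Q = ty R) : Q = R := by
  by_contra hc
  exact h.adj_ty hQ hR ⟨hc, t, ht, h1, h2⟩ e

theorem other (hQ : Vx q N Q) {t : G} (ht : t ≠ 1) (h1 : t ∈ Q) : ∃ R, Vx q N R ∧ Adj Q R ∧ t ∈ R := by
  obtain ⟨A, B, hA, hB, hne, h2, h3⟩ := h.inv (hQ.le h1) (hQ.sq t h1) ht
  rcases h.two hA hB hQ ht h2 h3 h1 hne with rfl | rfl
  · exact ⟨B, hB, ⟨hne, t, ht, h1, h3⟩, h3⟩
  · exact ⟨A, hA, ⟨hne.symm, t, ht, h1, h2⟩, h2⟩

theorem inv_ty {t : G} (h1 : t ∈ N) (h2 : t * t = 1) (h3 : t ≠ 1) (b : Bool) :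
    ∃ Q R, Vx q N Q ∧ Vx q N R ∧ Adj Q R ∧ t ∈ Q ∧ t ∈ R ∧ ty Q = b := by
  obtain ⟨A, B, hA, hB, hne, h4, h5⟩ := h.inv h1 h2 h3
  have h6 : Adj A B := ⟨hne, t, h3, h4, h5⟩
  by_cases e : ty A = b
  · exact ⟨A, B, hA, hB, h6, h4, h5, e⟩
  · exact ⟨B, A, hB, hA, h6.symm, h5, h4, bool3 (h.adj_ty hB hA h6.symm) (Ne.symm e)⟩

theorem fix_of_comm (hQ : Vx q N Q) (hR : Vx q N R) {g z : G} (hg : g • N = N) (hz : z ≠ 1) (h1 : z ∈ Q)
    (h2 : z ∈ R) (hne : Q ≠ R) (hc : g * z = z * g) (hf : g • Q = Q) : g • R = R := by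
  rcases h.two hQ hR (hR.smul hg) hz h1 h2 (mem_cj_of_comm hc h2) hne with e | e
  · exact absurd (smul_left_cancel g (hf.trans e.symm)) hne
  · exact e

theorem fix_adj (hQ : Vx q N Q) (hR : Vx q N R) (ha : Adj Q R) {t : G} (ht : t ∈ Q) : t • R = R := by
  obtain ⟨hne, z, h1, h2, h3⟩ := ha
  exact h.fix_of_comm hQ hR (cj_self (hQ.le ht)) h1 h2 h3 hne (hQ.comm ht h2) (cj_self ht)

theorem exists_ne_one (hQ : Vx q N Q) : ∃ s ∈ Q, s ≠ 1 := by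
  by_contra! hc
  have e : Q = ⊥ := (eq_bot_iff_forall Q).2 hc
  have := hQ.card
  rw [e, card_bot] at this
  have := h.two_le
  nlinarith

theorem exists_comm (hQ : Vx q N Q) {g : G} (hg : g * g = 1) (hf : g • Q = Q) :
    ∃ s ∈ Q, s ≠ 1 ∧ g * s = s * g := by
  obtain ⟨s, hs, h1⟩ := h.exists_ne_one hQ
  have h2 := conj_mem_of_fix hf hs
  by_cases e : s * (g * s * g⁻¹) = 1
  · refine ⟨s, hs, h1, ?_⟩
    rw [← eq_inv_iff_mul_eq_one, hQ.inv_eq h2] at e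
    rw [← mul_inv_eq_iff_eq_mul, ← e]
  · refine ⟨_, Q.mul_mem hs h2, e, ?_⟩
    rw [inv_of_sq hg] at h2 ⊢
    calc g * (s * (g * s * g)) = (g * s * g) * s * g := by group
      _ = s * (g * s * g) * g := by rw [hQ.comm h2 hs]

theorem noncomm (hQ : Vx q N Q) (hR : Vx q N R) (ha : Adj Q R) {s r : G} (h1 : s ∈ Q) (h2 : s ∉ R) (h3 : r ∈ R)
    (h4 : r ∉ Q) : s * r ≠ r * s := by
  intro e
  have hs : s ≠ 1 := fun e => h2 (e ▸ R.one_mem)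
  have hr : r ≠ 1 := fun e => h4 (e ▸ Q.one_mem)
  obtain ⟨T, hT, h5, h6⟩ := h.comm (hQ.le h1) (hR.le h3) (hQ.sq s h1) (hR.sq r h3) hs hr e
  exact h.no_tri hQ hR hT ha ⟨fun e => h2 (e ▸ h5), r, hr, h3, h6⟩ ⟨fun e => h4 (e ▸ h6), s, hs, h1, h5⟩

theorem fix_iff (hQ : Vx q N Q) (hR : Vx q N R) (hS : Vx q N S) {t : G} (ht : t ≠ 1) (h1 : t ∈ Q) (h2 : t ∈ R)
    (hne : Q ≠ R) (hf : t • S = S) : Adj Q S ∨ Adj R S := by
  obtain ⟨s, h3, h4, h5⟩ := h.exists_comm hS (hQ.sq t h1) hf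
  obtain ⟨T, hT, h6, h7⟩ := h.comm (hQ.le h1) (hS.le h3) (hQ.sq t h1) (hS.sq s h3) ht h4 h5
  have ha : Adj Q R := ⟨hne, t, ht, h1, h2⟩
  rcases h.two hQ hR hT ht h1 h2 h6 hne with rfl | rfl
  · by_cases e : T = S
    · exact Or.inr (e ▸ ha.symm)
    · exact Or.inl ⟨e, s, h4, h7, h3⟩
  · by_cases e : T = S
    · exact Or.inl (e ▸ ha)
    · exact Or.inr ⟨e, s, h4, h7, h3⟩

theorem fix_ty (hQ : Vx q N Q) (hR : Vx q N R) (hS : Vx q N S) {t : G} (ht : t ≠ 1) (h1 : t ∈ Q) (h2 : t ∈ R)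
    (hne : Q ≠ R) (hf : t • S = S) (e : ty Q = ty S) : Adj R S :=
  (h.fix_iff hQ hR hS ht h1 h2 hne hf).resolve_left fun h' => h.adj_ty hQ hS h' e

theorem semireg (hQ : Vx q N Q) (hS : Vx q N S) (h1 : ty Q ≠ ty S) (h2 : ¬ Adj Q S) {t : G} (ht : t ∈ Q)
    (hf : t • S = S) : t = 1 := by
  by_contra h3
  obtain ⟨R, hR, h4, h5⟩ := h.other hQ h3 ht
  exact h2 (h.fix_ty hR hQ hS h3 h5 ht h4.1.symm hf (bool3 (h.adj_ty hR hQ h4.symm) h1.symm))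

variable [Finite G]

omit h in
theorem ncard_ne (Q : Subgroup G) : {z | z ≠ 1 ∧ z ∈ Q}.ncard + 1 = Nat.card Q := by
  rw [← Set.ncard_insert_of_notMem (a := 1) (by simp), ← SetLike.coe_sort_coe, Nat.card_coe_set_eq]
  congr 1
  ext z
  by_cases e : z = 1 <;> simp [e]

theorem nbr_card (hQ : Vx q N Q) : {R | Vx q N R ∧ Adj Q R}.ncard = q + 1 := by
  have h2 := h.two_le
  have e := ncard_rel (fun (z : G) (R : Subgroup G) => z ∈ R) {z | z ≠ 1 ∧ z ∈ Q} {R | Vx q N R ∧ Adj Q R} (q - 1)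
    (fun z hz => by
      obtain ⟨R, h1, h2, h3⟩ := h.other hQ hz.1 hz.2
      exact ⟨R, ⟨h1, h2⟩, h3⟩)
    (fun z hz R hR S hS h1 h2 => ((h.two hQ hR.1 hS.1 hz.1 hz.2 h1 h2 hR.2.1).resolve_left hS.2.1.symm).symm)
    (fun R hR => by
      have := ncard_ne (Q ⊓ R)
      rw [h.card_inf hQ hR.1 hR.2] at this
      rw [← this]
      simp [and_assoc])
  have e2 := ncard_ne Q
  rw [hQ.card, e] at e2
  obtain ⟨p, rfl⟩ : ∃ p, q = p + 1 := ⟨q - 1, by omega⟩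
  simp only [Nat.add_sub_cancel] at e2
  exact Nat.eq_of_mul_eq_mul_right (m := p) (by omega) (by nlinarith)

theorem exists_nbr (hQ : Vx q N Q) (X Y : Subgroup G) : ∃ R, Vx q N R ∧ Adj Q R ∧ R ≠ X ∧ R ≠ Y := by
  by_contra! hc
  have h1 : {R | Vx q N R ∧ Adj Q R} ⊆ {X, Y} := fun R hR => by
    by_cases e : R = X
    · exact Or.inl e
    · exact Or.inr (hc R hR.1 hR.2 e)
  have h2 := (Set.ncard_le_ncard h1).trans (Set.ncard_insert_le _ _)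
  rw [h.nbr_card hQ, Set.ncard_singleton] at h2
  have := h.two_le
  omega

theorem exists_notMem (hQ : Vx q N Q) (hR : Vx q N R) (hne : Q ≠ R) : ∃ s ∈ Q, s ∉ R := by
  by_contra! hc
  exact hne (hQ.eq_of_le hR hc)

theorem nbr_card' (hQ : Vx q N Q) (hS : Vx q N S) (ha : Adj S Q) :
    {R | Vx q N R ∧ Adj S R ∧ R ≠ Q}.ncard = q := by
  have := Set.ncard_sdiff_singleton_add_one (s := {R | Vx q N R ∧ Adj S R}) (a := Q) ⟨hQ, ha⟩
  rw [h.nbr_card hS] at this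
  refine Eq.trans ?_ (Nat.add_right_cancel this)
  congr 1
  ext R
  simp [and_assoc]

theorem transZ (hQ : Vx q N Q) (hR : Vx q N R) (hS : Vx q N S) (h1 : Adj Q R) (h2 : Adj Q S) (hne : R ≠ S)
    {X Y : Subgroup G} (hX : Vx q N X) (hY : Vx q N Y) (h3 : Adj S X) (h4 : Adj S Y) (h5 : X ≠ Q) (h6 : Y ≠ Q) :
    ∃ z ∈ Q, z ∈ R ∧ z • X = Y := by
  obtain ⟨z, hz, e⟩ := surj_of_inj (fun z : G => z • X) (s := (Q ⊓ R : Subgroup G))
    (t := {T | Vx q N T ∧ Adj S T ∧ T ≠ Q})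
    (fun z hz => ⟨hX.smul_mem (hQ.le hz.1), h.fix_adj hQ hS h2 hz.1 ▸ h3.smul z,
      fun e => h5 (smul_left_cancel z (e.trans (cj_self hz.1).symm))⟩)
    (fun a ha b hb e => by
      by_contra h7
      have h8 : b⁻¹ * a ≠ 1 := fun e => h7 (inv_mul_eq_one.1 e).symm
      have h9 := h.fix_ty hQ hR hX h8 (Q.mul_mem (Q.inv_mem hb.1) ha.1) (R.mul_mem (R.inv_mem hb.2) ha.2) h1.1
        (by rw [mul_smul, inv_smul_eq_iff]; exact e) (bool3 (h.adj_ty hQ hS h2) (h.adj_ty hX hS h3.symm))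
      rcases h.uniq hR hS hQ hX h1.symm h2.symm h9 h3 with e | e
      · exact hne e
      · exact h5 e.symm)
    (by rw [h.nbr_card' hQ hS h2.symm, ← Nat.card_coe_set_eq, SetLike.coe_sort_coe, h.card_inf hQ hR h1])
    Y ⟨hY, h4, h6⟩
  exact ⟨z, hz.1, hz.2, e⟩

theorem transOpp (hQ : Vx q N Q) {X Y : Subgroup G} (hX : Vx q N X) (hY : Vx q N Y) (h1 : ty Q ≠ ty X)
    (h2 : ty Q ≠ ty Y) (h3 : ¬ Adj Q X) (h4 : ¬ Adj Q Y) : ∃ s ∈ Q, s • X = Y := by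
  by_cases e : X = Y
  · exact ⟨1, Q.one_mem, by simp [e]⟩
  obtain ⟨S, hS, h5, h6⟩ := h.join hX hY (bool3 h1.symm h2.symm) e
  have h7 : Q ≠ S := fun e => h3 (e ▸ h5.symm)
  obtain ⟨C, hC, h8, h9⟩ := h.join hQ hS (bool3 h1 (h.adj_ty hS hX h5.symm)) h7
  obtain ⟨z, -, h10, h11⟩ := h.transZ hC hQ hS h8.symm h9.symm h7 hX hY h5.symm h6.symm
    (fun e => h3 (e ▸ h8)) (fun e => h4 (e ▸ h8))
  exact ⟨z, h10, h11⟩

theorem cover (hQ : Vx q N Q) (hR : Vx q N R) (ha : Adj Q R) {w z : G} (h1 : w ∈ Q) (h2 : w ∉ R) (h3 : z ∈ Q)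
    (h4 : z ∈ R) : ∃ s ∈ R, s * w * s⁻¹ = z * w := by
  obtain ⟨T, hT, h5, h6, -⟩ := h.exists_nbr hR Q Q
  obtain ⟨s, hs, e⟩ := surj_of_inj (fun s : G => s * w * s⁻¹ * w⁻¹) (s := (R ⊓ T : Subgroup G))
    (t := (Q ⊓ R : Subgroup G))
    (fun s hs => ⟨Q.mul_mem (conj_mem_of_fix (h.fix_adj hR hQ ha.symm hs.1) h1) (Q.inv_mem h1), by
      have := R.mul_mem hs.1 (conj_mem_of_fix (h.fix_adj hQ hR ha h1) (R.inv_mem hs.1))
      simpa [mul_assoc] using this⟩)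
    (fun a ha' b hb e => by
      by_contra h7
      have h8 : b⁻¹ * a ≠ 1 := fun e => h7 (inv_mul_eq_one.1 e).symm
      have h9 := R.mul_mem (R.inv_mem hb.1) ha'.1
      refine h.noncomm hQ hR ha h1 h2 h9 (fun h10 => ?_) ?_
      · rcases h.two hQ hR hT h8 h10 h9 (T.mul_mem (T.inv_mem hb.2) ha'.2) ha.1 with e | e
        · exact h6 e
        · exact h5.1 e.symm
      · have e' : a * w * a⁻¹ = b * w * b⁻¹ := mul_right_cancel e
        calc w * (b⁻¹ * a) = b⁻¹ * (b * w * b⁻¹) * a := by group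
          _ = b⁻¹ * a * w := by rw [← e']; group)
    (by rw [← Nat.card_coe_set_eq, ← Nat.card_coe_set_eq, SetLike.coe_sort_coe, SetLike.coe_sort_coe,
      h.card_inf hQ hR ha, h.card_inf hR hT h5])
    z ⟨h3, h4⟩
  exact ⟨s, hs.1, mul_inv_eq_iff_eq_mul.1 e⟩

end Pl

end Cfsg.Agent.Hir
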