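import Cfsg.Agent.Hir.Pl1

/-! Collineations of the plane. -/

set_option autoImplicit false

namespace Cfsg.Agent.Hir

open Subgroup

variable {G : Type*} [Group G] {q : ℕ} {N Q R S T : Subgroup G}

theorem Tr.inv {g : G} (h : Tr q N g) : Tr q N g⁻¹ := fun Q hQ => inv_smul_eq_iff.2 (h Q hQ).symm

theorem Tr.mul {a b : G} (ha : Tr q N a) (hb : Tr q N b) : Tr q N (a * b) := fun Q hQ => by
  rw [mul_smul, hb Q hQ, ha Q hQ]

theorem Tr.conj {a g : G} (ha : Tr q N a) (hg : g • N = N) : Tr q N (g * a * g⁻¹) := fun Q hQ => by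
  rw [mul_smul, mul_smul, ha _ (hQ.smul (inv_smul_eq_iff.2 hg.symm)), smul_inv_smul]

theorem tr_of_comm {g : G} (h : ∀ n ∈ N, g * n = n * g) : Tr q N g := fun Q hQ =>
  Subgroup.ext fun x => ⟨fun hx => by
    have e := h _ (hQ.le hx)
    have e' : x = g⁻¹ * x * g := by
      calc x = g * (g⁻¹ * x * g) * g⁻¹ := by group
        _ = g⁻¹ * x * g := by rw [e]; group
    exact e' ▸ hx, fun hx => mem_cj_of_comm (h x (hQ.le hx)) hx⟩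

namespace Pl

variable {ty : Subgroup G → Bool} (h : Pl q N ty)
include h

theorem same_smul (hQ : Vx q N Q) (hR : Vx q N R) {g : G} (hg : g • N = N) :
    ty (g • Q) = ty (g • R) ↔ ty Q = ty R := by
  have key : ∀ {g : G} {Q R : Subgroup G}, g • N = N → Vx q N Q → Vx q N R → ty Q = ty R →
      ty (g • Q) = ty (g • R) := by
    intro g Q R hg hQ hR e
    by_cases e' : Q = R
    · rw [e']
    obtain ⟨S, hS, h1, h2⟩ := h.join hQ hR e e'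
    exact bool3 (h.adj_ty (hQ.smul hg) (hS.smul hg) (h1.smul g)) (h.adj_ty (hR.smul hg) (hS.smul hg) (h2.smul g))
  refine ⟨fun e => ?_, key hg hQ hR⟩
  simpa using key (inv_smul_eq_iff.2 hg.symm) (hQ.smul hg) (hR.smul hg) e

theorem ty_smul (hQ : Vx q N Q) (hR : Vx q N R) {g : G} (hg : g • N = N) (e : ty (g • Q) = ty Q) :
    ty (g • R) = ty R := by
  have := h.same_smul hQ hR hg
  rw [e] at this
  revert this
  generalize ty Q = a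
  generalize ty R = b
  generalize ty (g • R) = c
  revert a b c
  decide

theorem ty_fix (hQ : Vx q N Q) (hR : Vx q N R) {g : G} (hg : g • N = N) (e : g • Q = Q) :
    ty (g • R) = ty R := h.ty_smul hQ hR hg (by rw [e])

theorem ty_N (hQ : Vx q N Q) {g : G} (hg : g ∈ N) : ty (g • Q) = ty Q := by
  let M : Subgroup G :=
    { carrier := {g | g ∈ N ∧ ∀ Q, Vx q N Q → ty (g • Q) = ty Q}
      mul_mem' := fun {a b} ha hb => ⟨N.mul_mem ha.1 hb.1, fun Q hQ => by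
        rw [mul_smul, ha.2 _ (hQ.smul_mem hb.1), hb.2 _ hQ]⟩
      one_mem' := ⟨N.one_mem, fun Q _ => by simp⟩
      inv_mem' := fun {a} ha => ⟨N.inv_mem ha.1, fun Q hQ => by
        rw [← ha.2 _ (hQ.smul_mem (N.inv_mem ha.1)), smul_inv_smul]⟩ }
  refine (h.gen M (fun t h1 h2 => ⟨h1, fun R hR => ?_⟩) hg).2 Q hQ
  by_cases e : t = 1
  · simp [e]
  obtain ⟨A, -, hA, -, -, h3, -⟩ := h.inv h1 h2 e
  exact h.ty_fix hA hR (cj_self h1) (cj_self h3)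

theorem eq_of_two {A B : Subgroup G} (hQ : Vx q N Q) (hR : Vx q N R) (hA : Vx q N A) (hB : Vx q N B) (hne : A ≠ B)
    (h1 : Adj A Q) (h2 : Adj B Q) (h3 : Adj A R) (h4 : Adj B R) : Q = R :=
  (h.uniq hA hB hQ hR h1 h2 h3 h4).resolve_left hne

omit h in
/-- Maps preserving the incidence. -/
structure Col (q : ℕ) (N : Subgroup G) (f : Subgroup G → Subgroup G) : Prop where
  vx : ∀ {Q}, Vx q N Q → Vx q N (f Q)
  adj : ∀ {Q R}, Vx q N Q → Vx q N R → Adj Q R → Adj (f Q) (f R)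

omit h in
theorem col_smul {g : G} (hg : g • N = N) : Col q N (g • ·) :=
  ⟨fun hQ => hQ.smul hg, fun _ _ ha => ha.smul g⟩

theorem fix_two {f : Subgroup G → Subgroup G} (hf : Col q N f) {A B : Subgroup G} (hQ : Vx q N Q) (hA : Vx q N A)
    (hB : Vx q N B) (hne : A ≠ B) (h1 : Adj A Q) (h2 : Adj B Q) (h3 : f A = A) (h4 : f B = B) : f Q = Q :=
  h.eq_of_two (hf.vx hQ) hQ hA hB hne (h3 ▸ hf.adj hA hQ h1) (h4 ▸ hf.adj hB hQ h2) h1 h2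

variable [Finite G]

theorem cc0 {f : Subgroup G → Subgroup G} (hf : Col q N f) {C X : Subgroup G} (hC : Vx q N C) (hX : Vx q N X)
    (hty : ty C = ty X) (hne : C ≠ X) (h1 : ∀ R, Vx q N R → Adj C R → f R = R)
    (h2 : ∀ R, Vx q N R → Adj X R → f R = R) : ∀ Q, Vx q N Q → f Q = Q := by
  obtain ⟨L, hL, h3, h4⟩ := h.join hC hX hty hne
  have s1 : ∀ Z, Vx q N Z → ty Z = ty C → ¬ Adj Z L → f Z = Z := by
    intro Z hZ e h5
    obtain ⟨A, hA, h6, h7⟩ := h.join hZ hC e fun e => h5 (e ▸ h3)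
    obtain ⟨B, hB, h8, h9⟩ := h.join hZ hX (e.trans hty) fun e => h5 (e ▸ h4)
    refine h.fix_two hf hZ hA hB (fun e => h5 ?_) h6.symm h8.symm (h1 A hA h7) (h2 B hB h9)
    rw [h.eq_of_two hL hA hC hX hne h3 h4 h7 (e ▸ h9)]
    exact h6
  have s2 : ∀ Z, Vx q N Z → ty Z ≠ ty C → f Z = Z := by
    intro Z hZ e
    by_cases e' : Z = L
    · exact e' ▸ h1 L hL h3
    obtain ⟨Y, hY, h5, h6⟩ := h.join hZ hL (bool3 e (h.adj_ty hC hL h3).symm) e'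
    obtain ⟨A, hA, h7, h8, -⟩ := h.exists_nbr hZ Y Y
    obtain ⟨B, hB, h9, h10, h11⟩ := h.exists_nbr hZ Y A
    refine h.fix_two hf hZ hA hB h11.symm h7.symm h9.symm (s1 A hA (bool3 (h.adj_ty hA hZ h7.symm) e.symm) ?_)
      (s1 B hB (bool3 (h.adj_ty hB hZ h9.symm) e.symm) ?_)
    · exact fun h12 => h8 (h.eq_of_two hA hY hZ hL e' h7 h12.symm h5 h6)
    · exact fun h12 => h10 (h.eq_of_two hB hY hZ hL e' h9 h12.symm h5 h6)
  intro Z hZ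
  by_cases e : ty Z = ty C
  · obtain ⟨A, hA, h7, -⟩ := h.exists_nbr hZ Z Z
    obtain ⟨B, hB, h9, h10, -⟩ := h.exists_nbr hZ A A
    exact h.fix_two hf hZ hA hB h10.symm h7.symm h9.symm (s2 A hA (e ▸ h.adj_ty hA hZ h7.symm))
      (s2 B hB (e ▸ h.adj_ty hB hZ h9.symm))
  · exact s2 Z hZ e

omit [Finite G] in
theorem cc1 {f : Subgroup G → Subgroup G} (hf : Col q N f) {L X : Subgroup G} (hL : Vx q N L) (hX : Vx q N X)
    (hty : ty L ≠ ty X) (hne : ¬ Adj L X) (h1 : ∀ R, Vx q N R → Adj L R → f R = R) (h2 : f X = X) :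
    ∀ R, Vx q N R → Adj X R → f R = R := by
  intro R hR h3
  obtain ⟨Y, hY, h4, h5⟩ := h.join hR hL (bool3 (h.adj_ty hR hX h3.symm) hty) fun e => hne (e ▸ h3.symm)
  exact h.fix_two hf hR hX hY (fun e => hne (e ▸ h5)) h3 h4.symm h2 (h1 Y hY h5)

theorem cc2 {f : Subgroup G → Subgroup G} (hf : Col q N f) {P L X : Subgroup G} (hP : Vx q N P) (hL : Vx q N L)
    (hX : Vx q N X) (ha : Adj P L) (hty : ty L ≠ ty X) (hne : ¬ Adj L X) (h0 : ∀ R, Vx q N R → Adj P R → f R = R)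
    (h1 : ∀ R, Vx q N R → Adj L R → f R = R) (h2 : f X = X) : ∀ Q, Vx q N Q → f Q = Q :=
  h.cc0 hf hP hX (bool3 (h.adj_ty hP hL ha) hty.symm) (fun e => hne (e ▸ ha.symm)) h0 (h.cc1 hf hL hX hty hne h1 h2)

theorem exists_opp (hQ : Vx q N Q) : ∃ X, Vx q N X ∧ ty Q ≠ ty X ∧ ¬ Adj Q X := by
  obtain ⟨C, hC, h1, -⟩ := h.exists_nbr hQ Q Q
  obtain ⟨T, hT, h2, h3, -⟩ := h.exists_nbr hC Q Q
  obtain ⟨X, hX, h4, h5, -⟩ := h.exists_nbr hT C C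
  refine ⟨X, hX, ?_, fun h6 => h5 (h.eq_of_two hX hC hQ hT h3.symm h6 h4 h1 h2.symm)⟩
  rw [bool3 (h.adj_ty hQ hC h1) (h.adj_ty hT hC h2.symm)]
  exact h.adj_ty hT hX h4

theorem comm_of_tr {g : G} (hg : Tr q N g) : ∀ n ∈ N, g * n = n * g := by
  intro n hn
  refine mem_centralizer_singleton_iff.1 (h.gen (centralizer {g}) (fun t h1 h2 => ?_) hn) |>.symm
  rw [mem_centralizer_singleton_iff]
  by_cases e : t = 1
  · simp [e]
  obtain ⟨Q, -, hQ, -, -, h3, -⟩ := h.inv h1 h2 e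
  obtain ⟨X, hX, h4, h5⟩ := h.exists_opp hQ
  have h6 := h.semireg hQ hX h4 h5 (Q.mul_mem (Q.inv_mem h3) (conj_mem_of_fix (hg Q hQ) h3)) (by
    rw [mul_smul, mul_smul, mul_smul, hg.inv X hX, hg _ (hX.smul_mem h1), inv_smul_smul])
  rw [inv_mul_eq_one, eq_mul_inv_iff_mul_eq] at h6
  exact h6

theorem eq_one_of_tr {g : G} (h1 : g ∈ N) (hg : Tr q N g) : g = 1 := h.cen g h1 (h.comm_of_tr hg)

theorem fix_of_nbrs {g : G} (hg : g • N = N) (hQ : Vx q N Q) (h1 : ∀ R, Vx q N R → Adj Q R → g • R = R) :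
    g • Q = Q := by
  obtain ⟨A, hA, h7, -⟩ := h.exists_nbr hQ Q Q
  obtain ⟨B, hB, h9, h10, -⟩ := h.exists_nbr hQ A A
  exact h.fix_two (col_smul hg) hQ hA hB h10.symm h7.symm h9.symm (h1 A hA h7) (h1 B hB h9)

theorem elation {g : G} (hg : g • N = N) (h2 : g * g = 1) (hQ : Vx q N Q)
    (h1 : ∀ R, Vx q N R → Adj Q R → g • R = R) : ∃ s ∈ Q, Tr q N (s * g) := by
  have h3 := h.fix_of_nbrs hg hQ h1
  obtain ⟨X, hX, h4, h5⟩ := h.exists_opp hQ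
  obtain ⟨s, hs, e⟩ := h.transOpp hQ (hX.smul hg) hX (by rwa [h.ty_fix hQ hX hg h3]) h4
    (by rwa [← h3, adj_smul]) h5
  refine ⟨s, hs, ?_⟩
  have h6 : (s * g) • N = N := by rw [mul_smul, hg, cj_self (hQ.le hs)]
  have h7 : s * (g * s * g⁻¹) = 1 := h.semireg hQ hX h4 h5 (Q.mul_mem hs (conj_mem_of_fix h3 hs)) (by
    rw [inv_of_sq h2, mul_smul, mul_smul, mul_smul, e, e])
  obtain ⟨r, h8, h9, h10⟩ := h.exists_comm hQ (g := s * g) (by rw [← h7, inv_of_sq h2]; group)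
    (by rw [mul_smul, h3, cj_self hs])
  have h11 : ∀ R, Vx q N R → Adj Q R → (s * g) • R = R := fun R hR ha => by
    rw [mul_smul, h1 R hR ha, h.fix_adj hQ hR ha hs]
  have h12 : (s * g) • X = X := by rw [mul_smul, e]
  have h13 := h.ty_N hX (hQ.le h8)
  exact h.cc0 (col_smul h6) hX (hX.smul_mem (hQ.le h8)) h13.symm (fun e => h9 (h.semireg hQ hX h4 h5 h8 e.symm))
    (h.cc1 (col_smul h6) hQ hX h4 h5 h11 h12)
    (h.cc1 (col_smul h6) hQ (hX.smul_mem (hQ.le h8)) (h13 ▸ h4) (by rwa [← cj_self h8, adj_smul]) h11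
      (by rw [← mul_smul, h10, mul_smul, h12]))

theorem axis {g : G} (hg : g • N = N) (h2 : g * g = 1) (hQ : Vx q N Q) (hR : Vx q N R) (ha : Adj Q R)
    (h3 : g • Q = Q) (h4 : g • R = R) (h5 : ∀ z ∈ Q, z ∈ R → g * z = z * g) :
    ∃ S, Vx q N S ∧ Adj Q S ∧ ∀ Y, Vx q N Y → Adj S Y → g • Y = Y := by
  by_cases hc : ∃ X, Vx q N X ∧ ty X = ty Q ∧ ¬ Adj R X ∧ g • X = X
  · obtain ⟨X, hX, h6, h7, h8⟩ := hc
    have h9 : X ≠ Q := fun e => h7 (e ▸ ha.symm)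
    obtain ⟨S, hS, h10, h11⟩ := h.join hX hQ h6 h9
    refine ⟨S, hS, h11, fun Y hY h12 => ?_⟩
    by_cases e : Y = Q
    · rw [e, h3]
    obtain ⟨z, h13, h14, rfl⟩ := h.transZ hQ hR hS ha h11 (fun e => h7 (e ▸ h10.symm)) hX hY h10.symm h12 h9 e
    rw [← mul_smul, h5 z h13 h14, mul_smul, h8]
  · push Not at hc
    refine ⟨R, hR, ha, fun Y hY h6 => ?_⟩
    obtain ⟨L, hL, h7, h8, -⟩ := h.exists_nbr hY R R
    by_cases e : g • L = L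
    · exact h.fix_two (col_smul hg) hY hR hL h8.symm h6 h7.symm h4 e
    obtain ⟨W, hW, h9, h10⟩ := h.join (hL.smul hg) hL (h.ty_fix hQ hL hg h3) e
    have h11 : g • W = W := h.eq_of_two (hW.smul hg) hW (hL.smul hg) hL e (h10.smul g)
      (by simpa [← mul_smul, h2] using h9.smul g) h9 h10
    have h12 : Adj R W := by
      by_contra h12
      refine hc W hW (bool3 (h.adj_ty hW hL h10.symm) ?_) h12 h11
      rw [← bool3 (h.adj_ty hR hY h6) (h.adj_ty hL hY h7.symm)]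
      exact h.adj_ty hQ hR ha
    rwa [h.eq_of_two hY hW hR hL h8.symm h6 h7.symm h12 h10]

theorem el_axis {g : G} (hg : g • N = N) (h2 : g * g = 1) (hQ : Vx q N Q) (hR : Vx q N R) (ha : Adj Q R)
    (h3 : g • Q = Q) (h4 : g • R = R) (h5 : ∀ z ∈ Q, z ∈ R → g * z = z * g) :
    ∃ s ∈ N, s * s = 1 ∧ Tr q N (s * g) := by
  obtain ⟨S, hS, -, h6⟩ := h.axis hg h2 hQ hR ha h3 h4 h5
  obtain ⟨s, h7, h8⟩ := h.elation hg h2 hS h6
  exact ⟨s, hS.le h7, hS.sq s h7, h8⟩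

theorem elZ {g : G} (hg : g • N = N) (hQ : Vx q N Q) (hR : Vx q N R) (ha : Adj Q R)
    (h1 : ∀ Y, Vx q N Y → Adj Q Y → g • Y = Y) (h2 : ∀ Y, Vx q N Y → Adj R Y → g • Y = Y) :
    ∃ z ∈ Q, z ∈ R ∧ Tr q N (z * g) := by
  obtain ⟨X, hX, h3, h4⟩ := h.exists_opp hR
  have h5 : X ≠ Q := fun e => h4 (e ▸ ha.symm)
  obtain ⟨S, hS, h6, h7⟩ := h.join hX hQ (bool3 h3.symm (h.adj_ty hQ hR ha)) h5
  obtain ⟨z, h8, h9, e⟩ := h.transZ hQ hR hS ha h7 (fun e => h4 (e ▸ h6.symm)) (hX.smul hg) hX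
    (h1 S hS h7 ▸ h6.symm.smul g) h6.symm (fun e => h5 (smul_left_cancel g (e.trans (h2 Q hQ ha.symm).symm))) h5
  refine ⟨z, h8, h9, h.cc2 (col_smul (by rw [mul_smul, hg, cj_self (hQ.le h8)])) hQ hR hX ha h3 h4
    (fun Y hY h10 => ?_) (fun Y hY h10 => ?_) (by rw [mul_smul, e])⟩
  · rw [mul_smul, h1 Y hY h10, h.fix_adj hQ hY h10 h8]
  · rw [mul_smul, h2 Y hY h10, h.fix_adj hR hY h10 h9]

theorem trans_nbr (hS : Vx q N S) {X Y : Subgroup G} (hX : Vx q N X) (hY : Vx q N Y) (h1 : Adj S X)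
    (h2 : Adj S Y) : ∃ n ∈ N, n • S = S ∧ n • X = Y := by
  obtain ⟨Q, hQ, h3, h4, h5⟩ := h.exists_nbr hS X Y
  obtain ⟨R, hR, h6, h7, -⟩ := h.exists_nbr hQ S S
  obtain ⟨z, h8, -, e⟩ := h.transZ hQ hR hS h6 h3.symm h7 hX hY h1 h2 h4.symm h5.symm
  exact ⟨z, hQ.le h8, h.fix_adj hQ hS h3.symm h8, e⟩

theorem trans_ty (hQ : Vx q N Q) (hR : Vx q N R) (e : ty Q = ty R) : ∃ n ∈ N, n • Q = R := by
  by_cases e' : Q = R
  · exact ⟨1, N.one_mem, by simp [e']⟩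
  obtain ⟨S, hS, h1, h2⟩ := h.join hQ hR e e'
  obtain ⟨n, h3, -, h4⟩ := h.trans_nbr hS hQ hR h1.symm h2.symm
  exact ⟨n, h3, h4⟩

theorem trans_flag (hQ : Vx q N Q) (hR : Vx q N R) (hS : Vx q N S) (hT : Vx q N T) (h1 : Adj Q R) (h2 : Adj S T)
    (e : ty Q = ty S) : ∃ n ∈ N, n • Q = S ∧ n • R = T := by
  obtain ⟨n, h3, rfl⟩ := h.trans_ty hQ hS e
  obtain ⟨m, h4, h5, h6⟩ := h.trans_nbr hS (hR.smul_mem h3) hT (h1.smul n) h2
  exact ⟨m * n, N.mul_mem h4 h3, by rw [mul_smul, h5], by rw [mul_smul, h6]⟩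

theorem conj_aux (hQ : Vx q N Q) (hR : Vx q N R) (ha : Adj Q R) {s t : G} (h1 : s ∈ Q) (h2 : s ∈ R) (h3 : s ≠ 1)
    (h4 : t ∈ Q) (h5 : t ∉ R) : ∃ n ∈ N, n * s * n⁻¹ = t := by
  have h6 : t * s ∉ R := fun e => h5 (by simpa using R.mul_mem e (R.inv_mem h2))
  obtain ⟨S, hS, h7, h8⟩ := h.other hQ (t := t * s) (fun e => h6 (e ▸ R.one_mem)) (Q.mul_mem h4 h1)
  obtain ⟨r, h9, e⟩ := h.cover hQ hS h7 h1 (fun h9 => by
    rcases h.two hQ hR hS h3 h1 h2 h9 ha.1 with e | e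
    · exact h7.1 e.symm
    · exact h6 (e ▸ h8)) (Q.mul_mem h4 h1) h8
  exact ⟨r, hS.le h9, by rw [e, mul_assoc, hQ.sq s h1, mul_one]⟩

theorem conj_inv {s t : G} (h1 : s ∈ N) (h2 : s * s = 1) (h3 : s ≠ 1) (h4 : t ∈ N) (h5 : t * t = 1) (h6 : t ≠ 1) :
    ∃ n ∈ N, n * s * n⁻¹ = t := by
  obtain ⟨Q, R, hQ, hR, h7, h8, h9, e⟩ := h.inv_ty h1 h2 h3 true
  obtain ⟨S, T, hS, hT, h10, h11, h12, e'⟩ := h.inv_ty h4 h5 h6 true
  obtain ⟨n, h13, rfl, rfl⟩ := h.trans_flag hQ hR hS hT h7 h10 (e.trans e'.symm)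
  obtain ⟨w, h14, h15⟩ := h.exists_notMem hQ hR h7.1
  obtain ⟨a, h16, h17⟩ := h.conj_aux hQ hR h7 h8 h9 h3 h14 h15
  obtain ⟨b, h18, h19⟩ := h.conj_aux hQ hR h7 h11 h12 (by simpa [mul_assoc, inv_mul_eq_one] using h6) h14 h15
  refine ⟨n * b⁻¹ * a, N.mul_mem (N.mul_mem h13 (N.inv_mem h18)) h16, ?_⟩
  calc n * b⁻¹ * a * s * (n * b⁻¹ * a)⁻¹ = n * b⁻¹ * (a * s * a⁻¹) * b * n⁻¹ := by group
    _ = t := by rw [h17, ← h19]; group

theorem mem_flag (hQ : Vx q N Q) (hR : Vx q N R) (ha : Adj Q R) {t : G} (h1 : t ∈ N) (h2 : t * t = 1)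
    (h3 : t • Q = Q) (h4 : t • R = R) : t ∈ Q ∨ t ∈ R := by
  by_cases e : t = 1
  · exact Or.inl (e ▸ Q.one_mem)
  obtain ⟨A, B, hA, hB, h5, h6, h7, e'⟩ := h.inv_ty h1 h2 e (ty Q)
  rcases h.uniq hA hQ hB hR h5 (h.fix_ty hA hB hQ e h6 h7 h5.1 h3 e').symm (h.fix_ty hB hA hR e h7 h6 h5.1.symm h4
    (bool3 (h.adj_ty hB hA h5.symm) (e' ▸ h.adj_ty hR hQ ha.symm))) ha with e | e
  · exact Or.inl (e ▸ h6)
  · exact Or.inr (e ▸ h7)

theorem mem_nbr (hQ : Vx q N Q) {t : G} (h1 : t ∈ N) (h2 : t * t = 1) (h3 : t • Q = Q) :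
    ∃ R, Vx q N R ∧ Adj Q R ∧ t ∈ R := by
  by_cases e : t = 1
  · obtain ⟨R, hR, h4, -⟩ := h.exists_nbr hQ Q Q
    exact ⟨R, hR, h4, e ▸ R.one_mem⟩
  obtain ⟨A, B, hA, hB, h5, h6, h7, e'⟩ := h.inv_ty h1 h2 e (ty Q)
  exact ⟨B, hB, (h.fix_ty hA hB hQ e h6 h7 h5.1 h3 e').symm, h7⟩

theorem all_nbrs {M : Subgroup G} (hT : Vx q N T) {X Y : Subgroup G} (hX : Vx q N X) (hY : Vx q N Y) (hne : X ≠ Y)
    (h1 : Adj T X) (h2 : Adj T Y) (h3 : X ≤ M) (h4 : Y ≤ M) : ∀ Z, Vx q N Z → Adj T Z → Z ≤ M := by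
  intro Z hZ h5
  by_cases e : Z = X
  · exact e ▸ h3
  obtain ⟨R, hR, h6, h7, -⟩ := h.exists_nbr hX T T
  obtain ⟨z, h8, -, rfl⟩ := h.transZ hX hR hT h6 h1.symm h7 hY hZ h2 h5 hne.symm e
  exact (cj_mono h4).trans (cj_self (h3 h8)).le

theorem le_of_four {M Q' R' : Subgroup G} (hQ : Vx q N Q) (hQ' : Vx q N Q') (hR : Vx q N R) (hR' : Vx q N R')
    (e1 : ty Q = ty Q') (e2 : ty R = ty R') (e3 : ty Q ≠ ty R) (n1 : Q ≠ Q') (n2 : R ≠ R') (h1 : Q ≤ M)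
    (h2 : Q' ≤ M) (h3 : R ≤ M) (h4 : R' ≤ M) : N ≤ M := by
  obtain ⟨T, hT, h5, h6⟩ := h.join hQ hQ' e1 n1
  have h7 := h.all_nbrs hT hQ hQ' n1 h5.symm h6.symm h1 h2
  obtain ⟨X, hX, h8, h9, h10⟩ : ∃ X, Vx q N X ∧ X ≤ M ∧ X ≠ T ∧ ty Q ≠ ty X := by
    by_cases e : R = T
    · exact ⟨R', hR', h4, e ▸ n2.symm, e2 ▸ e3⟩
    · exact ⟨R, hR, h3, e, e3⟩
  obtain ⟨C, hC, h11, h12⟩ := h.join hX hT (bool3 h10.symm (h.adj_ty hT hQ h5.symm)) h9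
  obtain ⟨A, hA, h13, h14, -⟩ := h.exists_nbr hT C C
  have s1 : ∀ Z, Vx q N Z → ty Z = ty Q → ¬ Adj X Z → Z ≤ M := by
    intro Z hZ e h15
    obtain ⟨s, h16, rfl⟩ := h.transOpp hX hA hZ (by
      rw [bool3 (h.adj_ty hA hT h13.symm) (h.adj_ty hQ hT h5)]; exact h10.symm) (e ▸ h10.symm)
      (fun h16 => h14 (h.eq_of_two hA hC hX hT h9 h16 h13 h11 h12)) h15
    exact (cj_mono (h7 A hA h13)).trans (cj_self (h8 h16)).le
  refine h.gen M fun t h15 h16 => ?_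
  by_cases e : t = 1
  · exact e ▸ M.one_mem
  obtain ⟨Z, -, hZ, -, -, h17, -, e'⟩ := h.inv_ty h15 h16 e (ty Q)
  by_cases h18 : Adj X Z
  · obtain ⟨L, hL, h19, h20, -⟩ := h.exists_nbr hZ X X
    obtain ⟨Y, hY, h21, h22, -⟩ := h.exists_nbr hL Z Z
    obtain ⟨Y', hY', h23, h24, h25⟩ := h.exists_nbr hL Z Y
    refine h.all_nbrs hL hY hY' h25.symm h21 h23 (s1 Y hY ?_ fun h26 => h22 ?_) (s1 Y' hY' ?_ fun h26 => h24 ?_)
      Z hZ h19.symm h17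
    · exact (bool3 (h.adj_ty hY hL h21.symm) (h.adj_ty hZ hL h19)).trans e'
    · exact h.eq_of_two hY hZ hX hL h20.symm h26 h21 h18 h19.symm
    · exact (bool3 (h.adj_ty hY' hL h23.symm) (h.adj_ty hZ hL h19)).trans e'
    · exact h.eq_of_two hY' hZ hX hL h20.symm h26 h23 h18 h19.symm
  · exact s1 Z hZ e' h18 h17

theorem classify_aux {M : Subgroup G} (hQ : Vx q N Q) (hR : Vx q N R) (ha : Adj Q R) (h1 : Q ≤ M) (h2 : R ≤ M)
    (h3 : ∀ T, Vx q N T → T ≤ M → ty T = ty Q → T = Q) :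
    (∀ T, Vx q N T → T ≤ M → T = Q ∨ T = R) ∨ ∀ T, Vx q N T → (T ≤ M ↔ T = Q ∨ Adj Q T) := by
  have key : ∀ T, Vx q N T → T ≤ M → T = Q ∨ Adj Q T := by
    intro T hT h4
    by_cases e : ty T = ty Q
    · exact Or.inl (h3 T hT h4 e)
    refine Or.inr (by_contra fun h5 => ?_)
    obtain ⟨s, h6, h7⟩ := h.exists_ne_one hT
    exact h7 (h.semireg hT hQ e (fun h8 => h5 h8.symm) h6 (h3 _ (hQ.smul_mem (hT.le h6))
      ((cj_mono h1).trans (cj_self (h4 h6)).le) (h.ty_N hQ (hT.le h6))))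
  by_cases hc : ∀ T, Vx q N T → T ≤ M → T = Q ∨ T = R
  · exact Or.inl hc
  push Not at hc
  obtain ⟨X, hX, h4, h5, h6⟩ := hc
  refine Or.inr fun T hT => ⟨key T hT, ?_⟩
  rintro (rfl | h7)
  · exact h1
  · exact h.all_nbrs hQ hX hR h6 ((key X hX h4).resolve_left h5) ha h4 h2 T hT h7

theorem classify {M : Subgroup G} (hQ : Vx q N Q) (hR : Vx q N R) (ha : Adj Q R) (h1 : Q ≤ M) (h2 : R ≤ M)
    (h3 : ¬ N ≤ M) : (∀ T, Vx q N T → T ≤ M → T = Q ∨ T = R) ∨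
      ∃ P, Vx q N P ∧ ∀ T, Vx q N T → (T ≤ M ↔ T = P ∨ Adj P T) := by
  by_cases c1 : ∀ T, Vx q N T → T ≤ M → ty T = ty Q → T = Q
  · exact (h.classify_aux hQ hR ha h1 h2 c1).imp_right fun h4 => ⟨Q, hQ, h4⟩
  by_cases c2 : ∀ T, Vx q N T → T ≤ M → ty T = ty R → T = R
  · exact (h.classify_aux hR hQ ha.symm h2 h1 c2).imp (fun h4 T hT h5 => (h4 T hT h5).symm) fun h4 => ⟨R, hR, h4⟩
  push Not at c1 c2
  obtain ⟨Q', h4, h5, h6, h7⟩ := c1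
  obtain ⟨R', h8, h9, h10, h11⟩ := c2
  exact absurd (h.le_of_four hQ h4 hR h8 h6.symm h10.symm (h.adj_ty hQ hR ha) h7.symm h11.symm h1 h5 h2 h9) h3

theorem polar {g : G} (hg : g • N = N) (h2 : g * g = 1) (hQ : Vx q N Q) (hR : Vx q N R) (ha : Adj Q R)
    (h3 : g • Q = R) (h5 : ∀ z ∈ Q, z ∈ R → g * z = z * g) :
    {C | Vx q N C ∧ ty C = ty Q ∧ Adj C (g • C)}.ncard ≤ q + 1 := by
  have key : ∀ A B, Vx q N A → Vx q N B → Adj A (g • A) → Adj B (g • B) → Adj A (g • B) → A = B := by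
    intro A B hA hB h6 h7 h8
    rcases h.uniq hA hB (hA.smul hg) (hB.smul hg) h6 (by simpa [← mul_smul, h2] using h8.symm.smul g) h8 h7
      with e | e
    · exact e
    · exact smul_left_cancel g e
  have hQ' : Adj Q (g • Q) := h3 ▸ ha
  obtain ⟨L, hL, h6⟩ : ∃ L, Vx q N L ∧ ∀ C, Vx q N C → ty C = ty Q → Adj C (g • C) → Adj L C := by
    by_cases hc : ∀ C, Vx q N C → ty C = ty Q → Adj C (g • C) → C = Q
    · exact ⟨R, hR, fun C hC h6 h7 => hc C hC h6 h7 ▸ ha.symm⟩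
    push Not at hc
    obtain ⟨A, hA, h6, h7, h8⟩ := hc
    obtain ⟨L, hL, h9, h10⟩ := h.join hA hQ h6 h8
    refine ⟨L, hL, fun C hC h11 h12 => ?_⟩
    by_cases e : C = Q
    · exact e ▸ h10.symm
    obtain ⟨L', hL', h13, h14⟩ := h.join hC hQ h11 e
    have h15 : ¬ Adj Q (g • A) := fun h15 => h8 (key Q A hQ hA hQ' h7 h15).symm
    obtain ⟨W, hW, h16, h17⟩ := h.join (hA.smul hg) hL' (bool3 (h.adj_ty (hA.smul hg) hA h7.symm)
      (h6 ▸ h.adj_ty hL' hQ h14.symm)) fun e => h15 (e ▸ h14)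
    obtain ⟨z, h18, h19, rfl⟩ := h.transZ hQ hR hL' ha h14 (fun e' => e (key C Q hC hQ h12 hQ' (h3 ▸ e' ▸ h13)))
      hC hW h13.symm h17 e fun e => h15 (e ▸ h16.symm)
    have h20 := key _ A hW hA (by rw [← mul_smul, h5 z h18 h19, mul_smul]; exact h12.smul z) h7 h16.symm
    rw [h.eq_of_two hL hL' hA hQ h8 h9 h10 (h20 ▸ h17.symm) h14]
    exact h13.symm
  rw [← h.nbr_card hL]
  exact Set.ncard_le_ncard fun C hC => ⟨hC.1, h6 C hC.1 hC.2.1 hC.2.2⟩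

theorem ty_card (hQ : Vx q N Q) : {R | Vx q N R ∧ ty R = ty Q}.ncard = q ^ 2 + q + 1 := by
  have e := ncard_rel (fun R S : Subgroup G => Adj R S) {R | Vx q N R ∧ ty R = ty Q ∧ R ≠ Q}
    {S | Vx q N S ∧ Adj Q S} q
    (fun R hR => by
      obtain ⟨S, h1, h2, h3⟩ := h.join hR.1 hQ hR.2.1 hR.2.2
      exact ⟨S, ⟨h1, h3⟩, h2⟩)
    (fun R hR S hS T hT h1 h2 => h.eq_of_two hS.1 hT.1 hR.1 hQ hR.2.2 h1 hS.2 h2 hT.2)
    (fun S hS => by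
      refine Eq.trans ?_ (h.nbr_card' hQ hS.1 hS.2.symm)
      congr 1
      ext R
      exact ⟨fun hR => ⟨hR.1.1, hR.2.symm, hR.1.2.2⟩, fun hR => ⟨⟨hR.1,
        bool3 (h.adj_ty hR.1 hS.1 hR.2.1.symm) (h.adj_ty hQ hS.1 hS.2), hR.2.2⟩, hR.2.1.symm⟩⟩)
  rw [h.nbr_card hQ] at e
  rw [← Set.ncard_sdiff_singleton_add_one (s := {R | Vx q N R ∧ ty R = ty Q}) (a := Q) ⟨hQ, rfl⟩,
    show q ^ 2 + q = (q + 1) * q by ring, ← e]
  congr 2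
  ext R
  simp [and_assoc]

end Pl

end Cfsg.Agent.Hir
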