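import Cfsg.Agent.Hir.Ctx

/-! The action on flags does not occur. -/

set_option autoImplicit false

namespace Cfsg.Agent.Hir

open Subgroup MulAction

variable {G Ω : Type*} [Group G] [MulAction G Ω] [Finite G] [Finite Ω]
variable {q : ℕ} {N : Ω → Subgroup G} {ty : Ω → Subgroup G → Bool} {x y a b : Ω} {P Q R S T Q' R' : Subgroup G}

namespace Ctx

variable (c : Ctx q N ty)
include c

omit [Finite G] [Finite Ω] in
theorem flag_fix (h : FlagAt q N x y Q R) {g : G} (h1 : g • x = x) (h2 : g • y = y) :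
    (g • Q = Q ∧ g • R = R) ∨ (g • Q = R ∧ g • R = Q) := by
  have h3 := h.all _ (h.vQ.smul (c.norm h1)) (smul_le_of_fix h2 h.sQ)
  have h4 := h.all _ (h.vR.smul (c.norm h1)) (smul_le_of_fix h2 h.sR)
  have h5 := (h.adj.smul g).1
  grind

omit [Finite G] [Finite Ω] in
theorem flag_inf (h : FlagAt q N x y Q R) {g : G} (h1 : g • x = x) (h2 : g • y = y) : g • (Q ⊓ R) = Q ⊓ R := by
  rcases c.flag_fix h h1 h2 with e | e <;> rw [cj_inf, e.1, e.2, inf_comm]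

omit [Finite G] [Finite Ω] in
theorem flag_sup (h : FlagAt q N x y Q R) {g : G} (h1 : g • x = x) (h2 : g • y = y) : g • (Q ⊔ R) = Q ⊔ R := by
  rcases c.flag_fix h h1 h2 with e | e <;> rw [cj_sup, e.1, e.2, sup_comm]

theorem flag_mem' (h : FlagAt q N x y Q R) {t : G} (h1 : t ∈ N x) (h2 : t * t = 1) (h3 : t • y = y) :
    t ∈ Q ∨ t ∈ R := c.flag_mem h h1 h2 fun _ _ h4 => smul_le_of_fix h3 h4

theorem inf_le_aux (h : FlagAt q N a b Q R) (h' : FlagAt q N b a Q' R') {z : G} (h1 : z ∈ Q ⊓ R) (h2 : z ∈ Q')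
    (h3 : z ∉ R') : Q' ⊓ R' ≤ Q ⊓ R := by
  intro w hw
  obtain ⟨s, h4, e⟩ := (c.pl b).cover h'.vQ h'.vR h'.adj h2 h3 hw.1 hw.2
  have := conj_mem_of_fix (c.flag_inf h (h'.sR h4) (c.vx_le h'.vR h4)) h1
  rwa [e, (Q ⊓ R).mul_mem_cancel_right h1] at this

theorem inf_eq_of_le (h : FlagAt q N a b Q R) (h' : FlagAt q N b a Q' R') (h1 : Q ⊓ R ≤ N b) :
    Q ⊓ R = Q' ⊓ R' := by
  have e1 := (c.pl a).card_inf h.vQ h.vR h.adj
  have e2 := (c.pl b).card_inf h'.vQ h'.vR h'.adj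
  by_cases hc : Q ⊓ R ≤ Q' ⊓ R'
  · exact eq_of_le_of_card_ge hc (e2.trans e1.symm).le
  obtain ⟨z, h2, h3⟩ := SetLike.not_le_iff_exists.1 hc
  refine (eq_of_le_of_card_ge ?_ (e1.trans e2.symm).le).symm
  rcases c.flag_mem' h' (h1 h2) (h.vQ.sq z h2.1) (c.vx_le h.vQ h2.1) with h4 | h4
  · exact c.inf_le_aux h h' h2 h4 fun h5 => h3 ⟨h4, h5⟩
  · exact inf_comm Q' R' ▸ c.inf_le_aux h h'.symm h2 h4 fun h5 => h3 ⟨h5, h4⟩

theorem inf_le_of_mem (h : FlagAt q N a b Q R) {d : G} (h1 : d ∈ Q ⊔ R) (h2 : d ∈ N b) (h3 : d ∉ Q ⊓ R) :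
    Q ⊓ R ≤ N b := by
  have key : ∀ z r, r ∈ stabilizer G b → r * d * r⁻¹ = z * d → z ∈ N b := fun z r h4 e => by
    have := conj_mem_of_fix (c.norm h4) h2
    rwa [e, (N b).mul_mem_cancel_right h2] at this
  have h4 := coe_mul_of_right_le_normalizer_left Q R fun t ht =>
    mem_normalizer_iff.2 fun z => by rw [← cj_mem (g := t), (c.pl a).fix_adj h.vR h.vQ h.adj.symm ht]
  obtain ⟨s, h5, t, h6, e⟩ := (Set.ext_iff.1 h4 d).1 h1
  obtain rfl : s * t = d := e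
  intro z hz
  by_cases h7 : s ∈ R
  · obtain ⟨r, h8, e⟩ := (c.pl a).cover h.vR h.vQ h.adj.symm h6 (fun h8 => h3 ⟨Q.mul_mem h5 h8, R.mul_mem h7 h6⟩)
      hz.2 hz.1
    refine key z r (h.sQ h8) ?_
    calc r * (s * t) * r⁻¹ = r * s * t * r⁻¹ := by group
      _ = s * (r * t * r⁻¹) := by rw [h.vQ.comm h8 h5]; group
      _ = z * (s * t) := by rw [e, ← mul_assoc, h.vQ.comm h5 hz.1, mul_assoc]
  · obtain ⟨r, h8, e⟩ := (c.pl a).cover h.vQ h.vR h.adj h5 h7 hz.1 hz.2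
    refine key z r (h.sR h8) ?_
    calc r * (s * t) * r⁻¹ = r * s * (t * r⁻¹) := by group
      _ = r * s * r⁻¹ * t := by rw [h.vR.comm h6 (R.inv_mem h8)]; group
      _ = z * (s * t) := by rw [e, mul_assoc]

theorem fix_nbr_or (h : FlagAt q N a b Q R) (h1 : (Q ⊔ R) ⊓ N b ≤ Q ⊓ R) {u : G} (h2 : u ∈ N b)
    (h3 : u • a = a) : Q ⊓ R ≤ N b ∨ ∀ C, Vx q (N a) C → Adj Q C → u • C = C := by
  have h4 : ∀ s ∈ Q, u * s * u⁻¹ * s⁻¹ ∈ N b := fun s hs => by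
    have := (N b).mul_mem h2 (conj_mem_of_fix (c.norm (h.sQ hs)) ((N b).inv_mem h2))
    simpa [mul_assoc] using this
  have h5 : ∀ s ∈ Q, u * s * u⁻¹ * s⁻¹ ∈ Q ⊓ R := fun s hs => h1 ⟨(Q ⊔ R).mul_mem
    (conj_mem_of_fix (c.flag_sup h h3 (c.fix b h2)) (mem_sup_left hs)) (mem_sup_left (Q.inv_mem hs)), h4 s hs⟩
  have h6 : u • Q = Q := cj_eq_of_le fun s hs => (Q.mul_mem_cancel_right (Q.inv_mem hs)).1 (h5 s hs).1
  by_cases hc : ∀ C, Vx q (N a) C → Adj Q C → u • C = C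
  · exact Or.inr hc
  push Not at hc
  obtain ⟨C, hC, h7, h8⟩ := hc
  refine Or.inl fun z hz => ?_
  obtain ⟨s, hs, rfl⟩ := surj_of_inj (fun s : G => u * s * u⁻¹ * s⁻¹) (s := (Q ⊓ C : Subgroup G))
    (t := (Q ⊓ R : Subgroup G)) (fun s hs => h5 s hs.1)
    (fun s hs t ht e => by
      by_contra h9
      refine h8 ((c.pl a).fix_of_comm h.vQ hC (c.norm h3) (z := t⁻¹ * s) (fun e => h9 (inv_mul_eq_one.1 e).symm)
        (Q.mul_mem (Q.inv_mem ht.1) hs.1) (C.mul_mem (C.inv_mem ht.2) hs.2) h7.1 ?_ h6)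
      have e1 : u * s * u⁻¹ = u * t * u⁻¹ * t⁻¹ * s := by rw [← e]; group
      calc u * (t⁻¹ * s) = (u * t * u⁻¹)⁻¹ * (u * s * u⁻¹) * u := by group
        _ = t⁻¹ * s * u := by rw [e1]; group)
    (by rw [← Nat.card_coe_set_eq, ← Nat.card_coe_set_eq, SetLike.coe_sort_coe, SetLike.coe_sort_coe,
      (c.pl a).card_inf h.vQ h.vR h.adj, (c.pl a).card_inf h.vQ hC h7]) z hz
  exact h4 s hs.1

theorem inf_eq (hab : a ≠ b) (h : FlagAt q N a b Q R) (h' : FlagAt q N b a Q' R') : Q ⊓ R = Q' ⊓ R' := by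
  refine c.inf_eq_of_le h h' ?_
  by_cases h1 : (Q ⊔ R) ⊓ N b ≤ Q ⊓ R
  swap
  · obtain ⟨d, h2, h3⟩ := SetLike.not_le_iff_exists.1 h1
    exact c.inf_le_of_mem h h2.1 h2.2 h3
  by_contra h2
  have h3 : ∀ u ∈ N b, u • a = a → ∃ z ∈ Q, ∀ T, Vx q (N a) T → u • T = z • T := fun u h3 h4 => by
    obtain ⟨z, h5, -, h6⟩ := (c.pl a).elZ (c.norm h4) h.vQ h.vR h.adj ((c.fix_nbr_or h h1 h3 h4).resolve_left h2)
      ((c.fix_nbr_or h.symm (by rwa [sup_comm, inf_comm R]) h3 h4).resolve_left (by rwa [inf_comm R]))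
    exact ⟨z, h5, fun T hT => by rw [← h.vQ.inv_eq h5, eq_inv_smul_iff, ← mul_smul, h6 T hT]⟩
  have h4 : ∀ z ∈ Q' ⊓ R', Tr q (N a) z := fun z hz T hT => by
    obtain ⟨w, h4, h5⟩ := (c.pl b).exists_notMem h'.vQ h'.vR h'.adj.1
    obtain ⟨s, h6, e⟩ := (c.pl b).cover h'.vQ h'.vR h'.adj h4 h5 hz.1 hz.2
    obtain ⟨z1, h7, h8⟩ := h3 w (h'.vQ.le h4) (h'.sQ h4)
    obtain ⟨z2, h9, h10⟩ := h3 s (h'.vR.le h6) (h'.sR h6)
    have h11 : (w * s)⁻¹ • N a = N a := c.norm ((stabilizer G a).inv_mem (mul_mem (h'.sQ h4) (h'.sR h6)))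
    have h12 := hT.smul h11
    obtain ⟨T, rfl⟩ : ∃ T', (w * s) • T' = T := MulAction.surjective (w * s) T
    rw [inv_smul_smul] at h12
    rw [← mul_smul, ← mul_assoc, ← e, inv_mul_cancel_right, mul_smul, mul_smul, h8 T h12, h10 T h12,
      h10 _ (h12.smul_mem (h.vQ.le h7)), h8 _ (h12.smul_mem (h.vQ.le h9)), ← mul_smul, ← mul_smul, h.vQ.comm h7 h9]
  obtain ⟨z, h5, h6⟩ := h'.adj.2
  obtain ⟨t, h7, h8, h9, h10⟩ := c.common hab (h'.vQ.le h6.1) (h'.vQ.sq z h6.1) h5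
    ((c.pl a).comm_of_tr (h4 z h6)) hab
  have h11 : t ∈ Q ⊓ R := h1 ⟨(c.flag_mem' h h9 h8 (c.fix b h10)).elim mem_sup_left mem_sup_right, h10⟩
  by_cases h12 : t ∈ Q' ⊓ R'
  · exact h7 ((c.pl a).eq_one_of_tr h9 (h4 t h12))
  refine h5 ((c.pl a).eq_one_of_tr (h.vQ.le (And.left (b := z ∈ R) ?_)) (h4 z h6))
  rcases c.flag_mem' h' h10 h8 (c.fix a h9) with h13 | h13
  · exact c.inf_le_aux h h' h11 h13 (fun h14 => h12 ⟨h13, h14⟩) h6
  · exact c.inf_le_aux h h'.symm h11 h13 (fun h14 => h12 ⟨h14, h13⟩) h6.symm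

variable (hB : ∀ x y : Ω, x ≠ y → ∃ Q R, FlagAt q N x y Q R)
include hB

theorem exists_mB (a : Ω) : ∃ m, 1 ≤ m ∧ ∀ x Q R, Vx q (N x) Q → Vx q (N x) R → Adj Q R →
    {y | y ≠ x ∧ FlagAt q N x y Q R}.ncard = m := by
  obtain ⟨b, hab⟩ := c.exists_ne a
  obtain ⟨Q, R, h⟩ := hB a b hab
  refine ⟨{y | y ≠ a ∧ FlagAt q N a y Q R}.ncard, (Set.ncard_pos).2 ⟨b, hab.symm, h⟩, fun x S T hS hT h1 => ?_⟩
  obtain ⟨g, rfl⟩ := c.trans a x
  obtain ⟨S, rfl⟩ := MulAction.surjective g S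
  obtain ⟨T, rfl⟩ := MulAction.surjective g T
  rw [c.vx_smul_iff] at hS hT
  rw [adj_smul] at h1
  have key : ∀ S T, Vx q (N a) S → Vx q (N a) T → Adj S T → ty a Q = ty a S →
      {y | y ≠ g • a ∧ FlagAt q N (g • a) y (g • S) (g • T)}.ncard = {y | y ≠ a ∧ FlagAt q N a y Q R}.ncard := by
    intro S T hS hT h1 e
    obtain ⟨n, h2, rfl, rfl⟩ := (c.pl a).trans_flag h.vQ h.vR hS hT h.adj h1 e
    have h3 : g • a = (g * n) • a := by rw [mul_smul, show n • a = a from c.fix a h2]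
    refine (ncard_smul (g * n) _ _ fun y => ?_).symm
    simp only [Set.mem_ofPred_eq, h3, ← mul_smul, ne_eq, smul_left_cancel_iff]
    exact and_congr_right fun _ => ⟨fun h4 => by simpa only [inv_smul_smul] using c.flag_smul h4 (g * n)⁻¹,
      fun h4 => c.flag_smul h4 _⟩
  by_cases e : ty a Q = ty a S
  · exact key S T hS hT h1 e
  · rw [← key T S hT hS h1.symm (bool3 e ((c.pl a).adj_ty hT hS h1.symm))]
    congr 1
    ext y
    exact and_congr_right fun _ => ⟨FlagAt.symm, FlagAt.symm⟩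

theorem flag_of_le (h : y ≠ x) (hQ : Vx q (N x) Q) (h1 : Q ≤ stabilizer G y) : ∃ R, FlagAt q N x y Q R := by
  obtain ⟨S, T, h2⟩ := hB x y h.symm
  rcases h2.all Q hQ h1 with rfl | rfl
  · exact ⟨T, h2⟩
  · exact ⟨S, h2.symm⟩

theorem fix_or (hQ : Vx q (N x) Q) (hR : Vx q (N x) R) (hne : Q ≠ R) {t : G} (h1 : t ≠ 1) (h2 : t ∈ Q) (h3 : t ∈ R)
    (h4 : t • y = y) : Q ≤ stabilizer G y ∨ R ≤ stabilizer G y := by
  by_cases e : x = y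
  · exact Or.inl (e ▸ c.vx_le hQ)
  obtain ⟨S, T, h5⟩ := hB x y e
  rcases c.flag_mem' h5 (hQ.le h2) (hQ.sq t h2) h4 with h6 | h6
  · rcases (c.pl x).two hQ hR h5.vQ h1 h2 h3 h6 hne with rfl | rfl
    exacts [Or.inl h5.sQ, Or.inr h5.sQ]
  · rcases (c.pl x).two hQ hR h5.vR h1 h2 h3 h6 hne with rfl | rfl
    exacts [Or.inl h5.sR, Or.inr h5.sR]

variable {m : ℕ} (hm : ∀ x Q R, Vx q (N x) Q → Vx q (N x) R → Adj Q R →
    {y | y ≠ x ∧ FlagAt q N x y Q R}.ncard = m)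
include hm

theorem cntA (hQ : Vx q (N x) Q) (hR : Vx q (N x) R) (ha : Adj Q R) :
    {y : Ω | Q ≤ stabilizer G y ∧ ¬ R ≤ stabilizer G y}.ncard = q * m := by
  rw [← (c.pl x).nbr_card' hR hQ ha]
  refine ncard_rel (fun y T => FlagAt q N x y Q T) _ _ m (fun y hy => ?_) (fun y _ S hS T hT h1 h2 => ?_)
    fun T hT => ?_
  · obtain ⟨T, h1⟩ := c.flag_of_le hB (fun e : y = x => hy.2 (e ▸ c.vx_le hR)) hQ hy.1
    exact ⟨T, ⟨h1.vR, h1.adj, fun e => hy.2 (e ▸ h1.sR)⟩, h1⟩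
  · exact ((h1.all T h2.vR h2.sR).resolve_left hT.2.1.1.symm).symm
  · rw [← hm x Q T hQ hT.1 hT.2.1]
    congr 1
    ext y
    refine and_congr_left fun h1 => ⟨fun h2 e => h2.2 (e ▸ c.vx_le hR), fun _ => ⟨h1.sQ, fun h2 => ?_⟩⟩
    exact (h1.all R hR h2).elim ha.1.symm hT.2.2.symm

theorem cntB (hQ : Vx q (N x) Q) (hR : Vx q (N x) R) (ha : Adj Q R) :
    {y : Ω | Q ≤ stabilizer G y ∧ R ≤ stabilizer G y}.ncard = m + 1 := by
  rw [← hm x Q R hQ hR ha, ← Set.ncard_insert_of_notMem (a := x) (by simp)]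
  congr 1
  ext y
  by_cases e : y = x
  · simp [e, c.vx_le hQ, c.vx_le hR]
  simp only [Set.mem_ofPred_eq, Set.mem_insert_iff, e, false_or, ne_eq, not_false_eq_true, true_and]
  refine ⟨fun h1 => ?_, fun h1 => ⟨h1.sQ, h1.sR⟩⟩
  obtain ⟨T, h2⟩ := c.flag_of_le hB e hQ h1.1
  exact (h2.all R hR h1.2).resolve_left ha.1.symm ▸ h2

theorem no_polar (hm1 : 1 ≤ m) (hQ : Vx q (N a) Q) (hR : Vx q (N a) R) (ha : Adj Q R) {t : G} (h1 : t ∈ N b)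
    (h2 : t * t = 1) (h3 : t • a = a) (h4 : t • Q = R) (h5 : ∀ z ∈ Q, z ∈ R → t * z = z * t) : False := by
  have h6 := (c.pl a).polar (c.norm h3) h2 hQ hR ha h4 h5
  have h7 := ncard_rel (fun y C => FlagAt q N a y C (t • C))
    {y | y ≠ a ∧ ∃ C, ty a C = ty a Q ∧ FlagAt q N a y C (t • C)}
    {C | Vx q (N a) C ∧ ty a C = ty a Q ∧ Adj C (t • C)} m
    (fun y ⟨_, C, h8, h9⟩ => ⟨C, ⟨h9.vQ, h8, h9.adj⟩, h9⟩)
    (fun y _ S hS T hT h1 h2 => ((h1.all T h2.vQ h2.sQ).resolve_right fun e => (c.pl a).adj_ty h1.vQ h1.vR h1.adj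
      (e ▸ hS.2.1.trans hT.2.1.symm)).symm)
    fun C hC => by
      rw [← hm a C _ hC.1 (hC.1.smul (c.norm h3)) hC.2.2]
      congr 1
      ext y
      exact and_congr_left fun h8 => and_iff_left ⟨C, hC.2.1, h8⟩
  obtain ⟨z, h8, h9, h10⟩ := ha.2
  have h11 := c.card_fix (hQ.le h9) (hQ.sq z h9) h8 h1 h2 (fun e => ha.1 (by simpa [e] using h4))
  have h12 : {y : Ω | t • y = y}.ncard ≤ (q + 1) * m + 1 := by
    refine le_trans ?_ (Nat.add_le_add_right (h7.le.trans (Nat.mul_le_mul_right m h6)) 1)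
    refine le_trans (Set.ncard_le_ncard fun y hy => ?_) (Set.ncard_insert_le a _)
    by_cases e : y = a
    · exact Or.inl e
    refine Or.inr ⟨e, ?_⟩
    have key : ∀ S T, FlagAt q N a y S T → t • S = T := fun S T h8 =>
      ((c.flag_fix h8 h3 hy).resolve_left fun e => (c.pl a).adj_ty hR hQ ha.symm
        (h4 ▸ (c.pl a).ty_fix h8.vQ hQ (c.norm h3) e.1)).1
    obtain ⟨S, T, h8⟩ := hB a y (Ne.symm e)
    by_cases e : ty a S = ty a Q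
    · exact ⟨S, e, (key S T h8).symm ▸ h8⟩
    · exact ⟨T, bool3 ((c.pl a).adj_ty h8.vR h8.vQ h8.adj.symm) (Ne.symm e), (key T S h8.symm).symm ▸ h8.symm⟩
  have h13 := Set.ncard_le_ncard (s := ({y : Ω | Q ≤ stabilizer G y ∧ ¬ R ≤ stabilizer G y} ∪
    {y : Ω | R ≤ stabilizer G y ∧ ¬ Q ≤ stabilizer G y}) ∪ {y : Ω | Q ≤ stabilizer G y ∧ R ≤ stabilizer G y})
    (t := {y : Ω | z • y = y}) (by rintro y ((h | h) | h); exacts [h.1 h9, h.1 h10, h.1 h9])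
  rw [Set.ncard_union_eq (by rw [Set.disjoint_left]; rintro y (h | h) h'; exacts [h.2 h'.2, h.2 h'.1]),
    Set.ncard_union_eq (by rw [Set.disjoint_left]; exact fun y h h' => h.2 h'.1), c.cntA hB hm hQ hR ha,
    c.cntA hB hm hR hQ ha.symm, c.cntB hB hm hQ hR ha] at h13
  have := (c.pl a).two_le
  nlinarith

theorem starB_aux (hm1 : 1 ≤ m) (hab : a ≠ b) (h' : FlagAt q N b a Q' R') {t : G} (h1 : t ∈ Q') : t ∈ N a := by
  obtain ⟨Q, R, h⟩ := hB a b hab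
  have e := c.inf_eq hab h h'
  have h2 : ∀ z ∈ Q, z ∈ R → t * z = z * t := fun z h2 h3 =>
    h'.vQ.comm h1 (And.left (b := z ∈ R') (e.le ⟨h2, h3⟩))
  have h3 := h'.vQ.sq t h1
  by_cases h4 : t ∈ R'
  · exact h.vQ.le (And.left (b := t ∈ R) (e.ge ⟨h1, h4⟩))
  rcases c.flag_fix h (h'.sQ h1) (c.vx_le h'.vQ h1) with h5 | h5
  swap
  · exact (c.no_polar hB hm hm1 h.vQ h.vR h.adj (h'.vQ.le h1) h3 (h'.sQ h1) h5.1 h2).elim
  obtain ⟨s, h6, h7, h8⟩ := (c.pl a).el_axis (c.norm (h'.sQ h1)) h3 h.vQ h.vR h.adj h5.1 h5.2 h2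
  by_cases h9 : s = 1
  · rw [h9, one_mul] at h8
    obtain ⟨z, h10, h11, h12⟩ := h'.adj.2
    obtain ⟨r, h13, e'⟩ := (c.pl b).cover h'.vQ h'.vR h'.adj h1 h4 h11 h12
    have h14 := (h8.conj (c.norm (h'.sR h13))).mul h8.inv
    rw [e', mul_inv_cancel_right] at h14
    exact (h10 ((c.pl a).eq_one_of_tr (h.vQ.le (And.left (b := z ∈ R) (e.ge ⟨h11, h12⟩))) h14)).elim
  · exact c.eq_of_tr h6 h7 h9 (h'.vQ.le h1) h3 (fun e => h4 (e ▸ R'.one_mem)) h8 ▸ h6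

theorem starB (hm1 : 1 ≤ m) : Star N := by
  intro b a t h1 h2 h3
  by_cases hab : a = b
  · exact hab ▸ h1
  obtain ⟨Q', R', h'⟩ := hB b a (Ne.symm hab)
  rcases c.flag_mem' h' h1 h2 h3 with h4 | h4
  · exact c.starB_aux hB hm hm1 hab h' h4
  · exact c.starB_aux hB hm hm1 hab h'.symm h4

omit hB hm in
theorem comm_two (hq : q = 2) (hQ : Vx q (N x) Q) (hR : Vx q (N x) R) (ha : Adj Q R) {t : G} (h1 : t ≠ 1)
    (h2 : t ∈ Q) (h3 : t ∈ R) : (∀ z ∈ Q, z ∈ R → z = 1 ∨ z = t) ∧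
      ∀ s ∈ Q, ∀ r ∈ R, s ≠ 1 → s ≠ t → r ≠ 1 → r ≠ t → s * r = t * r * s := by
  have h4 : ∀ z ∈ Q, z ∈ R → z = 1 ∨ z = t := fun z h4 h5 => by
    have h6 := (c.pl x).card_inf hQ hR ha
    rw [hq, Nat.card_eq_two_iff' (1 : ↥(Q ⊓ R))] at h6
    by_contra! h7
    exact h7.2 (congrArg Subtype.val (h6.unique (y₁ := ⟨z, h4, h5⟩) (y₂ := ⟨t, h2, h3⟩)
      (fun e => h7.1 (congrArg Subtype.val e)) fun e => h1 (congrArg Subtype.val e)))
  refine ⟨h4, fun s h5 r h6 h7 h8 h9 h10 => ?_⟩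
  have h11 := (c.pl x).noncomm hQ hR ha h5 (fun e => (h4 s h5 e).elim h7 h8) h6 fun e => (h4 r e h6).elim h9 h10
  rcases h4 (s * r * s⁻¹ * r⁻¹) (by
      have := Q.mul_mem h5 (conj_mem_of_fix ((c.pl x).fix_adj hR hQ ha.symm h6) (Q.inv_mem h5))
      simpa [mul_assoc] using this)
    (R.mul_mem (conj_mem_of_fix ((c.pl x).fix_adj hQ hR ha h5) h6) (R.inv_mem h6)) with e | e
  · exact absurd (by rw [mul_inv_eq_one, mul_inv_eq_iff_eq_mul] at e; exact e) h11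
  · rw [← e]; group

omit hm in
theorem not_typeB (a : Ω) : False := by
  obtain ⟨m, hm1, hm⟩ := c.exists_mB hB a
  have hS := c.starB hB hm hm1
  have hq := (c.pl a).two_le
  have hne : ∀ {x Q R}, Vx q (N x) Q → Vx q (N x) R → Adj Q R →
      ∃ y : Ω, Q ≤ stabilizer G y ∧ ¬ R ≤ stabilizer G y := fun hQ hR ha =>
    (Set.ncard_pos).1 ((c.cntA hB hm hQ hR ha).symm ▸ (by positivity))
  obtain ⟨Q1, h1⟩ := (c.pl a).ex
  obtain ⟨Q2, h2, h3, -⟩ := (c.pl a).exists_nbr h1 Q1 Q1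
  obtain ⟨t, h4, h5, h6⟩ := h3.2
  obtain ⟨y1, h7, h8⟩ := hne h1 h2 h3
  obtain ⟨y2, h9, h10⟩ := hne h2 h1 h3.symm
  have h11 := hS.vx h1 h7
  have h12 := hS.vx h2 h9
  obtain ⟨Q3, h13, h14, h15⟩ := (c.pl y1).other h11 h4 h5
  have h16 := hS.vx h13 ((c.fix_or hB h11 h13 h14.1 h4 h5 h15 (h9 h6)).resolve_left h10)
  have h17 : Adj Q2 Q3 := ⟨fun e => h8 (e ▸ c.vx_le h13), t, h4, h6, h15⟩
  have h18 := Set.ncard_le_ncard (s := {y : Ω | Q1 ≤ stabilizer G y ∧ ¬ Q2 ≤ stabilizer G y})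
    (t := {y : Ω | Q1 ≤ stabilizer G y ∧ Q3 ≤ stabilizer G y}) fun y hy =>
      ⟨hy.1, (c.fix_or hB h12 h16 h17.1 h4 h6 h15 (hy.1 h5)).resolve_left hy.2⟩
  rw [c.cntA hB hm h1 h2 h3, c.cntB hB hm h11 h13 h14] at h18
  have hq2 : q = 2 := by nlinarith
  have hm2 : q * m = 2 := by subst hq2; omega
  obtain ⟨a12, b12⟩ := c.comm_two hq2 h1 h2 h3 h4 h5 h6
  obtain ⟨a13, b13⟩ := c.comm_two hq2 h11 h13 h14 h4 h5 h15
  obtain ⟨a23, b23⟩ := c.comm_two hq2 h12 h16 h17 h4 h6 h15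
  obtain ⟨s1, h19, h20⟩ := (c.pl a).exists_notMem h1 h2 h3.1
  obtain ⟨s2, h21, h22⟩ := (c.pl a).exists_notMem h2 h1 h3.1.symm
  obtain ⟨s3, h23, h24⟩ := (c.pl y1).exists_notMem h13 h11 h14.1.symm
  have n1 : s1 ≠ 1 := fun e => h20 (e ▸ Q2.one_mem)
  have n2 : s1 ≠ t := fun e => h20 (e ▸ h6)
  have n3 : s2 ≠ 1 := fun e => h22 (e ▸ Q1.one_mem)
  have n4 : s2 ≠ t := fun e => h22 (e ▸ h5)
  have n5 : s3 ≠ 1 := fun e => h24 (e ▸ Q1.one_mem)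
  have n6 : s3 ≠ t := fun e => h24 (e ▸ h5)
  have e1 : s3 * (s1 * s2) = s1 * s2 * s3 := by
    calc s3 * (s1 * s2) = t * t * s3 * s1 * s2 := by rw [h1.sq t h5]; group
      _ = t * s1 * s3 * s2 := by rw [mul_assoc t s1, b13 s1 h19 s3 h23 n1 n2 n5 n6]; group
      _ = s1 * s2 * s3 := by rw [mul_assoc s1, b23 s2 h21 s3 h23 n3 n4 n5 n6, h1.comm h5 h19]; group
  have e2 : s1 * s2 * (s1 * s2) = t := by
    calc s1 * s2 * (s1 * s2) = t * s2 * s1 * (s1 * s2) := by rw [← b12 s1 h19 s2 h21 n1 n2 n3 n4]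
      _ = t * s2 * (s1 * s1) * s2 := by group
      _ = t := by rw [h1.sq s1 h19, mul_one, mul_assoc, h2.sq s2 h21, mul_one]
  have e3 : (s1 * s2) • Q3 = Q3 := by
    rw [mul_smul, (c.pl y2).fix_adj h12 h16 h17 h21, (c.pl y1).fix_adj h11 h13 h14 h19]
  obtain ⟨Q4, h25, h26, h27⟩ := (c.pl y1).other h13 n5 h23
  obtain ⟨u, v, h28, h29⟩ := Set.ncard_eq_two.1 ((c.cntA hB hm h25 h13 h26.symm).trans hm2)
  have h30 : ∀ y ∈ ({u, v} : Set Ω), (s1 * s2) • y ∈ ({u, v} : Set Ω) := by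
    rw [← h29]
    intro y hy
    have h30 : ¬ Q3 ≤ stabilizer G ((s1 * s2) • y) := by rw [← e3, le_stab_smul]; exact hy.2
    exact ⟨(c.fix_or hB h13 h25 h26.1 n5 h23 h27
      (by rw [← mul_smul, e1, mul_smul, show s3 • y = y from hy.1 h27])).resolve_left h30, h30⟩
  have h31 : t • u = u := by
    rw [← e2, mul_smul]
    rcases h30 u (Or.inl rfl) with e | e
    · rw [e, e]
    · rcases h30 v (Or.inr rfl) with e' | e'
      · rw [e, e']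
      · exact absurd (smul_left_cancel _ (e.trans e'.symm)) h28
  have h32 : Q4 ≤ stabilizer G u ∧ ¬ Q3 ≤ stabilizer G u := (Set.ext_iff.1 h29 u).2 (Or.inl rfl)
  have h33 := hS.vx h11 ((c.fix_or hB h11 h13 h14.1 h4 h5 h15 h31).resolve_right h32.2)
  have h34 := hS.vx h12 ((c.fix_or hB h12 h16 h17.1 h4 h6 h15 h31).resolve_right h32.2)
  obtain ⟨T, h35, h36, h37⟩ := (c.pl u).comm (hS y1 u s3 (h13.le h23) (h13.sq s3 h23) (h32.1 h27)) (h33.le h5)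
    (h13.sq s3 h23) (h1.sq t h5) n5 h4 (h13.comm h23 h15)
  rcases (c.pl u).two h33 h34 h35 h4 h5 h6 h37 h3.1 with rfl | rfl
  · exact h24 h36
  · exact (a23 s3 h36 h23).elim n5 n6

end Ctx

end Cfsg.Agent.Hir
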