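import Cfsg.Agent.Hir.TypeB

/-! The action on points: the local planes fit together. -/

set_option autoImplicit false

namespace Cfsg.Agent.Hir

open Subgroup MulAction

variable {G Ω : Type*} [Group G] [MulAction G Ω] [Finite G]
variable {q : ℕ} {N : Ω → Subgroup G} {ty : Ω → Subgroup G → Bool} {x y a b : Ω} {P Q R S T P' : Subgroup G}

theorem Pl.tr_of_cent {N : Subgroup G} {ty : Subgroup G → Bool} (h : Pl q N ty) (hP : Vx q N P) {g : G}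
    (hg : g • N = N) (h1 : ∀ R, Vx q N R → Adj P R → ∀ s ∈ R, g * s = s * g) : Tr q N g := by
  have key : ∀ R, Vx q N R → Adj P R → ∀ C, Vx q N C → Adj R C → g • C = C := by
    intro R hR h2 C hC h3
    obtain ⟨z, h4, h5, h6⟩ := h3.2
    exact h.fix_of_comm hR hC hg h4 h5 h6 h3.1 (h1 R hR h2 z h5)
      (cj_eq_of_le fun s hs => by rw [h1 R hR h2 s hs]; simpa using hs)
  obtain ⟨A, hA, h2, -⟩ := h.exists_nbr hP P P
  obtain ⟨B, hB, h3, h4, -⟩ := h.exists_nbr hP A A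
  exact h.cc0 (col_smul hg) hA hB (bool3 (h.adj_ty hA hP h2.symm) (h.adj_ty hB hP h3.symm)) h4.symm
    (key A hA h2) (key B hB h3)

namespace Ctx

variable (c : Ctx q N ty)
include c

omit [Finite G] in
theorem comm_mem {d s : G} (h1 : d ∈ N b) (h2 : s • b = b) : d * s * d⁻¹ * s⁻¹ ∈ N b := by
  have := (N b).mul_mem h1 (conj_mem_of_fix (c.norm h2) ((N b).inv_mem h1))
  simpa [mul_assoc] using this

theorem exists_inf (hab : a ≠ b) (h : CenAt q N a b P) (h' : CenAt q N b a P') :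
    ∃ d, d ≠ 1 ∧ d ∈ N a ∧ d ∈ N b := by
  by_contra! hc
  obtain ⟨t, h1, h2⟩ := (c.pl b).exists_ne_one h'.vP
  have h3 := (c.pl a).tr_of_cent h.vP (c.norm (h'.sP h1)) fun R hR h3 s hs => by
    by_contra h4
    refine hc (t * s * t⁻¹ * s⁻¹) (fun e => h4 (by rwa [mul_inv_eq_one, mul_inv_eq_iff_eq_mul] at e))
      ((N a).mul_mem (conj_mem_of_fix (c.norm (h'.sP h1)) (hR.le hs)) ((N a).inv_mem (hR.le hs)))
      (c.comm_mem (h'.vP.le h1) (h.sA hR h3 hs))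
  obtain ⟨w, h4, -, h5, h6⟩ := c.common hab (h'.vP.le h1) (h'.vP.sq t h1) h2 ((c.pl a).comm_of_tr h3) hab
  exact hc w h4 h5 h6

theorem exists_inf' (hab : a ≠ b) (h : CenAt q N a b P) (h' : CenAt q N b a P') :
    ∃ d, d ≠ 1 ∧ d ∈ P ∧ d ∈ N b := by
  by_contra! hc
  have h1 : ∀ d ∈ N a, d ∈ N b → ∀ s ∈ P, d * s = s * d := fun d h1 h2 s hs => by
    by_contra h4
    refine hc (d * s * d⁻¹ * s⁻¹) (fun e => h4 (by rwa [mul_inv_eq_one, mul_inv_eq_iff_eq_mul] at e))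
      (P.mul_mem (conj_mem_of_fix (c.cen_fix h (c.fix a h1) (c.fix b h2)) hs) (P.inv_mem hs))
      (c.comm_mem h2 (h.sP hs))
  obtain ⟨d, h2, h3, h4⟩ := c.exists_inf hab h h'
  refine h2 ((c.pl a).eq_one_of_tr h3 ((c.pl a).tr_of_cent h.vP (cj_self h3) fun R hR h5 s hs => ?_))
  obtain ⟨z, h6, h7, h8⟩ := h5.2
  have h9 := R.mul_mem (conj_mem_of_fix ((c.pl a).fix_of_comm h.vP hR (cj_self h3) h6 h7 h8 h5.1 (h1 d h3 h4 z h7)
    (c.cen_fix h (c.fix a h3) (c.fix b h4))) hs) (R.inv_mem hs)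
  have h10 := c.comm_mem h4 (h.sA hR h5 hs)
  obtain ⟨r, h11, h12⟩ := (c.pl a).exists_notMem h.vP hR h5.1
  by_contra h13
  exact hc _ (fun e => h13 (by rwa [mul_inv_eq_one, mul_inv_eq_iff_eq_mul] at e))
    (by_contra fun h14 => (c.pl a).noncomm h.vP hR h5 h11 h12 h9 h14 (h1 _ (hR.le h9) h10 r h11).symm) h10

theorem cen_le (hab : a ≠ b) (h : CenAt q N a b P) (h' : CenAt q N b a P') : P ≤ N b := by
  have key : ∀ e ∈ P, e ∈ N b → ∀ R, Vx q (N a) R → Adj P R → e ∉ R → ∀ z ∈ P, z ∈ R → z ∈ N b := by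
    intro e h1 h2 R hR h3 h4 z h5 h6
    obtain ⟨s, h7, h8⟩ := (c.pl a).cover h.vP hR h3 h1 h4 h5 h6
    have := conj_mem_of_fix (c.norm (h.sA hR h3 h7)) h2
    rwa [h8, (N b).mul_mem_cancel_right h2] at this
  obtain ⟨e, h1, h2, h3⟩ := c.exists_inf' hab h h'
  intro z hz
  by_cases h4 : z = 1
  · exact h4 ▸ (N b).one_mem
  obtain ⟨R, hR, h5, h6⟩ := (c.pl a).other h.vP h4 hz
  by_cases h7 : e ∈ R
  · obtain ⟨w, h8, h9⟩ := (c.pl a).exists_notMem h.vP hR h5.1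
    obtain ⟨S, hS, h10, h11⟩ := (c.pl a).other h.vP (t := w) (fun e => h9 (e ▸ R.one_mem)) h8
    refine key w h8 (key e h2 h3 S hS h10 (fun h12 => ?_) w h8 h11) R hR h5 h9 z hz h6
    rcases (c.pl a).two h.vP hR hS h1 h2 h7 h12 h5.1 with e | e
    · exact h10.1 e.symm
    · exact h9 (e ▸ h11)
  · exact key e h2 h3 R hR h5 h7 z hz h6

theorem cen_eq (hab : a ≠ b) (h : CenAt q N a b P) (h' : CenAt q N b a P') : P = P' := by
  have h1 : Vx q (N a) P' := ⟨c.cen_le hab.symm h' h, h'.vP.sq, h'.vP.card⟩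
  refine (((h.iff P' h1).1 (c.vx_le h'.vP)).resolve_right fun h2 => ?_).symm
  obtain ⟨R, hR, h3, h4, -⟩ := (c.pl a).exists_nbr h.vP P' P'
  obtain ⟨s, h5, h6⟩ := (c.pl a).exists_notMem hR h.vP h3.1.symm
  have h7 : s ≠ 1 := fun e => h6 (e ▸ P.one_mem)
  obtain ⟨C, hC, h8, h9⟩ := (c.pl a).other hR h7 h5
  have h10 := (c.pl a).fix_ty hR hC h1 h7 h5 h9 h8.1 (c.cen_fix h' (h.sA hR h3 h5) (c.vx_le hR h5))
    (bool3 ((c.pl a).adj_ty hR h.vP h3.symm) ((c.pl a).adj_ty h1 h.vP h2.symm))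
  exact h6 ((c.pl a).eq_of_two hC h.vP hR h1 h4 h8 h10.symm h3.symm h2.symm ▸ h9)

theorem spread_eq (h : CenAt q N a b P) (h' : CenAt q N b a P) (hS : Vx q (N b) S) (h1 : Adj P S) :
    ∃ R, Vx q (N a) R ∧ Adj P R ∧ P ⊓ R = P ⊓ S := by
  obtain ⟨z, h2, h3, h4⟩ := h1.2
  obtain ⟨R, hR, h5, h6⟩ := (c.pl a).other h.vP h2 h3
  have e1 := (c.pl a).card_inf h.vP hR h5
  have e2 := (c.pl b).card_inf h'.vP hS h1
  refine ⟨R, hR, h5, ?_⟩
  by_cases hc : P ⊓ S ≤ P ⊓ R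
  · exact (eq_of_le_of_card_ge hc (e1.trans e2.symm).le).symm
  obtain ⟨w, h7, h8⟩ := SetLike.not_le_iff_exists.1 hc
  refine eq_of_le_of_card_ge (fun u hu => ⟨hu.1, ?_⟩) (e2.trans e1.symm).le
  obtain ⟨s, h9, h10⟩ := (c.pl a).cover h.vP hR h5 h7.1 (fun e => h8 ⟨h7.1, e⟩) hu.1 hu.2
  have := conj_mem_of_fix ((c.pl b).fix_of_comm h'.vP hS (c.norm (h.sA hR h5 h9)) h2 h3 h4 h1.1 (hR.comm h9 h6)
    ((c.pl a).fix_adj hR h.vP h5.symm h9)) h7.2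
  rwa [h10, S.mul_mem_cancel_right h7.2] at this

variable [Finite Ω]

theorem starP (hP : ∀ x y : Ω, x ≠ y → ∃ P, CenAt q N x y P) : Star N := by
  intro b a t h1 h2 h3
  by_cases hab : a = b
  · exact hab ▸ h1
  by_cases ht : t = 1
  · exact ht ▸ (N a).one_mem
  obtain ⟨P, h⟩ := hP a b hab
  obtain ⟨P', h'⟩ := hP b a (Ne.symm hab)
  obtain rfl := c.cen_eq hab h h'
  have h4 := c.cen_fix h h3 (c.fix b h1)
  obtain ⟨S, hS, h5, h6⟩ := (c.pl b).mem_nbr h'.vP h1 h2 h4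
  obtain ⟨R, hR, h7, e⟩ := c.spread_eq h h' hS h5
  have h8 : ∀ z ∈ P, z ∈ R → t * z = z * t := fun z h8 h9 => hS.comm h6 (And.right (a := z ∈ P) (e.le ⟨h8, h9⟩))
  obtain ⟨z, h9, h10, h11⟩ := h7.2
  obtain ⟨s, h12, h13, h14⟩ := (c.pl a).el_axis (c.norm h3) h2 h.vP hR h7 h4
    ((c.pl a).fix_of_comm h.vP hR (c.norm h3) h9 h10 h11 h7.1 (h8 z h10 h11) h4) h8
  by_cases h15 : s = 1
  · rw [h15, one_mul] at h14
    obtain ⟨r, h16, h17⟩ := (c.pl b).exists_notMem h'.vP hS h5.1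
    exact h.vP.le (by_contra fun h18 => (c.pl b).noncomm h'.vP hS h5 h16 h17 h6 h18
      ((c.pl a).comm_of_tr h14 r (h.vP.le h16)).symm)
  · exact c.eq_of_tr h12 h13 h15 h1 h2 ht h14 ▸ h12

theorem typeP (a : Ω) : ∀ x y : Ω, x ≠ y → ∃ P, CenAt q N x y P :=
  c.dichotomy.resolve_left fun h => c.not_typeB h a

theorem cen_ty (hP : ∀ x y : Ω, x ≠ y → ∃ P, CenAt q N x y P) {y' : Ω} (h1 : x ≠ y) (h2 : x ≠ y')
    (h : CenAt q N x y P) (h' : CenAt q N x y' P') : ty x P = ty x P' := by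
  by_contra hc
  obtain ⟨g, h3, rfl⟩ := c.two x y x y' h1 h2
  have key : ∀ z P, CenAt q N x z P → CenAt q N x (g • z) (g • P) := fun z P h4 => h3 ▸ c.cen_smul h4 g
  obtain rfl := c.cen_uniq (key y P h) h'
  have h4 : ∀ Q, Vx q (N x) Q → ty x (g • Q) ≠ ty x Q := fun Q hQ e =>
    hc ((c.pl x).ty_smul hQ h.vP (c.norm h3) e).symm
  have h5 : ∀ b, {z | z ≠ x ∧ ∃ Q, CenAt q N x z Q ∧ ty x Q = b}.ncard ≤
      {z | z ≠ x ∧ ∃ Q, CenAt q N x z Q ∧ ty x Q = !b}.ncard := fun b =>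
    Set.ncard_le_ncard_of_injOn (g • ·) (fun z ⟨h5, Q, h6, h7⟩ => ⟨fun e => h5 (smul_left_cancel g (e.trans h3.symm)),
      g • Q, key z Q h6, h7 ▸ Bool.eq_not_iff.2 (h4 Q h6.vP)⟩) (MulAction.injective g).injOn
  have h6 := h5 true
  have h7 := h5 false
  have h8 := c.even
  rw [← Set.ncard_univ, ← Set.ncard_sdiff_singleton_add_one (Set.mem_univ x),
    show Set.univ \ {x} = {z | z ≠ x ∧ ∃ Q, CenAt q N x z Q ∧ ty x Q = true} ∪
      {z | z ≠ x ∧ ∃ Q, CenAt q N x z Q ∧ ty x Q = false} from ?_, Set.ncard_union_eq] at h8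
  · simp only [Bool.not_true, Bool.not_false] at h6 h7
    omega
  · rw [Set.disjoint_left]
    rintro z ⟨-, Q, h9, h10⟩ ⟨-, R, h11, h12⟩
    rw [c.cen_uniq h9 h11, h12] at h10
    exact Bool.false_ne_true h10
  · ext z
    refine ⟨fun hz => ?_, fun hz => ⟨trivial, hz.elim And.left And.left⟩⟩
    obtain ⟨Q, h9⟩ := hP x z (Ne.symm hz.2)
    cases e : ty x Q
    · exact Or.inr ⟨hz.2, Q, h9, e⟩
    · exact Or.inl ⟨hz.2, Q, h9, e⟩

end Ctx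

end Cfsg.Agent.Hir
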